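import Mathlib

/-!
# Coefficients of one-parameter groups over a finite field

For a one-parameter group `x : k → A`, `k` a finite field of order `q` and `A` a `k`-algebra, there are unique
elements `coef x m` of `A`, `m < q`, with `x c = ∑ m < q, c ^ m • coef x m`.
-/

set_option autoImplicit false

namespace Cfsg.Agent.H379.P4.Coef

open Finset

section unique
variable {k : Type*} [Field k] {M : Type*} [AddCommGroup M] [Module k M]

/-- A polynomial with coefficients in a module and many zeros vanishes. -/
theorem unique (S : Finset k) {n : ℕ} (hn : n ≤ S.card) (a : ℕ → M)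
    (h : ∀ z ∈ S, ∑ m ∈ range n, z ^ m • a m = 0) : ∀ m < n, a m = 0 := by
  intro m hm
  rw [← Module.forall_dual_apply_eq_zero_iff k]
  intro φ
  let P : Polynomial k := ∑ i ∈ range n, Polynomial.C (φ (a i)) * Polynomial.X ^ i
  have hP : P = 0 := by
    apply Polynomial.eq_zero_of_natDegree_lt_card_of_eval_eq_zero' P S
    · intro z hz
      have h1 := congrArg φ (h z hz)
      rw [map_sum, map_zero] at h1
      simp only [P, Polynomial.eval_finsetSum, Polynomial.eval_mul, Polynomial.eval_C, Polynomial.eval_pow,
        Polynomial.eval_X]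
      rw [← h1]
      apply Finset.sum_congr rfl
      intro i _
      rw [map_smul, smul_eq_mul, mul_comm]
    · refine lt_of_lt_of_le ?_ hn
      have h0 : 0 < n := by omega
      refine lt_of_le_of_lt (Polynomial.natDegree_sum_le_of_forall_le (n := n - 1) _ _ ?_) (by omega)
      intro i hi
      refine (Polynomial.natDegree_C_mul_X_pow_le _ _).trans ?_
      rw [mem_range] at hi
      omega
  have h2 := congrArg (fun R : Polynomial k => R.coeff m) hP
  simp only [P, Polynomial.finsetSum_coeff, Polynomial.coeff_C_mul, Polynomial.coeff_X_pow, mul_ite, mul_one,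
    mul_zero, Polynomial.coeff_zero] at h2
  rw [Finset.sum_ite_eq (range n) m (fun i => φ (a i))] at h2
  rwa [if_pos (mem_range.2 hm)] at h2

theorem unique_univ [Fintype k] (a : ℕ → M) (h : ∀ z : k, ∑ m ∈ range (Fintype.card k), z ^ m • a m = 0) :
    ∀ m < Fintype.card k, a m = 0 :=
  unique (Finset.univ) (by rw [Finset.card_univ]) a (fun z _ => h z)

theorem eq_of [Fintype k] (a b : ℕ → M)
    (h : ∀ z : k, ∑ m ∈ range (Fintype.card k), z ^ m • a m = ∑ m ∈ range (Fintype.card k), z ^ m • b m) :
    ∀ m < Fintype.card k, a m = b m := by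
  intro m hm
  rw [← sub_eq_zero]
  refine unique_univ (fun i => a i - b i) ?_ m hm
  intro z
  simp only [smul_sub, Finset.sum_sub_distrib]
  rw [h z, sub_self]

end unique

section sums
variable (k : Type*) [Field k] [Fintype k] [DecidableEq k]

theorem sum_units_pow (n : ℕ) : ∑ t : kˣ, ((t : k) ^ n) = if Fintype.card k - 1 ∣ n then -1 else 0 := by
  have := FiniteField.sum_pow_units k n
  simpa using this

theorem sum_range_div {c d : k} (hc : c ≠ 0) (hd : d ≠ 0) :
    ∑ m ∈ range (Fintype.card k - 1), c ^ (m + 1) * d ^ (Fintype.card k - 1 - (m + 1)) = if c = d then -1 else 0 := by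
  classical
  have hq : 1 < Fintype.card k := Fintype.one_lt_card
  have h1 : ∀ m ∈ range (Fintype.card k - 1), c ^ (m + 1) * d ^ (Fintype.card k - 1 - (m + 1)) =
      (c / d) * (c / d) ^ m := by
    intro m hm
    rw [mem_range] at hm
    rw [← pow_succ', div_pow]
    have h2 : d ^ (Fintype.card k - 1 - (m + 1)) * d ^ (m + 1) = 1 := by
      rw [← pow_add, Nat.sub_add_cancel (by omega), FiniteField.pow_card_sub_one_eq_one d hd]
    rw [div_eq_mul_inv]
    congr 1
    exact eq_inv_of_mul_eq_one_left h2
  rw [Finset.sum_congr rfl h1, ← Finset.mul_sum]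
  split_ifs with h
  · subst h
    rw [div_self hc]
    simp only [one_pow, Finset.sum_const, card_range, nsmul_eq_mul, mul_one, one_mul]
    rw [Nat.cast_sub (by omega), Nat.cast_one, FiniteField.cast_card_eq_zero, zero_sub]
  · have h3 : c / d ≠ 1 := by
      rw [Ne, div_eq_one_iff_eq hd]; exact h
    rw [geom_sum_eq h3, FiniteField.pow_card_sub_one_eq_one _ (div_ne_zero hc hd), sub_self, zero_div, mul_zero]

end sums

section coef
variable {k : Type*} [Field k] [Fintype k] {A : Type*} [Ring A] [Algebra k A]

/-- the coefficients -/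
noncomputable def coef (x : k → A) (m : ℕ) : A :=
  if m = 0 then 1 else -∑ c : k, c ^ (Fintype.card k - 1 - m) • x c

theorem coef_zero (x : k → A) : coef x 0 = 1 := if_pos rfl

theorem coef_of_pos (x : k → A) {m : ℕ} (hm : m ≠ 0) : coef x m = -∑ c : k, c ^ (Fintype.card k - 1 - m) • x c :=
  if_neg hm

theorem coef_top {x : k → A} (h : ∑ c : k, x c = 0) : coef x (Fintype.card k - 1) = 0 := by
  have hq : 1 < Fintype.card k := Fintype.one_lt_card
  rw [coef_of_pos _ (by omega), Nat.sub_self]
  simp only [pow_zero, one_smul]
  rw [h, neg_zero]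

theorem expand {x : k → A} (h0 : x 0 = 1) (c : k) : x c = ∑ m ∈ range (Fintype.card k), c ^ m • coef x m := by
  classical
  have hq : 1 < Fintype.card k := Fintype.one_lt_card
  have h1 : Fintype.card k = Fintype.card k - 1 + 1 := by omega
  rw [h1, Finset.sum_range_succ', coef_zero, pow_zero, one_smul]
  by_cases hc : c = 0
  · subst hc
    simp only [pow_succ, mul_zero, zero_smul, Finset.sum_const_zero, zero_add]
    exact h0
  have h2 : ∀ m ∈ range (Fintype.card k - 1), c ^ (m + 1) • coef x (m + 1) =
      -∑ d : k, (c ^ (m + 1) * d ^ (Fintype.card k - 1 - (m + 1))) • x d := by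
    intro m _
    rw [coef_of_pos x (Nat.succ_ne_zero m), smul_neg, Finset.smul_sum]
    congr 1
    apply Finset.sum_congr rfl
    intro d _
    rw [smul_smul]
  rw [Finset.sum_congr rfl h2, Finset.sum_neg_distrib, Finset.sum_comm]
  simp only [← Finset.sum_smul]
  have h3 : ∀ d : k, (∑ m ∈ range (Fintype.card k - 1), c ^ (m + 1) * d ^ (Fintype.card k - 1 - (m + 1))) • x d =
      (if d = c then -x c else 0) + (if d = 0 then 1 else 0) := by
    intro d
    by_cases hd : d = 0
    · subst hd
      rw [if_neg (Ne.symm hc), if_pos rfl, h0, zero_add]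
      rw [Finset.sum_eq_single (Fintype.card k - 1 - 1)]
      · rw [Nat.sub_add_cancel (by omega), Nat.sub_self, pow_zero, mul_one,
          FiniteField.pow_card_sub_one_eq_one c hc, one_smul]
      · intro m hm hne
        rw [mem_range] at hm
        rw [zero_pow (by omega), mul_zero]
      · intro h
        exact absurd (mem_range.2 (by omega)) h
    · rw [sum_range_div k hc hd, if_neg hd, add_zero]
      by_cases hcd : c = d
      · subst hcd
        rw [if_pos rfl, if_pos rfl, neg_smul, one_smul]
      · rw [if_neg hcd, if_neg (Ne.symm hcd), zero_smul]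
  rw [Finset.sum_congr rfl (fun d _ => h3 d), Finset.sum_add_distrib, Finset.sum_ite_eq', Finset.sum_ite_eq',
    if_pos (mem_univ _), if_pos (mem_univ _)]
  abel

theorem coef_unique {x : k → A} (h0 : x 0 = 1) (a : ℕ → A)
    (h : ∀ c : k, x c = ∑ m ∈ range (Fintype.card k), c ^ m • a m) : ∀ m < Fintype.card k, coef x m = a m :=
  eq_of _ _ (fun z => by rw [← expand h0, h])

/-- conjugation by an element which acts on the parameter by multiplication -/
theorem coef_conj {x : k → A} (h0 : x 0 = 1) {g : A} {s : k} (h : ∀ c : k, g * x c = x (s * c) * g) {m : ℕ}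
    (hm : m < Fintype.card k) : g * coef x m = s ^ m • (coef x m * g) := by
  refine eq_of (fun i => g * coef x i) (fun i => s ^ i • (coef x i * g)) ?_ m hm
  intro z
  have h1 := h z
  rw [expand h0 z, expand h0 (s * z), Finset.mul_sum, Finset.sum_mul] at h1
  simp only [mul_smul_comm, smul_mul_assoc] at h1
  rw [h1]
  apply Finset.sum_congr rfl
  intro i _
  rw [mul_pow, smul_smul, mul_comm]

theorem coef_commute {x : k → A} {g : A} (h : ∀ c : k, Commute g (x c)) (m : ℕ) : Commute g (coef x m) := by
  by_cases hm : m = 0
  · subst hm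
    rw [coef_zero]
    exact Commute.one_right g
  · rw [coef_of_pos _ hm]
    apply Commute.neg_right
    apply Commute.sum_right
    intro c _
    exact (h c).smul_right _

/-- products of coefficients -/
theorem coef_mul {x : k → A} (h0 : x 0 = 1) (hadd : ∀ c d : k, x (c + d) = x c * x d) {m n : ℕ}
    (hm : m < Fintype.card k) (hn : n < Fintype.card k) :
    coef x m * coef x n = if m + n < Fintype.card k then ((m + n).choose m : k) • coef x (m + n) else 0 := by
  set q := Fintype.card k with hq
  -- the coefficients of `x (c + d)`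
  have key : ∀ c d : k, ∑ i ∈ range q, c ^ i • ∑ j ∈ range q, d ^ j • (coef x i * coef x j) =
      ∑ i ∈ range q, c ^ i • ∑ j ∈ range q, d ^ j •
        (if i + j < q then ((i + j).choose i : k) • coef x (i + j) else 0) := by
    intro c d
    have h1 := hadd c d
    rw [expand h0 c, expand h0 d, expand h0 (c + d), Finset.sum_mul_sum] at h1
    have h2 : ∑ i ∈ range q, c ^ i • ∑ j ∈ range q, d ^ j • (coef x i * coef x j) =
        ∑ i ∈ range q, ∑ j ∈ range q, c ^ i • coef x i * d ^ j • coef x j := by
      apply Finset.sum_congr rfl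
      intro i _
      rw [Finset.smul_sum]
      apply Finset.sum_congr rfl
      intro j _
      rw [smul_mul_assoc, mul_smul_comm]
    rw [h2, ← h1]
    have h3 : ∀ N ∈ range q, (c + d) ^ N • coef x N =
        ∑ i ∈ range q, ∑ j ∈ range q, if i + j = N then (c ^ i * d ^ j * (N.choose i : k)) • coef x N else 0 := by
      intro N hN
      rw [mem_range] at hN
      rw [(Commute.all c d).add_pow', Finset.sum_smul, ← Finset.sum_product']
      rw [← Finset.sum_filter]
      apply Finset.sum_congr
      · ext ⟨i, j⟩
        simp only [HasAntidiagonal.mem_antidiagonal, Finset.mem_filter, Finset.mem_product, mem_range]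
        constructor
        · intro h; exact ⟨⟨by omega, by omega⟩, h⟩
        · intro h; exact h.2
      · rintro ⟨i, j⟩ _
        simp only [nsmul_eq_mul]
        congr 1
        ring
    rw [Finset.sum_congr rfl h3, Finset.sum_comm]
    apply Finset.sum_congr rfl
    intro i hi
    rw [Finset.sum_comm, Finset.smul_sum]
    apply Finset.sum_congr rfl
    intro j hj
    rw [Finset.sum_ite_eq]
    by_cases hij : i + j < q
    · rw [if_pos (mem_range.2 hij), if_pos hij, smul_smul, smul_smul, mul_assoc]
    · rw [if_neg (fun h => hij (mem_range.1 h)), if_neg hij, smul_zero, smul_zero]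
  have h4 : ∀ d : k, ∑ j ∈ range q, d ^ j • (coef x m * coef x j) =
      ∑ j ∈ range q, d ^ j • (if m + j < q then ((m + j).choose m : k) • coef x (m + j) else 0) := by
    intro d
    exact eq_of (fun i => ∑ j ∈ range q, d ^ j • (coef x i * coef x j))
      (fun i => ∑ j ∈ range q, d ^ j • (if i + j < q then ((i + j).choose i : k) • coef x (i + j) else 0))
      (fun c => key c d) m hm
  exact eq_of (fun j => coef x m * coef x j)
    (fun j => if m + j < q then ((m + j).choose m : k) • coef x (m + j) else 0) h4 n hn

end coef

end Cfsg.Agent.H379.P4.Coef
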