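import Mathlib
import Cfsg.Agent.H379.P4.Coef

/-!
# Representations of `SL₂(q)` in its own characteristic: the product of opposite coefficients

If `v` is fixed by the upper unitriangular group and has weight `l ≤ q - 2` and the sums of the root groups act
as zero then `E_m F_m v = binom(l, m) v`.
-/

set_option autoImplicit false

namespace Cfsg.Agent.H379.P4.SLTwo

open Finset Matrix Coef

open scoped MatrixGroups

section elements
variable {k : Type*} [Field k]

/-- upper root element -/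
def xm (c : k) : SL(2, k) := ⟨!![1, c; 0, 1], by rw [Matrix.det_fin_two_of]; ring⟩
/-- lower root element -/
def ym (c : k) : SL(2, k) := ⟨!![1, 0; c, 1], by rw [Matrix.det_fin_two_of]; ring⟩
/-- torus element -/
def hm (t : kˣ) : SL(2, k) := ⟨!![(t : k), 0; 0, ((t⁻¹ : kˣ) : k)], by
  rw [Matrix.det_fin_two_of, Units.mul_inv]; ring⟩
/-- Weyl element -/
def nm : SL(2, k) := ⟨!![0, -1; 1, 0], by rw [Matrix.det_fin_two_of]; ring⟩

theorem coe_xm (c : k) : (xm c : Matrix (Fin 2) (Fin 2) k) = !![1, c; 0, 1] := rfl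
theorem coe_ym (c : k) : (ym c : Matrix (Fin 2) (Fin 2) k) = !![1, 0; c, 1] := rfl
theorem coe_hm (t : kˣ) : (hm t : Matrix (Fin 2) (Fin 2) k) = !![(t : k), 0; 0, ((t⁻¹ : kˣ) : k)] := rfl
theorem coe_nm : ((nm : SL(2, k)) : Matrix (Fin 2) (Fin 2) k) = !![0, -1; 1, 0] := rfl

theorem xm_zero : xm (0 : k) = 1 := by
  apply Subtype.ext
  rw [coe_xm, Matrix.SpecialLinearGroup.coe_one, Matrix.one_fin_two]

theorem ym_zero : ym (0 : k) = 1 := by
  apply Subtype.ext
  rw [coe_ym, Matrix.SpecialLinearGroup.coe_one, Matrix.one_fin_two]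

theorem xm_add (c d : k) : xm (c + d) = xm c * xm d := by
  apply Subtype.ext
  rw [Matrix.SpecialLinearGroup.coe_mul, coe_xm, coe_xm, coe_xm]
  simp [add_comm]

theorem ym_add (c d : k) : ym (c + d) = ym c * ym d := by
  apply Subtype.ext
  rw [Matrix.SpecialLinearGroup.coe_mul, coe_ym, coe_ym, coe_ym]
  simp

theorem hm_mul (s t : kˣ) : hm (s * t) = hm s * hm t := by
  apply Subtype.ext
  rw [Matrix.SpecialLinearGroup.coe_mul, coe_hm, coe_hm, coe_hm]
  simp [mul_comm]

theorem hm_one : hm (1 : kˣ) = 1 := by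
  apply Subtype.ext
  rw [coe_hm, Matrix.SpecialLinearGroup.coe_one, Matrix.one_fin_two]
  simp

theorem hm_xm (t : kˣ) (c : k) : hm t * xm c = xm ((t : k) ^ 2 * c) * hm t := by
  apply Subtype.ext
  rw [Matrix.SpecialLinearGroup.coe_mul, Matrix.SpecialLinearGroup.coe_mul, coe_xm, coe_xm, coe_hm]
  ext i j
  fin_cases i <;> fin_cases j <;> simp
  field_simp

theorem hm_ym (t : kˣ) (c : k) : hm t * ym c = ym ((((t⁻¹ : kˣ) : k)) ^ 2 * c) * hm t := by
  apply Subtype.ext
  rw [Matrix.SpecialLinearGroup.coe_mul, Matrix.SpecialLinearGroup.coe_mul, coe_ym, coe_ym, coe_hm]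
  ext i j
  fin_cases i <;> fin_cases j <;> simp
  field_simp

theorem hm_nm (t : kˣ) : hm t * nm = nm * hm t⁻¹ := by
  apply Subtype.ext
  rw [Matrix.SpecialLinearGroup.coe_mul, Matrix.SpecialLinearGroup.coe_mul, coe_nm, coe_hm, coe_hm]
  ext i j
  fin_cases i <;> fin_cases j <;> simp

/-- the basic relation -/
theorem xm_ym (c d : k) (t : kˣ) (ht : (t : k) = 1 + c * d) :
    xm c * ym d = ym (d * ((t⁻¹ : kˣ) : k)) * (hm t * xm (((t⁻¹ : kˣ) : k) * c)) := by
  apply Subtype.ext
  have h1 : (t : k) * ((t⁻¹ : kˣ) : k) = 1 := Units.mul_inv t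
  set s := ((t⁻¹ : kˣ) : k) with hs
  rw [Matrix.SpecialLinearGroup.coe_mul, Matrix.SpecialLinearGroup.coe_mul, Matrix.SpecialLinearGroup.coe_mul,
    coe_xm, coe_xm, coe_ym, coe_ym, coe_hm, ← hs]
  ext i j
  fin_cases i <;> fin_cases j
  · simp [ht]
  · simp only [Matrix.mul_apply, Fin.sum_univ_two]
    simp
    linear_combination -c * h1
  · simp only [Matrix.mul_apply, Fin.sum_univ_two]
    simp
    linear_combination -d * h1
  · simp only [Matrix.mul_apply, Fin.sum_univ_two]
    simp
    linear_combination (-1 - d * s * c) * h1 + s * ht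

/-- the big cell -/
theorem big_cell (g : SL(2, k)) (u : kˣ) (hu : (u : k) = g.1 1 0) :
    g = xm (g.1 0 0 * ((u⁻¹ : kˣ) : k)) * (nm * (hm u * xm (g.1 1 1 * ((u⁻¹ : kˣ) : k)))) := by
  apply Subtype.ext
  have h1 : (u : k) * ((u⁻¹ : kˣ) : k) = 1 := Units.mul_inv u
  have h2 : g.1 0 0 * g.1 1 1 - g.1 0 1 * g.1 1 0 = 1 := by
    rw [← Matrix.det_fin_two]; exact g.2
  set s := ((u⁻¹ : kˣ) : k) with hs
  rw [Matrix.SpecialLinearGroup.coe_mul, Matrix.SpecialLinearGroup.coe_mul, Matrix.SpecialLinearGroup.coe_mul,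
    coe_xm, coe_xm, coe_nm, coe_hm, ← hs]
  rw [← hu] at h2
  ext i j
  fin_cases i <;> fin_cases j
  · simp only [Matrix.mul_apply, Fin.sum_univ_two]
    simp
    linear_combination -(g.1 0 0) * h1
  · simp only [Matrix.mul_apply, Fin.sum_univ_two]
    simp
    linear_combination (-g.1 0 1 - g.1 0 0 * g.1 1 1 * s) * h1 - s * h2
  · simp only [Matrix.mul_apply, Fin.sum_univ_two]
    simp [hu]
  · simp only [Matrix.mul_apply, Fin.sum_univ_two]
    simp
    linear_combination -(g.1 1 1) * h1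

/-- the Borel subgroup -/
theorem borel (g : SL(2, k)) (hg : g.1 1 0 = 0) : ∃ (t : kˣ) (c : k), g = hm t * xm c := by
  have h2 : g.1 0 0 * g.1 1 1 = 1 := by
    have h3 : g.1 0 0 * g.1 1 1 - g.1 0 1 * g.1 1 0 = 1 := by
      rw [← Matrix.det_fin_two]; exact g.2
    rw [hg, mul_zero, sub_zero] at h3
    exact h3
  refine ⟨⟨g.1 0 0, g.1 1 1, h2, by rw [mul_comm]; exact h2⟩, g.1 1 1 * g.1 0 1, ?_⟩
  apply Subtype.ext
  rw [Matrix.SpecialLinearGroup.coe_mul, coe_xm, coe_hm]
  ext i j
  fin_cases i <;> fin_cases j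
  · simp
  · simp only [Matrix.mul_apply, Fin.sum_univ_two]
    simp
    linear_combination -(g.1 0 1) * h2
  · simp [hg]
  · simp

end elements

section sums
variable {k : Type*} [Field k] [Fintype k] [DecidableEq k]

theorem sum_units_two {m n : ℕ} (hm : m < Fintype.card k - 1) (hn : n < Fintype.card k - 1) :
    ∑ t : kˣ, (t : k) ^ m * ((t⁻¹ : kˣ) : k) ^ n = if m = n then -1 else 0 := by
  have h1 : ∀ t : kˣ, (t : k) ^ m * ((t⁻¹ : kˣ) : k) ^ n = (t : k) ^ (m + (Fintype.card k - 1 - n)) := by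
    intro t
    rw [pow_add]
    congr 1
    have h2 : (t : k) ^ (Fintype.card k - 1 - n) * (t : k) ^ n = 1 := by
      rw [← pow_add, Nat.sub_add_cancel (by omega), FiniteField.pow_card_sub_one_eq_one _ t.ne_zero]
    have h3 : ((t⁻¹ : kˣ) : k) ^ n * (t : k) ^ n = 1 := by
      rw [← mul_pow, Units.inv_mul, one_pow]
    exact mul_right_cancel₀ (pow_ne_zero n t.ne_zero) (h3.trans h2.symm)
  rw [Finset.sum_congr rfl (fun t _ => h1 t), sum_units_pow]
  by_cases hmn : m = n
  · rw [if_pos hmn, if_pos]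
    rw [hmn, Nat.add_sub_cancel' hn.le]
  · rw [if_neg hmn, if_neg]
    rintro ⟨c, hc⟩
    have h0 : 0 < Fintype.card k - 1 := by omega
    set N := Fintype.card k - 1 with hN
    have h4 : c < 2 := by
      by_contra hc2
      have : N * 2 ≤ N * c := Nat.mul_le_mul_left _ (by omega)
      omega
    have h5 : 0 < c := by
      rcases Nat.eq_zero_or_pos c with h | h
      · subst h; omega
      · exact h
    have h6 : c = 1 := by omega
    subst h6
    omega

end sums

section rep
variable {k : Type*} [Field k] [Fintype k] {M : Type*} [AddCommGroup M] [Module k M]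
  (ρ : SL(2, k) →* Module.End k M)

/-- the upper root group in the representation -/
def X (c : k) : Module.End k M := ρ (xm c)
/-- the lower root group in the representation -/
def Y (c : k) : Module.End k M := ρ (ym c)

omit [Fintype k] in
theorem X_zero : X ρ 0 = 1 := by rw [X, xm_zero, map_one]
omit [Fintype k] in
theorem Y_zero : Y ρ 0 = 1 := by rw [Y, ym_zero, map_one]
omit [Fintype k] in
theorem X_add (c d : k) : X ρ (c + d) = X ρ c * X ρ d := by rw [X, xm_add, map_mul]; rfl
omit [Fintype k] in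
theorem Y_add (c d : k) : Y ρ (c + d) = Y ρ c * Y ρ d := by rw [Y, ym_add, map_mul]; rfl

omit [Module k M] in
theorem range_pred (f : ℕ → M) (hf : f (Fintype.card k - 1) = 0) :
    ∑ m ∈ range (Fintype.card k), f m = ∑ m ∈ range (Fintype.card k - 1), f m := by
  have hq : 1 < Fintype.card k := Fintype.one_lt_card
  have h1 : Fintype.card k = Fintype.card k - 1 + 1 := by omega
  rw [h1, Finset.sum_range_succ, ← h1, hf, add_zero]

theorem expand_apply {x : k → Module.End k M} (h0 : x 0 = 1) (ht : ∑ c : k, x c = 0) (c : k) (v : M) :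
    x c v = ∑ m ∈ range (Fintype.card k - 1), c ^ m • coef x m v := by
  rw [expand h0 c, LinearMap.sum_apply]
  rw [range_pred (k := k)]
  · rfl
  · rw [coef_top ht, smul_zero, LinearMap.zero_apply]

/-- **The product of opposite coefficients.** -/
theorem coef_coef {v : M} {l : ℕ} (hl : l < Fintype.card k - 1) (hX : ∑ c : k, X ρ c = 0) (hY : ∑ c : k, Y ρ c = 0)
    (hv : ∀ c : k, ρ (xm c) v = v) (hw : ∀ t : kˣ, ρ (hm t) v = (t : k) ^ l • v) {m : ℕ}
    (hm' : m < Fintype.card k - 1) : coef (X ρ) m (coef (Y ρ) m v) = (l.choose m : k) • v := by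
  classical
  have hq : 1 < Fintype.card k := Fintype.one_lt_card
  have hk0 : 0 < Fintype.card k - 1 := by omega
  have hz : ∀ z : k, z ∈ (Finset.univ.erase (-1) : Finset k) →
      ∑ m ∈ range (Fintype.card k - 1), z ^ m • (coef (X ρ) m (coef (Y ρ) m v) - (l.choose m : k) • v) = 0 := by
    intro z hz
    have hz1 : 1 + z ≠ 0 := by
      intro h
      exact (Finset.mem_erase.1 hz).1 (eq_neg_of_add_eq_zero_right h)
    let s : kˣ := Units.mk0 (1 + z) hz1
    -- one side
    have h1 : ∀ t : kˣ, X ρ (t : k) (Y ρ (z * ((t⁻¹ : kˣ) : k)) v) =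
        ∑ m ∈ range (Fintype.card k - 1), ∑ n ∈ range (Fintype.card k - 1),
          ((t : k) ^ m * ((t⁻¹ : kˣ) : k) ^ n) • (z ^ n • coef (X ρ) m (coef (Y ρ) n v)) := by
      intro t
      rw [expand_apply (X_zero ρ) hX]
      apply Finset.sum_congr rfl
      intro m _
      rw [expand_apply (Y_zero ρ) hY, map_sum, Finset.smul_sum]
      apply Finset.sum_congr rfl
      intro n _
      rw [map_smul, smul_smul, smul_smul]
      congr 1
      rw [mul_pow]; ring
    have h2 : ∑ t : kˣ, X ρ (t : k) (Y ρ (z * ((t⁻¹ : kˣ) : k)) v) =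
        -∑ m ∈ range (Fintype.card k - 1), z ^ m • coef (X ρ) m (coef (Y ρ) m v) := by
      rw [Finset.sum_congr rfl (fun t _ => h1 t), Finset.sum_comm, ← Finset.sum_neg_distrib]
      apply Finset.sum_congr rfl
      intro m hm
      rw [Finset.sum_comm]
      rw [Finset.sum_eq_single m]
      · rw [← Finset.sum_smul, sum_units_two (mem_range.1 hm) (mem_range.1 hm), if_pos rfl, neg_smul, one_smul]
      · intro n hn hne
        rw [← Finset.sum_smul, sum_units_two (mem_range.1 hm) (mem_range.1 hn), if_neg (Ne.symm hne), zero_smul]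
      · intro h
        exact absurd hm h
    -- the other side
    have h3 : ∀ t : kˣ, X ρ (t : k) (Y ρ (z * ((t⁻¹ : kˣ) : k)) v) =
        (1 + z) ^ l • Y ρ ((z * ((s⁻¹ : kˣ) : k)) * ((t⁻¹ : kˣ) : k)) v := by
      intro t
      have h4 := congrArg (fun g => ρ g v) (xm_ym (t : k) (z * ((t⁻¹ : kˣ) : k)) s (by
        change 1 + z = _
        have : (t : k) * ((t⁻¹ : kˣ) : k) = 1 := Units.mul_inv t
        linear_combination (-z) * this))
      simp only [map_mul, Module.End.mul_apply] at h4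
      rw [hv, hw, map_smul] at h4
      rw [X, Y, h4, Y]
      congr 3
      ring_nf
    have h5 : ∑ t : kˣ, X ρ (t : k) (Y ρ (z * ((t⁻¹ : kˣ) : k)) v) = -((1 + z) ^ l • v) := by
      rw [Finset.sum_congr rfl (fun t _ => h3 t), ← Finset.smul_sum]
      have h6 : ∀ t : kˣ, Y ρ ((z * ((s⁻¹ : kˣ) : k)) * ((t⁻¹ : kˣ) : k)) v =
          ∑ n ∈ range (Fintype.card k - 1), ((t : k) ^ 0 * ((t⁻¹ : kˣ) : k) ^ n) •
            ((z * ((s⁻¹ : kˣ) : k)) ^ n • coef (Y ρ) n v) := by
        intro t
        rw [expand_apply (Y_zero ρ) hY]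
        apply Finset.sum_congr rfl
        intro n _
        rw [smul_smul, pow_zero, one_mul, mul_pow, mul_comm]
      rw [Finset.sum_congr rfl (fun t _ => h6 t), Finset.sum_comm, Finset.sum_eq_single 0]
      · rw [← Finset.sum_smul, sum_units_two hk0 hk0, if_pos rfl, neg_smul, one_smul, pow_zero, one_smul, coef_zero,
          Module.End.one_apply, smul_neg]
      · intro n hn hne
        rw [← Finset.sum_smul, sum_units_two hk0 (mem_range.1 hn), if_neg (Ne.symm hne), zero_smul]
      · intro h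
        exact absurd (mem_range.2 hk0) h
    have h7 : ∑ m ∈ range (Fintype.card k - 1), z ^ m • coef (X ρ) m (coef (Y ρ) m v) = (1 + z) ^ l • v :=
      neg_injective (h2.symm.trans h5)
    simp only [smul_sub, Finset.sum_sub_distrib]
    rw [h7, sub_eq_zero, add_comm, add_pow, Finset.sum_smul]
    rw [← Finset.sum_subset (Finset.range_subset_range.2 (show l + 1 ≤ Fintype.card k - 1 by omega))]
    · apply Finset.sum_congr rfl
      intro i _
      rw [smul_smul, one_pow, mul_one]
    · intro i _ hi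
      rw [mem_range, not_lt] at hi
      rw [Nat.choose_eq_zero_of_lt (by omega), Nat.cast_zero, zero_smul, smul_zero]
  have h8 := unique (Finset.univ.erase (-1)) (by
    rw [Finset.card_erase_of_mem (mem_univ _), Finset.card_univ]) _ hz m hm'
  exact sub_eq_zero.1 h8

end rep

end Cfsg.Agent.H379.P4.SLTwo
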