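import Mathlib
import Cfsg.Agent.H379.P4.SLTwo

/-!
# Elements of `SL₂(q)` of given trace, traces of the representations, sums over tori
-/

set_option autoImplicit false
set_option linter.unusedSimpArgs false

namespace Cfsg.Agent.H379.P4.Conj

open Finset Matrix Coef SLTwo Polynomial

open scoped MatrixGroups

section conj
variable {F : Type*} [Field F] [Fintype F]

theorem sq_form (hodd : Fintype.card F % 2 = 1) {A B : F} (hA : A ≠ 0) (hB : B ≠ 0) :
    ∃ x y : F, A * x ^ 2 + B * y ^ 2 = 1 := by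
  have h1 : (C A * Polynomial.X ^ 2 + C (-1) : F[X]).degree = 2 := by
    rw [degree_add_C, degree_C_mul_X_pow 2 hA]
    · rfl
    · rw [degree_C_mul_X_pow 2 hA]
      exact Nat.cast_pos.2 (by norm_num)
  have h2 : (C B * Polynomial.X ^ 2 : F[X]).degree = 2 := by
    rw [degree_C_mul_X_pow 2 hB]; rfl
  obtain ⟨x, y, hxy⟩ := FiniteField.exists_root_sum_quadratic h1 h2 hodd
  refine ⟨x, y, ?_⟩
  simp only [eval_add, eval_mul, eval_C, eval_pow, Polynomial.eval_X] at hxy
  linear_combination hxy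

theorem rep_one (hodd : Fintype.card F % 2 = 1) (h2 : (2 : F) ≠ 0) {a b c d : F} (hdet : a * d - b * c = 1)
    (hτ : (a + d) ^ 2 ≠ 4) : ∃ x y : F, -c * x ^ 2 + (a - d) * x * y + b * y ^ 2 = 1 := by
  have hdisc : (a - d) ^ 2 + 4 * b * c ≠ 0 := by
    intro h
    apply hτ
    linear_combination h + 4 * hdet
  by_cases hc : c = 0
  · subst hc
    have had : a - d ≠ 0 := by
      intro h
      apply hdisc
      rw [h]; ring
    refine ⟨(1 - b) / (a - d), 1, ?_⟩
    field_simp
    ring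
  · have h4 : (4 : F) ≠ 0 := by
      have : (4 : F) = 2 * 2 := by norm_num
      rw [this]
      exact mul_ne_zero h2 h2
    obtain ⟨x, y, hxy⟩ := sq_form hodd (A := -c) (B := ((a - d) ^ 2 + 4 * b * c) / (4 * c)) (neg_ne_zero.2 hc)
      (div_ne_zero hdisc (mul_ne_zero h4 hc))
    refine ⟨x + (a - d) / (2 * c) * y, y, ?_⟩
    rw [← hxy]
    field_simp
    ring

/-- An element with trace `τ`, `τ² ≠ 4`, is conjugate to the product of two opposite root elements. -/
theorem exists_conj (hodd : Fintype.card F % 2 = 1) (h2 : (2 : F) ≠ 0) (g : SL(2, F))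
    (hτ : (g.1 0 0 + g.1 1 1) ^ 2 ≠ 4) :
    ∃ h : SL(2, F), g * h = h * (xm 1 * ym (g.1 0 0 + g.1 1 1 - 2)) := by
  have hdet : g.1 0 0 * g.1 1 1 - g.1 0 1 * g.1 1 0 = 1 := by
    rw [← Matrix.det_fin_two]; exact g.2
  obtain ⟨x, y, hxy⟩ := rep_one hodd h2 hdet hτ
  let P : SL(2, F) := ⟨!![(g.1 0 0 - 1) * x + g.1 0 1 * y, x; g.1 1 0 * x + (g.1 1 1 - 1) * y, y], by
    rw [Matrix.det_fin_two_of]
    linear_combination hxy⟩
  have hP : (P : Matrix (Fin 2) (Fin 2) F) = !![(g.1 0 0 - 1) * x + g.1 0 1 * y, x; g.1 1 0 * x + (g.1 1 1 - 1) * y, y] :=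
    rfl
  refine ⟨P, ?_⟩
  · apply Subtype.ext
    rw [Matrix.SpecialLinearGroup.coe_mul, Matrix.SpecialLinearGroup.coe_mul, Matrix.SpecialLinearGroup.coe_mul,
      coe_xm, coe_ym, hP]
    set a := g.1 0 0 with ha
    set b := g.1 0 1 with hb
    set c := g.1 1 0 with hc
    set d := g.1 1 1 with hd
    ext i j
    fin_cases i <;> fin_cases j
    · simp only [Matrix.mul_apply, Fin.sum_univ_two]
      simp [← ha, ← hb, ← hc, ← hd]
      linear_combination (-x) * hdet
    · simp only [Matrix.mul_apply, Fin.sum_univ_two]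
      simp [← ha, ← hb, ← hc, ← hd]
      ring
    · simp only [Matrix.mul_apply, Fin.sum_univ_two]
      simp [← ha, ← hb, ← hc, ← hd]
      linear_combination (-y) * hdet
    · simp only [Matrix.mul_apply, Fin.sum_univ_two]
      simp [← ha, ← hb, ← hc, ← hd]
      ring

end conj

section sums
variable {K : Type*} [Field K] {ι : Type*} [Fintype ι]

/-- the sum of the values of a Laurent polynomial over a cyclic group of roots of unity -/
theorem laurent (t : ι → K) {N n : ℕ} (s : K) (ht : ∀ i, t i ≠ 0) (htN : ∀ i, t i ^ N = 1)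
    (hs : ∀ e, ∑ i, t i ^ e = if N ∣ e then s else 0) (hn : n < N) :
    ∑ i, (t i + (t i)⁻¹ - 2) ^ n = s * ((-1) ^ n * (2 * n).choose n) := by
  have h1 : ∀ i, (t i + (t i)⁻¹ - 2) ^ n = ∑ j ∈ range (2 * n + 1), ((-1) ^ (2 * n - j) * (2 * n).choose j) *
      t i ^ (j + (N - n)) := by
    intro i
    have h2 : t i + (t i)⁻¹ - 2 = (t i + -1) ^ 2 * (t i)⁻¹ := by
      have := ht i
      field_simp
      ring
    have h3 : ((t i)⁻¹) ^ n = t i ^ (N - n) := by
      rw [inv_pow]
      apply inv_eq_of_mul_eq_one_left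
      rw [← pow_add, Nat.sub_add_cancel hn.le, htN]
    rw [h2, mul_pow, ← pow_mul, h3, add_pow, Finset.sum_mul]
    apply Finset.sum_congr rfl
    intro j _
    rw [pow_add]
    ring
  rw [Finset.sum_congr rfl (fun i _ => h1 i), Finset.sum_comm]
  simp only [← Finset.mul_sum, hs]
  rw [Finset.sum_eq_single n]
  · rw [if_pos (by rw [Nat.add_sub_cancel' hn.le]), two_mul, Nat.add_sub_cancel, mul_comm]
  · intro j hj hne
    rw [mem_range] at hj
    rw [if_neg, mul_zero]
    rintro ⟨c, hc⟩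
    have h0 : 0 < N := by omega
    have h4 : c < 2 := by
      by_contra hc2
      have : N * 2 ≤ N * c := Nat.mul_le_mul_left _ (by omega)
      omega
    have h5 : 0 < c := by
      rcases Nat.eq_zero_or_pos c with h | h
      · subst h; omega
      · exact h
    have h6 : c = 1 := by omega
    subst h6
    omega
  · intro h
    exact absurd (mem_range.2 (by omega)) h

theorem sum_prim {β : K} {N : ℕ} (hβ : IsPrimitiveRoot β N) (e : ℕ) :
    ∑ i : Fin N, (β ^ (i : ℕ)) ^ e = if N ∣ e then (N : K) else 0 := by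
  rw [Fin.sum_univ_eq_sum_range (fun i => (β ^ i) ^ e)]
  have h1 : ∀ i, (β ^ i) ^ e = (β ^ e) ^ i := fun i => by rw [← pow_mul, ← pow_mul, mul_comm]
  simp only [h1]
  split_ifs with h
  · rw [(hβ.pow_eq_one_iff_dvd e).2 h]
    simp
  · have h2 : β ^ e ≠ 1 := fun h3 => h ((hβ.pow_eq_one_iff_dvd e).1 h3)
    rw [geom_sum_eq h2, ← pow_mul, mul_comm, pow_mul, hβ.pow_eq_one, one_pow, sub_self, zero_div]

end sums

end Cfsg.Agent.H379.P4.Conj
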