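import Mathlib

/-!
# Binomial coefficients without carries
-/

set_option autoImplicit false

namespace Cfsg.Agent.H379.P4.Digits

theorem not_dvd_choose {p a b : ℕ} (hp : p.Prime) (ha : a < p) (hb : b ≤ a) : ¬ p ∣ a.choose b := by
  intro h
  have h1 : a.choose b ∣ a.factorial := by
    rw [← Nat.choose_mul_factorial_mul_factorial hb, mul_assoc]
    exact dvd_mul_right _ _
  have h2 := (hp.dvd_factorial).1 (h.trans h1)
  omega

theorem lucas {p : ℕ} (hp : p.Prime) (m k : ℕ) :
    p ∣ m.choose k ↔ p ∣ (m % p).choose (k % p) ∨ p ∣ (m / p).choose (k / p) := by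
  have := Fact.mk hp
  have h1 : m.choose k ≡ (m % p).choose (k % p) * (m / p).choose (k / p) [MOD p] :=
    Choose.choose_modEq_choose_mod_mul_choose_div_nat
  rw [h1.dvd_iff (dvd_refl p), hp.dvd_mul]

/-- **No carries.** -/
theorem no_carry {p : ℕ} (hp : p.Prime) (f : ℕ) : ∀ m n : ℕ, m < p ^ f → n < p ^ f →
    (∀ m' n' : ℕ, m' ≤ m → n' ≤ n → ¬ p ∣ m.choose m' → ¬ p ∣ n.choose n' → 0 < m' + n' → ¬ p - 1 ∣ m' + n') →
    ¬ p ∣ (m + n).choose n ∧ m + n < p ^ f ∧ (0 < f → m + n + 1 < p ^ f) := by
  have hp2 := hp.two_le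
  induction f with
  | zero =>
    intro m n hm hn _
    have h1 : m = 0 := by rw [pow_zero] at hm; omega
    have h2 : n = 0 := by rw [pow_zero] at hn; omega
    subst h1; subst h2
    refine ⟨?_, by norm_num, fun h => absurd h (lt_irrefl 0)⟩
    rw [Nat.choose_self]
    exact hp.one_lt.ne' ∘ Nat.dvd_one.1
  | succ f ih =>
    intro m n hm hn H
    have hm0 : m % p < p := Nat.mod_lt _ (by omega)
    have hn0 : n % p < p := Nat.mod_lt _ (by omega)
    have hme := Nat.mod_add_div m p
    have hne := Nat.mod_add_div n p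
    set m0 := m % p with hm0d
    set n0 := n % p with hn0d
    set m1 := m / p with hm1d
    set n1 := n / p with hn1d
    have hm1 : m1 < p ^ f := Nat.div_lt_of_lt_mul (by rw [← pow_succ']; exact hm)
    have hn1 : n1 < p ^ f := Nat.div_lt_of_lt_mul (by rw [← pow_succ']; exact hn)
    -- the last digit
    have h0 : m0 + n0 + 1 < p := by
      by_contra hcon
      have ha : m0 % p = m0 := Nat.mod_eq_of_lt hm0
      have ha' : m0 / p = 0 := Nat.div_eq_of_lt hm0
      have hb0 : p - 1 - m0 < p := by omega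
      have hb : (p - 1 - m0) % p = p - 1 - m0 := Nat.mod_eq_of_lt hb0
      have hb' : (p - 1 - m0) / p = 0 := Nat.div_eq_of_lt hb0
      refine H m0 (p - 1 - m0) (by omega) (by omega) ?_ ?_ (by omega) ?_
      · rw [lucas hp, ha, ha', ← hm0d, Nat.choose_self, Nat.choose_zero_right]
        rintro (h | h) <;> exact hp.one_lt.ne' (Nat.dvd_one.1 h)
      · rw [lucas hp, hb, hb', ← hn0d, Nat.choose_zero_right]
        rintro (h | h)
        · exact not_dvd_choose hp hn0 (by omega) h
        · exact hp.one_lt.ne' (Nat.dvd_one.1 h)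
      · rw [Nat.add_sub_cancel' (by omega)]
    obtain ⟨h1, h2, -⟩ := ih m1 n1 hm1 hn1 (by
      intro m' n' hm' hn' hmc hnc hpos hd
      have e1 : ∀ a : ℕ, (p * a) % p = 0 := fun a => Nat.mul_mod_right p a
      have e2 : ∀ a : ℕ, (p * a) / p = a := fun a => Nat.mul_div_cancel_left a (by omega)
      have i1 : p * m' ≤ p * m1 := Nat.mul_le_mul_left _ hm'
      have i2 : p * n' ≤ p * n1 := Nat.mul_le_mul_left _ hn'
      refine H (p * m') (p * n') (by omega) (by omega) ?_ ?_ ?_ ?_
      · rw [lucas hp, e1, e2, ← hm1d, Nat.choose_zero_right]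
        rintro (h | h)
        · exact hp.one_lt.ne' (Nat.dvd_one.1 h)
        · exact hmc h
      · rw [lucas hp, e1, e2, ← hn1d, Nat.choose_zero_right]
        rintro (h | h)
        · exact hp.one_lt.ne' (Nat.dvd_one.1 h)
        · exact hnc h
      · rw [← mul_add]
        exact Nat.mul_pos (by omega) hpos
      · rw [← mul_add]
        exact hd.mul_left p)
    have hs : m + n = (m0 + n0) + p * (m1 + n1) := by rw [mul_add]; omega
    have hs1 : (m + n) % p = m0 + n0 := by
      rw [hs, Nat.add_mul_mod_self_left, Nat.mod_eq_of_lt (by omega)]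
    have hs2 : (m + n) / p = m1 + n1 := by
      rw [hs, Nat.add_mul_div_left _ _ (by omega), Nat.div_eq_of_lt (by omega), zero_add]
    have h3 : p * (m1 + n1) + p ≤ p ^ (f + 1) := by
      rw [pow_succ', ← Nat.mul_succ]
      exact Nat.mul_le_mul_left _ h2
    refine ⟨?_, by omega, fun _ => by omega⟩
    rw [lucas hp, hs1, hs2, ← hn0d, ← hn1d]
    rintro (h | h)
    · exact not_dvd_choose hp (by omega) (by omega) h
    · exact h1 h

end Cfsg.Agent.H379.P4.Digits
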