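import Mathlib
import Cfsg.Agent.H374.R.Rep

/-!
# Extension of scalars of the action on an elementary abelian group
-/

set_option autoImplicit false

namespace Cfsg.Agent.H379.P4.Ext

open Finset Cfsg.Agent.H374.R.Rep

open scoped TensorProduct

universe u v w

/-- endomorphisms of a group of exponent `p` are linear -/
def toLin (p : ℕ) (A : Type u) [AddCommGroup A] [Module (ZMod p) A] : AddMonoid.End A →+* Module.End (ZMod p) A where
  toFun φ := AddMonoidHom.toZModLinearMap p φ
  map_one' := rfl
  map_mul' _ _ := rfl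
  map_zero' := rfl
  map_add' _ _ := rfl

/-- extension of scalars of the ring of endomorphisms -/
noncomputable def ext (L : Type v) [Field L] (p : ℕ) [Algebra (ZMod p) L] (A : Type u) [AddCommGroup A] [Module (ZMod p) A] :
    AddMonoid.End A →+* Module.End L (L ⊗[ZMod p] A) :=
  (Module.End.baseChangeHom (ZMod p) L A).toRingHom.comp (toLin p A)

theorem exists_ext' (L : Type v) [Field L] {p : ℕ} [hp : Fact p.Prime] [hc : CharP L p] {H : Type w} [Group H]
    (A : Type u) [AddCommGroup A] [Finite A] [Nontrivial A] (hA : ∀ a : A, p • a = 0) (τ : H →* AddMonoid.End A) :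
    ∃ (W : Type (max v u)) (_ : AddCommGroup W) (_ : Module L W) (ρ : H →* Module.End L W), Nontrivial W ∧
      FiniteDimensional L W ∧ ∀ (c : H) (m : ℕ), ∑ i ∈ range m, τ c ^ i = 0 → ∑ i ∈ range m, ρ c ^ i = 0 := by
  let iM : Module (ZMod p) A := AddCommGroup.zmodModule (n := p) hA
  let iA : Algebra (ZMod p) L := ZMod.algebra L p
  have : Module.Finite (ZMod p) A := Module.Finite.of_finite
  refine ⟨L ⊗[ZMod p] A, inferInstance, inferInstance, ((ext L p A) : _ →* _).comp τ, inferInstance, inferInstance, ?_⟩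
  intro c m h
  have h1 := congrArg (ext L p A) h
  rw [map_sum, map_zero] at h1
  rw [← h1]
  apply Finset.sum_congr rfl
  intro i _
  rw [map_pow]; rfl

/-- **Extension of scalars.** -/
theorem exists_ext (L : Type v) [Field L] {p : ℕ} [hp : Fact p.Prime] [hc : CharP L p] {H : Type w} [Group H]
    (V : Type u) [CommGroup V] [Finite V] [Nontrivial V] (hV : ∀ v : V, v ^ p = 1) (τ : H →* AddMonoid.End (Additive V)) :
    ∃ (W : Type (max v u)) (_ : AddCommGroup W) (_ : Module L W) (ρ : H →* Module.End L W), Nontrivial W ∧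
      FiniteDimensional L W ∧ ∀ (c : H) (m : ℕ), ∑ i ∈ range m, τ c ^ i = 0 → ∑ i ∈ range m, ρ c ^ i = 0 := by
  have : Finite (Additive V) := inferInstanceAs (Finite V)
  have : Nontrivial (Additive V) := inferInstanceAs (Nontrivial V)
  exact exists_ext' L (Additive V) (by
    intro x
    change Additive.ofMul (x.toMul ^ p) = 0
    rw [hV]; rfl) τ

/-- **The representation.** A nontrivial normal `p`-subgroup `K` of `G` and an embedding of `T` into `G ⧸ K` give a
representation of `T` over any field of characteristic `p` in which the norm of `c` vanishes if `G` has no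
element of order `|c| p`. -/
theorem exists_rho (L : Type v) [Field L] {p : ℕ} [hp : Fact p.Prime] [hc : CharP L p] {G : Type u} [Group G] [Finite G]
    (K : Subgroup G) [K.Normal] (hKne : K ≠ ⊥) (hKp : IsPGroup p K) {T : Type w} [Group T] (f : T →* G ⧸ K)
    (hf : Function.Injective f) {P : ℕ → Prop} (hP : ∀ g : G, P (orderOf g)) (hPd : ∀ {m k : ℕ}, P m → k ∣ m → P k) :
    ∃ (W : Type (max v u)) (_ : AddCommGroup W) (_ : Module L W) (ρ : T →* Module.End L W), Nontrivial W ∧
      FiniteDimensional L W ∧ ∀ c : T, ¬ P (orderOf c * p) → ∑ i ∈ range (orderOf c), ρ c ^ i = 0 := by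
  have hnil : Group.IsNilpotent K := hKp.isNilpotent
  obtain ⟨V, _, _, e, θ, hVn, he, heK, hVe, hθ⟩ := exists_rep K inferInstance hKne
  have hep : e = p := by
    obtain ⟨n, hn⟩ := (IsPGroup.iff_card).1 hKp
    rw [hn] at heK
    exact (Nat.prime_dvd_prime_iff_eq he hp.out).1 (he.dvd_of_dvd_pow heK)
  subst hep
  obtain ⟨W, i1, i2, ρ, h1, h2, h3⟩ := exists_ext (p := e) L V hVe ((toEnd θ).comp f)
  exact ⟨W, i1, i2, ρ, h1, h2, fun c hc => h3 c _ (norm_zero f hf hθ hP hPd rfl hc)⟩

end Cfsg.Agent.H379.P4.Ext
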