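import Mathlib
import Cfsg.Agent.H379.P4.SLTwo

/-!
# Fixed vectors of one-parameter groups and weight vectors of tori
-/

set_option autoImplicit false

namespace Cfsg.Agent.H379.P4.Fix

open Finset Matrix Coef SLTwo

open scoped MatrixGroups

section unip
variable {k : Type*} [Field k] [Fintype k] {M : Type*} [AddCommGroup M] [Module k M]

/-- a fixed vector of a one-parameter group -/
theorem exists_fixed {x : k → Module.End k M} (h0 : x 0 = 1) (hadd : ∀ c d : k, x (c + d) = x c * x d) {v : M}
    (hv : v ≠ 0) : ∃ m < Fintype.card k, coef x m v ≠ 0 ∧ ∀ c : k, x c (coef x m v) = coef x m v := by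
  classical
  have hq : 1 < Fintype.card k := Fintype.one_lt_card
  let S := (range (Fintype.card k)).filter fun m => coef x m v ≠ 0
  have hS : S.Nonempty := ⟨0, Finset.mem_filter.2 ⟨mem_range.2 (by omega), by
    rw [coef_zero]; exact hv⟩⟩
  obtain ⟨m, hm, hmax⟩ := Finset.exists_maximal hS
  have hm1 := Finset.mem_filter.1 hm
  have hmr := mem_range.1 hm1.1
  refine ⟨m, hmr, hm1.2, ?_⟩
  intro c
  rw [expand h0 c, LinearMap.sum_apply]
  rw [Finset.sum_eq_single 0]
  · rw [LinearMap.smul_apply, coef_zero, pow_zero, one_smul]; rfl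
  · intro n hn hn0
    have h1 := coef_mul h0 hadd (mem_range.1 hn) hmr
    have h2 := congrArg (fun A : Module.End k M => A v) h1
    simp only [Module.End.mul_apply] at h2
    rw [LinearMap.smul_apply, h2]
    split_ifs with h3
    · have h4 : coef x (n + m) v = 0 := by
        by_contra h5
        have h6 := hmax (Finset.mem_filter.2 ⟨mem_range.2 h3, h5⟩)
        have h7 := h6 (Nat.le_add_left m n)
        omega
      rw [LinearMap.smul_apply, h4, smul_zero, smul_zero]
    · rw [LinearMap.zero_apply, smul_zero]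
  · intro h
    exact absurd (mem_range.2 (by omega)) h

end unip

section torus
variable {k : Type*} [Field k] [Fintype k] [DecidableEq k] {M : Type*} [AddCommGroup M] [Module k M]

/-- projection to a weight space, up to a sign -/
def wt (H : kˣ →* Module.End k M) (l : ℕ) : Module.End k M := ∑ t : kˣ, ((t⁻¹ : kˣ) : k) ^ l • H t

theorem wt_apply (H : kˣ →* Module.End k M) (l : ℕ) (v : M) : wt H l v = ∑ t : kˣ, ((t⁻¹ : kˣ) : k) ^ l • H t v := by
  rw [wt, LinearMap.sum_apply]; rfl

theorem wt_eigen (H : kˣ →* Module.End k M) (l : ℕ) (v : M) (s : kˣ) : H s (wt H l v) = (s : k) ^ l • wt H l v := by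
  rw [wt_apply, map_sum, Finset.smul_sum, ← Equiv.sum_comp (Equiv.mulLeft s)
    (fun t => (s : k) ^ l • ((t⁻¹ : kˣ) : k) ^ l • H t v)]
  apply Finset.sum_congr rfl
  intro t _
  rw [map_smul, Equiv.coe_mulLeft, map_mul, Module.End.mul_apply, smul_smul]
  congr 1
  rw [mul_inv, Units.val_mul, mul_pow, ← mul_assoc, ← mul_pow, Units.mul_inv, one_pow, one_mul]

theorem sum_wt (H : kˣ →* Module.End k M) (v : M) : ∑ l ∈ range (Fintype.card k - 1), wt H l v = -v := by
  have hq : 1 < Fintype.card k := Fintype.one_lt_card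
  simp only [wt_apply]
  rw [Finset.sum_comm, Finset.sum_eq_single (1 : kˣ)]
  · simp only [inv_one, Units.val_one, one_pow, one_smul, map_one, Module.End.one_apply, Finset.sum_const, card_range]
    rw [← Nat.cast_smul_eq_nsmul k, Nat.cast_sub (by omega), Nat.cast_one, FiniteField.cast_card_eq_zero, zero_sub,
      neg_smul, one_smul]
  · intro t _ ht
    rw [← Finset.sum_smul]
    have h1 : ((t⁻¹ : kˣ) : k) ≠ 1 := by
      intro h
      apply ht
      rw [← inv_eq_one]
      exact Units.ext h
    rw [geom_sum_eq h1, FiniteField.pow_card_sub_one_eq_one _ (Units.ne_zero _), sub_self, zero_div, zero_smul]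
  · intro h
    exact absurd (mem_univ _) h

theorem exists_wt (H : kˣ →* Module.End k M) {v : M} (hv : v ≠ 0) : ∃ l < Fintype.card k - 1, wt H l v ≠ 0 := by
  by_contra hcon
  push Not at hcon
  apply hv
  rw [← neg_eq_zero, ← sum_wt H v]
  exact Finset.sum_eq_zero (fun l hl => hcon l (mem_range.1 hl))

/-- a vector fixed by a normalized group stays fixed -/
theorem wt_fixed (H : kˣ →* Module.End k M) (l : ℕ) {v : M} {A : Module.End k M} (h : ∀ t : kˣ, A (H t v) = H t v) :
    A (wt H l v) = wt H l v := by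
  rw [wt_apply, map_sum]
  apply Finset.sum_congr rfl
  intro t _
  rw [map_smul, h]

/-- eigenvectors of a commuting operator -/
theorem wt_eigen_comm (H : kˣ →* Module.End k M) (l : ℕ) {v : M} {A : Module.End k M} {a : k}
    (hA : ∀ t : kˣ, Commute A (H t)) (h : A v = a • v) : A (wt H l v) = a • wt H l v := by
  rw [wt_apply, map_sum, Finset.smul_sum]
  apply Finset.sum_congr rfl
  intro t _
  have h1 := congrArg (fun B : Module.End k M => B v) (hA t).eq
  simp only [Module.End.mul_apply] at h1
  rw [map_smul, h1, h, map_smul, smul_comm]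

end torus

section sl
variable {k : Type*} [Field k] [Fintype k] [DecidableEq k] {M : Type*} [AddCommGroup M] [Module k M]
  (ρ : SL(2, k) →* Module.End k M)

/-- the torus in the representation -/
def H : kˣ →* Module.End k M where
  toFun t := ρ (hm t)
  map_one' := by rw [hm_one, map_one]
  map_mul' s t := by rw [hm_mul, map_mul]

omit [Fintype k] [DecidableEq k] in
theorem H_apply (t : kˣ) : H ρ t = ρ (hm t) := rfl

omit [Fintype k] [DecidableEq k] in
theorem X_H {v : M} (hv : ∀ c : k, ρ (xm c) v = v) (c : k) (t : kˣ) : ρ (xm c) (H ρ t v) = H ρ t v := by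
  have h1 := hm_xm t ((((t⁻¹ : kˣ) : k)) ^ 2 * c)
  have h2 : (t : k) ^ 2 * ((((t⁻¹ : kˣ) : k)) ^ 2 * c) = c := by
    rw [← mul_assoc, ← mul_pow, Units.mul_inv, one_pow, one_mul]
  rw [h2] at h1
  have h3 := congrArg (fun g => ρ g v) h1
  simp only [map_mul, Module.End.mul_apply] at h3
  rw [H_apply, ← h3, hv]

/-- **Highest weight vectors.** -/
theorem exists_highest [Nontrivial M] : ∃ (v : M) (l : ℕ), v ≠ 0 ∧ l < Fintype.card k - 1 ∧
    (∀ c : k, ρ (xm c) v = v) ∧ ∀ t : kˣ, ρ (hm t) v = (t : k) ^ l • v := by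
  obtain ⟨v0, hv0⟩ := exists_ne (0 : M)
  obtain ⟨m, -, hm0, hfix⟩ := exists_fixed (X_zero ρ) (X_add ρ) hv0
  obtain ⟨l, hl, hw⟩ := exists_wt (H ρ) hm0
  exact ⟨_, l, hw, hl, fun c => wt_fixed (H ρ) l (fun t => X_H ρ hfix c t), fun t => wt_eigen (H ρ) l _ t⟩

end sl

end Cfsg.Agent.H379.P4.Fix
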