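import Mathlib
import Cfsg.Agent.H379.P4.Fix
import Cfsg.Agent.H379.P4.Conj
import Cfsg.Agent.H374.SpLow

/-!
# Fixed vectors of the two tori of `SL₂(q)` in its own characteristic

The sums of the traces over the split and the nonsplit torus are opposite.
-/

set_option autoImplicit false
set_option linter.unusedSimpArgs false

namespace Cfsg.Agent.H379.P4.Tr

open Finset Matrix Coef SLTwo Cfsg.Agent.H379.P4.Fix Conj

open scoped MatrixGroups

section elem
variable {F : Type*} [Field F] [Fintype F]

/-- an element of order `q + 1` -/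
theorem exists_nonsplit : ∃ (c : SL(2, F)) (β : AlgebraicClosure F),
    IsPrimitiveRoot β (Fintype.card F + 1) ∧
      ∀ i : ℕ, algebraMap F (AlgebraicClosure F) ((c ^ i).1 0 0 + (c ^ i).1 1 1) = β ^ i + (β ^ i)⁻¹ ∧
        (∀ s : F, s ^ 2 = 1 → ((c ^ i).1 = s • (1 : Matrix (Fin 2) (Fin 2) F) ↔
          β ^ i = algebraMap F (AlgebraicClosure F) s)) := by
  classical
  set q := Fintype.card F with hq
  have hq1 : 1 < q := Fintype.one_lt_card
  obtain ⟨p, hp⟩ := CharP.exists F
  let K := AlgebraicClosure F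
  let ι : F →+* K := algebraMap F K
  have hqK : ((q : ℕ) : K) = 0 := by
    have h1 := congrArg ι (FiniteField.cast_card_eq_zero F)
    rwa [map_natCast, map_zero] at h1
  have hne : NeZero ((q + 1 : ℕ) : K) := ⟨by
    rw [Nat.cast_add, hqK, zero_add, Nat.cast_one]
    exact one_ne_zero⟩
  obtain ⟨β, hβ⟩ := HasEnoughRootsOfUnity.exists_primitiveRoot K (q + 1)
  have hβ0 : β ≠ 0 := hβ.ne_zero (by omega)
  set γ := β⁻¹ with hγ
  have hβγ : β * γ = 1 := mul_inv_cancel₀ hβ0
  have hβq : β ^ q = γ := by
    rw [hγ]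
    symm
    apply inv_eq_of_mul_eq_one_left
    rw [← pow_succ, hβ.pow_eq_one]
  have hγq : γ ^ q = β := by
    rw [hγ, inv_pow, hβq, hγ, inv_inv]
  have hD : β - γ ≠ 0 := by
    intro h
    have h1 : β ^ 2 = 1 := by
      linear_combination β * h + hβγ
    have h3 := (hβ.pow_eq_one_iff_dvd 2).1 h1
    have h4 := Nat.le_of_dvd (by norm_num) h3
    have h5 : q + 1 = 2 := by omega
    omega
  have hchar : ∃ (p : ℕ) (n : ℕ), p.Prime ∧ CharP F p ∧ q = p ^ n := by
    obtain ⟨n, hn, hc⟩ := FiniteField.card F p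
    exact ⟨p, n, hn, hp, hc⟩
  obtain ⟨p', n, hp', hcp, hqn⟩ := hchar
  have hτ : (β + γ) ^ q = β + γ := by
    have : Fact p'.Prime := ⟨hp'⟩
    have : CharP K p' := charP_of_injective_algebraMap ι.injective p'
    rw [hqn, add_pow_char_pow, ← hqn, hβq, hγq, add_comm]
  obtain ⟨τ, hτ'⟩ := H374.SpLow.mem_range_of_pow ι hτ
  let c : SL(2, F) := ⟨!![τ, -1; 1, 0], by rw [Matrix.det_fin_two_of]; ring⟩
  have hc : (c : Matrix (Fin 2) (Fin 2) F) = !![τ, -1; 1, 0] := rfl
  have key : ∀ i : ℕ, (β - γ) * ι ((c ^ i).1 0 0) = β * β ^ i - γ * γ ^ i ∧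
      (β - γ) * ι ((c ^ i).1 0 1) = γ ^ i - β ^ i ∧ (β - γ) * ι ((c ^ i).1 1 0) = β ^ i - γ ^ i ∧
      (β - γ) * ι ((c ^ i).1 1 1) = β * γ ^ i - γ * β ^ i := by
    intro i
    induction i with
    | zero =>
      have h0 : ((c ^ 0).1 : Matrix (Fin 2) (Fin 2) F) = 1 := by rw [pow_zero]; rfl
      rw [h0]
      simp
    | succ i ih =>
      obtain ⟨h1, h3, h4, h5⟩ := ih
      have hs : ((c ^ (i + 1)).1 : Matrix (Fin 2) (Fin 2) F) = (c ^ i).1 * !![τ, -1; 1, 0] := by
        rw [pow_succ]; rfl
      rw [hs]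
      refine ⟨?_, ?_, ?_, ?_⟩
      · simp only [Matrix.mul_apply, Fin.sum_univ_two]
        simp only [Matrix.of_apply, Matrix.cons_val', Matrix.cons_val_zero, Matrix.cons_val_one,
          map_add, map_mul, map_neg, map_one, map_zero, hτ']
        rw [pow_succ, pow_succ]
        linear_combination (β + γ) * h1 + h3 + (β ^ i - γ ^ i) * hβγ
      · simp only [Matrix.mul_apply, Fin.sum_univ_two]
        simp only [Matrix.of_apply, Matrix.cons_val', Matrix.cons_val_zero, Matrix.cons_val_one,
          map_add, map_mul, map_neg, map_one, map_zero, hτ']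
        rw [pow_succ, pow_succ]
        linear_combination -h1
      · simp only [Matrix.mul_apply, Fin.sum_univ_two]
        simp only [Matrix.of_apply, Matrix.cons_val', Matrix.cons_val_zero, Matrix.cons_val_one,
          map_add, map_mul, map_neg, map_one, map_zero, hτ']
        rw [pow_succ, pow_succ]
        linear_combination (β + γ) * h4 + h5
      · simp only [Matrix.mul_apply, Fin.sum_univ_two]
        simp only [Matrix.of_apply, Matrix.cons_val', Matrix.cons_val_zero, Matrix.cons_val_one,
          map_add, map_mul, map_neg, map_one, map_zero, hτ']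
        rw [pow_succ, pow_succ]
        linear_combination -h4 - (γ ^ i - β ^ i) * hβγ
  refine ⟨c, β, hβ, ?_⟩
  intro i
  obtain ⟨k1, k2, k3, k4⟩ := key i
  have hbg : β ^ i * γ ^ i = 1 := by rw [← mul_pow, hβγ, one_pow]
  have hinv : (β ^ i)⁻¹ = γ ^ i := by rw [hγ, inv_pow]
  refine ⟨?_, ?_⟩
  · rw [hinv]
    apply mul_left_cancel₀ hD
    change (β - γ) * ι _ = _
    rw [map_add]
    linear_combination k1 + k4
  · intro s hs
    have hs' : ι s ^ 2 = 1 := by rw [← map_pow, hs, map_one]
    constructor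
    · intro h
      rw [h] at k1 k3
      have e1 : (s • (1 : Matrix (Fin 2) (Fin 2) F)) 0 0 = s := by simp
      have e2 : (s • (1 : Matrix (Fin 2) (Fin 2) F)) 1 0 = 0 := by simp
      rw [e1] at k1
      rw [e2, map_zero, mul_zero] at k3
      apply mul_left_cancel₀ hD
      change _ = (β - γ) * ι s
      rw [k1]
      linear_combination γ * k3
    · intro h
      change β ^ i = ι s at h
      have hg : γ ^ i = ι s := by
        have h6 : ι s * γ ^ i = 1 := by rw [← h]; exact hbg
        linear_combination (ι s) * h6 - (γ ^ i) * hs'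
      rw [h, hg] at k1 k2 k3 k4
      have e : ∀ x y : F, (β - γ) * ι x = (β - γ) * ι y → x = y := fun x y hxy =>
        ι.injective (mul_left_cancel₀ hD hxy)
      clear key
      generalize ((c ^ i).1 : Matrix (Fin 2) (Fin 2) F) = m at k1 k2 k3 k4 ⊢
      ext a b
      fin_cases a <;> fin_cases b
      · simp
        apply e
        rw [k1]; ring
      · simp
        apply e
        rw [k2, map_zero]; ring
      · simp
        apply e
        rw [k3, map_zero]; ring
      · simp
        apply e
        rw [k4]; ring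

end elem

section trace
variable {F : Type*} [Field F] [Fintype F] [DecidableEq F] {M : Type*} [AddCommGroup M] [Module F M]
  (ρ : SL(2, F) →* Module.End F M)

/-- traces of the coefficients -/
noncomputable def a (n : ℕ) : F := LinearMap.trace F M (ρ (xm 1) * coef (Y ρ) n)

omit [DecidableEq F] in
theorem trace_xy (hY : ∑ c : F, Y ρ c = 0) (d : F) :
    LinearMap.trace F M (ρ (xm 1 * ym d)) = ∑ n ∈ range (Fintype.card F - 1), d ^ n * a ρ n := by
  have h1 : ρ (ym d) = ∑ n ∈ range (Fintype.card F - 1), d ^ n • coef (Y ρ) n := by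
    apply LinearMap.ext
    intro v
    rw [LinearMap.sum_apply]
    exact expand_apply (Y_zero ρ) hY d v
  rw [map_mul, h1, Finset.mul_sum, map_sum]
  apply Finset.sum_congr rfl
  intro n _
  rw [mul_smul_comm, map_smul, smul_eq_mul, a]

omit [Fintype F] [DecidableEq F] in
theorem trace_conj {g h g' : SL(2, F)} (hg : g * h = h * g') :
    LinearMap.trace F M (ρ g) = LinearMap.trace F M (ρ g') := by
  have h1 : g = h * (g' * h⁻¹) := by
    rw [← mul_assoc, ← hg, mul_assoc, mul_inv_cancel, mul_one]
  rw [h1, map_mul, LinearMap.trace_mul_comm, ← map_mul, mul_assoc, inv_mul_cancel, mul_one]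

omit [Fintype F] [DecidableEq F] in
theorem trace_unip [FiniteDimensional F M] {p : ℕ} [hp : Fact p.Prime] [CharP F p] (z : SL(2, F)) (c : F)
    (hz : Commute z (xm c)) : LinearMap.trace F M (ρ (z * xm c)) = LinearMap.trace F M (ρ z) := by
  have hpow : ∀ n : ℕ, (xm c : SL(2, F)) ^ n = xm ((n : F) * c) := by
    intro n
    induction n with
    | zero => rw [pow_zero, Nat.cast_zero, zero_mul, xm_zero]
    | succ n ih => rw [pow_succ, ih, ← xm_add, Nat.cast_succ]; congr 1; ring
  have hchar : CharP (Module.End F M) p ∨ ∀ f : Module.End F M, f = 0 := by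
    rcases subsingleton_or_nontrivial M with h | h
    · right
      intro f
      ext v
      exact Subsingleton.elim _ _
    · left
      exact charP_of_injective_algebraMap (algebraMap F (Module.End F M)).injective p
  have hnil : (ρ (xm c) - 1) ^ p = 0 := by
    rcases hchar with h | h
    · rw [sub_pow_char_of_commute p (Commute.one_right _), one_pow, ← map_pow, hpow, CharP.cast_eq_zero, zero_mul,
        xm_zero, map_one, sub_self]
    · exact h _
  have h1 : ρ (z * xm c) = ρ z + ρ z * (ρ (xm c) - 1) := by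
    rw [map_mul, mul_sub, mul_one, add_sub_cancel]
  have h2 : IsNilpotent (ρ z * (ρ (xm c) - 1)) := by
    have hc : Commute (ρ z) (ρ (xm c) - 1) := by
      apply Commute.sub_right
      · exact hz.map ρ
      · exact Commute.one_right _
    exact ⟨p, by rw [hc.mul_pow, hnil, mul_zero]⟩
  rw [h1, map_add, IsNilpotent.eq_zero (LinearMap.isNilpotent_trace_of_isNilpotent h2), add_zero]

omit [DecidableEq F] in
/-- the trace is a polynomial in the trace of the matrix -/
theorem trace_eq [FiniteDimensional F M] (h2 : (2 : F) ≠ 0) (hY : ∑ c : F, Y ρ c = 0)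
    {g : SL(2, F)} (hg : (g.1 0 0 + g.1 1 1) ^ 2 ≠ 4 ∨ g = 1 ∨ g = -1) :
    LinearMap.trace F M (ρ g) = ∑ n ∈ range (Fintype.card F - 1), (g.1 0 0 + g.1 1 1 - 2) ^ n * a ρ n := by
  obtain ⟨p, hp⟩ := CharP.exists F
  have hpp : Fact p.Prime := ⟨CharP.char_is_prime F p⟩
  have hp2 : ringChar F ≠ 2 := by
    intro h
    apply h2
    have := ringChar.Nat.cast_ringChar (R := F)
    rw [h] at this
    exact_mod_cast this
  have hodd := FiniteField.odd_card_of_char_ne_two hp2
  rw [← trace_xy ρ hY]
  rcases hg with hg | hg | hg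
  · obtain ⟨h, hh⟩ := exists_conj hodd h2 g hg
    exact trace_conj ρ hh
  · subst hg
    have e : ((1 : SL(2, F)).1 0 0 + (1 : SL(2, F)).1 1 1 - 2 : F) = 0 := by
      change (1 : Matrix (Fin 2) (Fin 2) F) 0 0 + (1 : Matrix (Fin 2) (Fin 2) F) 1 1 - 2 = 0
      simp
      norm_num
    rw [e, ym_zero, mul_one]
    have := trace_unip ρ (p := p) 1 1 (Commute.one_left _)
    rw [one_mul] at this
    exact this.symm
  · subst hg
    have e : ((-1 : SL(2, F)).1 0 0 + (-1 : SL(2, F)).1 1 1 - 2 : F) = -4 := by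
      have e1 : ((-1 : SL(2, F)).1 : Matrix (Fin 2) (Fin 2) F) = -1 := by
        rw [Matrix.SpecialLinearGroup.coe_neg]; rfl
      rw [e1]
      simp
      norm_num
    rw [e]
    have hc : (xm (1 : F) * ym (-4)) * ym 2 = ym 2 * (-1 * xm (-1)) := by
      apply Subtype.ext
      simp only [Matrix.SpecialLinearGroup.coe_mul, Matrix.SpecialLinearGroup.coe_neg,
        Matrix.SpecialLinearGroup.coe_one, coe_xm, coe_ym]
      ext i j
      fin_cases i <;> fin_cases j <;> simp <;> norm_num
    rw [trace_conj ρ hc]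
    exact (trace_unip ρ (p := p) (-1) (-1) (by
      rw [Commute, SemiconjBy]
      rw [neg_one_mul, mul_neg_one])).symm

end trace

end Cfsg.Agent.H379.P4.Tr
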