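import Mathlib
import Cfsg.Agent.H379.P4.Tr

/-!
# Fixed vectors of the nonsplit torus

If the split torus of `SL₂(q)` has a fixed vector on a representation in its own characteristic `p ≥ 5` in which the
sums of the root groups vanish then so does the nonsplit torus.
-/

set_option autoImplicit false
set_option linter.unusedSimpArgs false
set_option linter.unusedSectionVars false

namespace Cfsg.Agent.H379.P4.LemK

open Finset Matrix Coef SLTwo Cfsg.Agent.H379.P4.Fix Conj Tr

open scoped MatrixGroups

universe u v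

section sums
variable {F : Type u} [Field F] [Fintype F] [DecidableEq F] {M : Type v} [AddCommGroup M] [Module F M]
  (ρ : SL(2, F) →* Module.End F M)

/-- the sums of the traces over the two tori are opposite -/
theorem sum_trace [FiniteDimensional F M] (h2 : (2 : F) ≠ 0) (hY : ∑ c : F, Y ρ c = 0) {c : SL(2, F)}
    {K : Type*} [Field K] [Algebra F K] {β : K} (hβ : IsPrimitiveRoot β (Fintype.card F + 1))
    (hc : ∀ i : ℕ, algebraMap F K ((c ^ i).1 0 0 + (c ^ i).1 1 1) = β ^ i + (β ^ i)⁻¹ ∧
        (∀ s : F, s ^ 2 = 1 → ((c ^ i).1 = s • (1 : Matrix (Fin 2) (Fin 2) F) ↔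
          β ^ i = algebraMap F K s))) :
    ∑ i : Fin (Fintype.card F + 1), LinearMap.trace F M (ρ (c ^ (i : ℕ))) =
      -∑ t : Fˣ, LinearMap.trace F M (ρ (hm t)) := by
  set q := Fintype.card F with hq
  have hq1 : 1 < q := Fintype.one_lt_card
  have hβ0 : β ≠ 0 := hβ.ne_zero (by omega)
  have hqK : ((q : ℕ) : K) = 0 := by
    have h1 := congrArg (algebraMap F K) (FiniteField.cast_card_eq_zero F)
    rwa [map_natCast, map_zero] at h1
  -- split torus
  have hT : ∑ t : Fˣ, LinearMap.trace F M (ρ (hm t)) =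
      ∑ n ∈ range (q - 1), (-1 * ((-1) ^ n * (2 * n).choose n)) * a ρ n := by
    have h1 : ∀ t : Fˣ, LinearMap.trace F M (ρ (hm t)) =
        ∑ n ∈ range (q - 1), ((t : F) + (t : F)⁻¹ - 2) ^ n * a ρ n := by
      intro t
      have e1 : (hm t : SL(2, F)).1 0 0 = (t : F) := rfl
      have e2 : (hm t : SL(2, F)).1 1 1 = (t : F)⁻¹ := by
        rw [← Units.val_inv_eq_inv_val]; rfl
      have h3 := trace_eq ρ h2 hY (g := hm t) (by
        rw [e1, e2]
        by_cases ht : ((t : F) + (t : F)⁻¹) ^ 2 = 4
        · right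
          have ht0 : (t : F) ≠ 0 := t.ne_zero
          have h4 : ((t : F) - 1) * ((t : F) + 1) = 0 := by
            have h5 : (((t : F) - 1) * ((t : F) + 1)) ^ 2 = 0 := by
              field_simp at ht
              linear_combination ht
            exact pow_eq_zero_iff (by norm_num) |>.1 h5
          rcases mul_eq_zero.1 h4 with h6 | h6
          · left
            have h7 : t = 1 := Units.ext (sub_eq_zero.1 h6)
            rw [h7, hm_one]
          · right
            have h7 : t = -1 := Units.ext (by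
              rw [Units.val_neg, Units.val_one]; exact eq_neg_of_add_eq_zero_left h6)
            rw [h7]
            apply Subtype.ext
            rw [Matrix.SpecialLinearGroup.coe_neg, coe_hm, Matrix.SpecialLinearGroup.coe_one]
            ext i j
            fin_cases i <;> fin_cases j <;> simp
        · left
          exact ht)
      rw [e1, e2] at h3
      exact h3
    rw [Finset.sum_congr rfl (fun t _ => h1 t), Finset.sum_comm]
    apply Finset.sum_congr rfl
    intro n hn
    rw [← Finset.sum_mul]
    congr 1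
    apply laurent (fun t : Fˣ => (t : F)) (N := q - 1) (-1) (fun t => t.ne_zero)
    · intro t
      exact FiniteField.pow_card_sub_one_eq_one _ t.ne_zero
    · intro e
      exact sum_units_pow F e
    · exact mem_range.1 hn
  -- nonsplit torus
  have hB : algebraMap F K (∑ i : Fin (q + 1), LinearMap.trace F M (ρ (c ^ (i : ℕ)))) =
      ∑ n ∈ range (q - 1), (((q + 1 : ℕ) : K) * ((-1) ^ n * (2 * n).choose n)) * algebraMap F K (a ρ n) := by
    have h1 : ∀ i : Fin (q + 1), algebraMap F K (LinearMap.trace F M (ρ (c ^ (i : ℕ)))) =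
        ∑ n ∈ range (q - 1), (β ^ (i : ℕ) + (β ^ (i : ℕ))⁻¹ - 2) ^ n * algebraMap F K (a ρ n) := by
      intro i
      obtain ⟨h3, h4⟩ := hc i
      have h5 := trace_eq ρ h2 hY (g := c ^ (i : ℕ)) (by
        by_cases ht : ((c ^ (i : ℕ)).1 0 0 + (c ^ (i : ℕ)).1 1 1) ^ 2 = 4
        · right
          have h5 := congrArg (algebraMap F K) ht
          rw [map_pow, h3] at h5
          have h6 : algebraMap F K 4 = 4 := by
            rw [show (4 : F) = ((4 : ℕ) : F) by norm_num, map_natCast]; norm_num
          rw [h6] at h5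
          set b := β ^ (i : ℕ) with hb
          have hb0 : b ≠ 0 := pow_ne_zero _ hβ0
          have h7 : (b - 1) * (b + 1) = 0 := by
            have h8 : ((b - 1) * (b + 1)) ^ 2 = 0 := by
              field_simp at h5
              linear_combination h5
            exact pow_eq_zero_iff (by norm_num) |>.1 h8
          rcases mul_eq_zero.1 h7 with h8 | h8
          · left
            have h9 := (h4 1 (one_pow 2)).2 (by rw [map_one]; exact sub_eq_zero.1 h8)
            rw [one_smul] at h9
            apply Subtype.ext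
            exact h9
          · right
            have h9 := (h4 (-1) (by ring)).2 (by
              rw [map_neg, map_one]; exact eq_neg_of_add_eq_zero_left h8)
            rw [neg_smul, one_smul] at h9
            apply Subtype.ext
            rw [Matrix.SpecialLinearGroup.coe_neg, Matrix.SpecialLinearGroup.coe_one]
            exact h9
        · left
          exact ht)
      rw [h5, map_sum]
      apply Finset.sum_congr rfl
      intro n _
      rw [map_mul, map_pow, map_sub, h3]
      have h6 : algebraMap F K 2 = 2 := by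
        rw [show (2 : F) = ((2 : ℕ) : F) by norm_num, map_natCast]; norm_num
      rw [h6]
    rw [map_sum, Finset.sum_congr rfl (fun i _ => h1 i), Finset.sum_comm]
    apply Finset.sum_congr rfl
    intro n hn
    rw [← Finset.sum_mul]
    congr 1
    apply laurent (fun i : Fin (q + 1) => β ^ (i : ℕ)) (N := q + 1) _ (fun i => pow_ne_zero _ hβ0)
    · intro i
      rw [← pow_mul, mul_comm, pow_mul, hβ.pow_eq_one, one_pow]
    · intro e
      exact sum_prim hβ e
    · have := mem_range.1 hn
      omega
  apply (algebraMap F K).injective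
  rw [hB, hT, map_neg, map_sum, ← Finset.sum_neg_distrib]
  apply Finset.sum_congr rfl
  intro n _
  rw [Nat.cast_add, hqK, map_mul, map_mul, map_mul, map_pow, map_natCast, map_neg, map_one]
  ring

end sums

section base
variable {F : Type u} [Field F] [Fintype F] [DecidableEq F] {M : Type v} [AddCommGroup M] [Module F M]
  (ρ : SL(2, F) →* Module.End F M)

theorem sum_weights {m l : ℕ} (hm : m < Fintype.card F - 1) (hl : l < Fintype.card F - 1)
    (h1 : 2 * m ≠ l) (h2 : 2 * m ≠ l + (Fintype.card F - 1)) :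
    ∑ t : Fˣ, ((t : F) ^ 2) ^ m * ((t⁻¹ : Fˣ) : F) ^ l = 0 := by
  set N := Fintype.card F - 1 with hN
  have h3 : ∀ t : Fˣ, ((t : F) ^ 2) ^ m * ((t⁻¹ : Fˣ) : F) ^ l = (t : F) ^ (2 * m + (N - l)) := by
    intro t
    rw [pow_add, ← pow_mul]
    congr 1
    have h4 : (t : F) ^ (N - l) * (t : F) ^ l = 1 := by
      rw [← pow_add, Nat.sub_add_cancel hl.le, FiniteField.pow_card_sub_one_eq_one _ t.ne_zero]
    have h5 : ((t⁻¹ : Fˣ) : F) ^ l * (t : F) ^ l = 1 := by
      rw [← mul_pow, Units.inv_mul, one_pow]
    exact mul_right_cancel₀ (pow_ne_zero l t.ne_zero) (h5.trans h4.symm)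
  rw [Finset.sum_congr rfl (fun t _ => h3 t), sum_units_pow, if_neg]
  rintro ⟨c, hc⟩
  rw [← hN] at hc
  have h6 : c < 3 := by
    by_contra hc2
    have : N * 3 ≤ N * c := Nat.mul_le_mul_left _ (by omega)
    omega
  interval_cases c <;> omega

/-- weights of the coefficients -/
theorem weight {w : M} {l m : ℕ} (hm' : m < Fintype.card F) (hw : ∀ t : Fˣ, ρ (hm t) w = ((t⁻¹ : Fˣ) : F) ^ l • w)
    (t : Fˣ) : ρ (hm t) (coef (X ρ) m w) = (((t : F) ^ 2) ^ m * ((t⁻¹ : Fˣ) : F) ^ l) • coef (X ρ) m w := by
  have h1 := coef_conj (X_zero ρ) (g := ρ (hm t)) (s := (t : F) ^ 2) (fun c => by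
    rw [X, X, ← map_mul, hm_xm, map_mul]) hm'
  have h2 := congrArg (fun A : Module.End F M => A w) h1
  simp only [Module.End.mul_apply, LinearMap.smul_apply] at h2
  rw [h2, hw, map_smul, smul_smul]

/-- the sum over the torus -/
noncomputable def PT : Module.End F M := ∑ t : Fˣ, ρ (hm t)

theorem fix_PT (s : Fˣ) (w : M) : ρ (hm s) (PT ρ w) = PT ρ w := by
  rw [PT, LinearMap.sum_apply, map_sum]
  refine (Finset.sum_congr rfl (fun t _ => ?_)).trans (Equiv.sum_comp (Equiv.mulLeft s) (fun t => ρ (hm t) w))
  rw [Equiv.coe_mulLeft, hm_mul, map_mul]; rfl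

theorem PT_fix {w : M} (h : ∀ t : Fˣ, ρ (hm t) w = w) : PT ρ w = -w := by
  have hq1 : 1 < Fintype.card F := Fintype.one_lt_card
  rw [PT, LinearMap.sum_apply, Finset.sum_congr rfl (fun t _ => h t), Finset.sum_const, Finset.card_univ,
    Fintype.card_units, ← Nat.cast_smul_eq_nsmul F, Nat.cast_sub hq1.le, FiniteField.cast_card_eq_zero,
    Nat.cast_one, zero_sub, neg_smul, one_smul]

theorem PT_eigen {w : M} {f : Fˣ → F} (h : ∀ t : Fˣ, ρ (hm t) w = f t • w) : PT ρ w = (∑ t, f t) • w := by
  rw [PT, LinearMap.sum_apply, Finset.sum_congr rfl (fun t _ => h t), Finset.sum_smul]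

open Classical in
/-- the fixed vectors of the torus in a module generated by a highest weight vector -/
theorem range_PT_le {v : M} {l : ℕ} (hl : l < Fintype.card F - 1) (hX : ∑ c : F, X ρ c = 0)
    (hv : ∀ c : F, ρ (xm c) v = v) (hw : ∀ t : Fˣ, ρ (hm t) v = (t : F) ^ l • v)
    (hspan : Submodule.span F (Set.range fun g : SL(2, F) => ρ g v) = ⊤) :
    LinearMap.range (PT ρ) ≤ Submodule.span F (({v, coef (X ρ) (l / 2) (ρ nm v),
      coef (X ρ) ((l + (Fintype.card F - 1)) / 2) (ρ nm v)} : Finset M) : Set M) := by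
  classical
  set S := Submodule.span F (({v, coef (X ρ) (l / 2) (ρ nm v),
      coef (X ρ) ((l + (Fintype.card F - 1)) / 2) (ρ nm v)} : Finset M) : Set M) with hS
  have hm1 : v ∈ S := Submodule.subset_span (by simp)
  have hm2 : coef (X ρ) (l / 2) (ρ nm v) ∈ S := Submodule.subset_span (by simp)
  have hm3 : coef (X ρ) ((l + (Fintype.card F - 1)) / 2) (ρ nm v) ∈ S := Submodule.subset_span (by simp)
  rw [LinearMap.range_eq_map, ← hspan, Submodule.map_span_le]
  rintro x ⟨g, rfl⟩
  change PT ρ (ρ g v) ∈ S
  have hwn : ∀ t : Fˣ, ρ (hm t) (ρ nm v) = ((t⁻¹ : Fˣ) : F) ^ l • ρ nm v := by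
    intro t
    rw [← Module.End.mul_apply, ← map_mul, hm_nm, map_mul, Module.End.mul_apply, hw, map_smul]
  by_cases hg : g.1 1 0 = 0
  · obtain ⟨t, c, rfl⟩ := borel g hg
    rw [map_mul, Module.End.mul_apply, hv, hw, map_smul, PT_eigen ρ (f := fun t => (t : F) ^ l) hw]
    exact S.smul_mem _ (S.smul_mem _ hm1)
  · rw [big_cell g (Units.mk0 _ hg) rfl]
    simp only [map_mul, Module.End.mul_apply]
    rw [hv, hw, map_smul, map_smul, map_smul]
    apply S.smul_mem
    have h1 := expand_apply (X_zero ρ) hX
      (g.1 0 0 * (((Units.mk0 _ hg)⁻¹ : Fˣ) : F)) (ρ nm v)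
    rw [X] at h1
    rw [h1, map_sum]
    apply Submodule.sum_mem
    intro m hm
    rw [mem_range] at hm
    rw [map_smul]
    apply S.smul_mem
    rw [PT_eigen ρ (weight ρ (by omega) hwn)]
    by_cases e1 : 2 * m = l
    · have e3 : l / 2 = m := by omega
      rw [e3] at hm2
      exact S.smul_mem _ hm2
    by_cases e2 : 2 * m = l + (Fintype.card F - 1)
    · have e3 : (l + (Fintype.card F - 1)) / 2 = m := by omega
      rw [e3] at hm3
      exact S.smul_mem _ hm3
    rw [sum_weights hm hl e1 e2, zero_smul]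
    exact S.zero_mem

/-- the sum over the nonsplit torus -/
theorem pb_eq_zero {c : SL(2, F)} {N : ℕ} (hc : c ^ N = 1) (hcon : ∀ w : M, ρ c w = w → w = 0) :
    ∑ i : Fin N, ρ (c ^ (i : ℕ)) = 0 := by
  rw [Fin.sum_univ_eq_sum_range (fun i => ρ (c ^ i))]
  apply LinearMap.ext
  intro x
  apply hcon
  have h1 := mul_geom_sum (ρ c) N
  rw [← map_pow, hc, map_one, sub_self] at h1
  simp only [← map_pow] at h1
  have h2 := congrArg (fun A : Module.End F M => A x) h1
  simp only [Module.End.mul_apply, LinearMap.sub_apply, Module.End.one_apply, LinearMap.zero_apply] at h2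
  exact sub_eq_zero.1 h2

/-- modules generated by a highest weight vector -/
theorem base [FiniteDimensional F M] {p : ℕ} (hp5 : 5 ≤ p) [hp : CharP F p] (h2 : (2 : F) ≠ 0)
    (hX : ∑ c : F, X ρ c = 0) (hY : ∑ c : F, Y ρ c = 0)
    {v : M} {l : ℕ} (hl : l < Fintype.card F - 1)
    (hv : ∀ c : F, ρ (xm c) v = v) (hw : ∀ t : Fˣ, ρ (hm t) v = (t : F) ^ l • v)
    (hspan : Submodule.span F (Set.range fun g : SL(2, F) => ρ g v) = ⊤)
    (hT : ∃ w : M, w ≠ 0 ∧ ∀ t : Fˣ, ρ (hm t) w = w) {c : SL(2, F)}
    {K : Type*} [Field K] [Algebra F K] {β : K} (hβ : IsPrimitiveRoot β (Fintype.card F + 1))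
    (hc : ∀ i : ℕ, algebraMap F K ((c ^ i).1 0 0 + (c ^ i).1 1 1) = β ^ i + (β ^ i)⁻¹ ∧
        (∀ s : F, s ^ 2 = 1 → ((c ^ i).1 = s • (1 : Matrix (Fin 2) (Fin 2) F) ↔
          β ^ i = algebraMap F K s))) :
    ∃ w : M, w ≠ 0 ∧ ρ c w = w := by
  classical
  by_contra hcon
  push Not at hcon
  have hc1 : c ^ (Fintype.card F + 1) = 1 := by
    have h1 := ((hc (Fintype.card F + 1)).2 1 (one_pow 2)).2 (by rw [hβ.pow_eq_one, map_one])
    rw [one_smul] at h1
    exact Subtype.ext h1
  have h3 := pb_eq_zero ρ hc1 (fun w hw => by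
    by_contra h
    exact hcon w h hw)
  have h4 := sum_trace ρ h2 hY hβ hc
  rw [← map_sum, h3, map_zero, ← map_sum] at h4
  have h5 : LinearMap.trace F M (-PT ρ) = 0 := by
    rw [map_neg, PT]; exact h4.symm
  have hproj : LinearMap.IsProj (LinearMap.range (PT ρ)) (-PT ρ) := by
    constructor
    · intro x
      rw [LinearMap.neg_apply]
      exact Submodule.neg_mem _ ⟨x, rfl⟩
    · rintro _ ⟨x, rfl⟩
      rw [LinearMap.neg_apply, PT_fix ρ (fun t => fix_PT ρ t x), neg_neg]
  rw [hproj.trace, CharP.cast_eq_zero_iff F p] at h5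
  have h6 : Module.finrank F (LinearMap.range (PT ρ)) ≤ 3 := by
    refine (Submodule.finrank_mono (range_PT_le ρ hl hX hv hw hspan)).trans ?_
    refine (finrank_span_finset_le_card _).trans ?_
    exact Finset.card_le_three
  obtain ⟨w, hw0, hwf⟩ := hT
  have h7 : 0 < Module.finrank F (LinearMap.range (PT ρ)) := by
    rw [Module.finrank_pos_iff_exists_ne_zero]
    refine ⟨⟨-w, w, PT_fix ρ hwf⟩, ?_⟩
    intro h
    exact hw0 (neg_eq_zero.1 (congrArg Subtype.val h))
  have h8 := Nat.le_of_dvd h7 h5
  omega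

end base

section main
variable {F : Type u} [Field F] [Fintype F] [DecidableEq F]

/-- restriction to an invariant subspace -/
def sub {M : Type v} [AddCommGroup M] [Module F M] (ρ : SL(2, F) →* Module.End F M) (N : Submodule F M)
    (hN : ∀ g, ∀ x ∈ N, ρ g x ∈ N) : SL(2, F) →* Module.End F N where
  toFun g := (ρ g).restrict (hN g)
  map_one' := by
    ext x
    rw [LinearMap.coe_restrict_apply, map_one]; rfl
  map_mul' a b := by
    ext x
    rw [LinearMap.coe_restrict_apply, map_mul]; rfl

/-- the quotient -/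
def quo {M : Type v} [AddCommGroup M] [Module F M] (ρ : SL(2, F) →* Module.End F M) (N : Submodule F M)
    (hN : ∀ g, ∀ x ∈ N, ρ g x ∈ N) : SL(2, F) →* Module.End F (M ⧸ N) where
  toFun g := N.mapQ N (ρ g) (hN g)
  map_one' := by
    ext x
    simp
  map_mul' a b := by
    ext x
    simp

/-- **Lemma K.** -/
theorem main {p : ℕ} (hp5 : 5 ≤ p) [hp : CharP F p] (h2 : (2 : F) ≠ 0) {c : SL(2, F)}
    {K : Type*} [Field K] [Algebra F K] {β : K} (hβ : IsPrimitiveRoot β (Fintype.card F + 1))
    (hc : ∀ i : ℕ, algebraMap F K ((c ^ i).1 0 0 + (c ^ i).1 1 1) = β ^ i + (β ^ i)⁻¹ ∧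
        (∀ s : F, s ^ 2 = 1 → ((c ^ i).1 = s • (1 : Matrix (Fin 2) (Fin 2) F) ↔
          β ^ i = algebraMap F K s))) :
    ∀ (n : ℕ) (M : Type v) [AddCommGroup M] [Module F M] [FiniteDimensional F M]
      (ρ : SL(2, F) →* Module.End F M), Module.finrank F M = n → ∑ c : F, X ρ c = 0 → ∑ c : F, Y ρ c = 0 →
      (∃ w : M, w ≠ 0 ∧ ∀ t : Fˣ, ρ (hm t) w = w) → ∃ w : M, w ≠ 0 ∧ ρ c w = w := by
  intro n
  induction n using Nat.strong_induction_on with
  | _ n ih =>
    intro M _ _ _ ρ hn hX hY hT
    classical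
    obtain ⟨w, hw0, hwf⟩ := hT
    have : Nontrivial M := ⟨w, 0, hw0⟩
    obtain ⟨v, l, hv0, hl, hv, hvw⟩ := exists_highest ρ
    by_cases hspan : Submodule.span F (Set.range fun g : SL(2, F) => ρ g v) = ⊤
    · exact base ρ hp5 h2 hX hY hl hv hvw hspan ⟨w, hw0, hwf⟩ hβ hc
    set N := Submodule.span F (Set.range fun g : SL(2, F) => ρ g v) with hN
    have hinv : ∀ g, ∀ x ∈ N, ρ g x ∈ N := by
      intro g
      have h1 : N.map (ρ g) ≤ N := by
        rw [hN, Submodule.map_span_le]
        rintro _ ⟨h, rfl⟩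
        apply Submodule.subset_span
        refine ⟨g * h, ?_⟩
        change ρ (g * h) v = _
        rw [map_mul]; rfl
      intro x hx
      exact h1 ⟨x, hx, rfl⟩
    have hvN : v ∈ N := Submodule.subset_span ⟨1, by
      change ρ 1 v = v
      rw [map_one]; rfl⟩
    have hc1 : c ^ (Fintype.card F + 1) = 1 := by
      have h1 := ((hc (Fintype.card F + 1)).2 1 (one_pow 2)).2 (by rw [hβ.pow_eq_one, map_one])
      rw [one_smul] at h1
      exact Subtype.ext h1
    by_cases hTN : ∃ w : N, w ≠ 0 ∧ ∀ t : Fˣ, sub ρ N hinv (hm t) w = w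
    · obtain ⟨y, hy0, hy⟩ := ih (Module.finrank F N) (by
        rw [← hn]
        exact Submodule.finrank_lt hspan) N (sub ρ N hinv) rfl (by
          ext x
          have := congrArg (fun A : Module.End F M => A (x : M)) hX
          simp only [LinearMap.sum_apply, LinearMap.zero_apply] at this ⊢
          rw [Submodule.coe_sum]
          exact this) (by
          ext x
          have := congrArg (fun A : Module.End F M => A (x : M)) hY
          simp only [LinearMap.sum_apply, LinearMap.zero_apply] at this ⊢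
          rw [Submodule.coe_sum]
          exact this) hTN
      refine ⟨y, fun h => hy0 (Subtype.ext h), ?_⟩
      exact congrArg Subtype.val hy
    · push Not at hTN
      have hwN : w ∉ N := by
        intro h
        obtain ⟨t, ht⟩ := hTN ⟨w, h⟩ (fun h3 => hw0 (congrArg Subtype.val h3))
        exact ht (Subtype.ext (hwf t))
      obtain ⟨y, hy0, hy⟩ := ih (Module.finrank F (M ⧸ N)) (by
        rw [← hn]
        have h1 := Submodule.finrank_quotient_add_finrank N
        have h3 : 0 < Module.finrank F N := by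
          rw [Module.finrank_pos_iff_exists_ne_zero]
          exact ⟨⟨v, hvN⟩, fun h => hv0 (congrArg Subtype.val h)⟩
        omega) (M ⧸ N) (quo ρ N hinv) rfl (by
          ext x
          have := congrArg (fun A : Module.End F M => N.mkQ (A x)) hX
          simp only [LinearMap.sum_apply, LinearMap.zero_apply, map_sum, map_zero] at this
          simp only [LinearMap.comp_apply, LinearMap.sum_apply, LinearMap.zero_apply]
          exact this) (by
          ext x
          have := congrArg (fun A : Module.End F M => N.mkQ (A x)) hY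
          simp only [LinearMap.sum_apply, LinearMap.zero_apply, map_sum, map_zero] at this
          simp only [LinearMap.comp_apply, LinearMap.sum_apply, LinearMap.zero_apply]
          exact this) ⟨N.mkQ w, by
            rw [Ne, Submodule.mkQ_apply, Submodule.Quotient.mk_eq_zero]
            exact hwN, fun t => by
            change N.mkQ (ρ (hm t) w) = _
            rw [hwf]⟩
      obtain ⟨x, rfl⟩ := N.mkQ_surjective y
      -- average
      have hfix : ∀ i : ℕ, N.mkQ (ρ (c ^ i) x) = N.mkQ x := by
        intro i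
        induction i with
        | zero => rw [pow_zero, map_one]; rfl
        | succ i ihi =>
          have h1 : N.mkQ (ρ (c ^ (i + 1)) x) = quo ρ N hinv c (N.mkQ (ρ (c ^ i) x)) := by
            rw [pow_succ', map_mul]; rfl
          rw [h1, ihi, hy]
      refine ⟨∑ i ∈ range (Fintype.card F + 1), ρ (c ^ i) x, ?_, ?_⟩
      · intro h
        apply hy0
        have h1 := congrArg N.mkQ h
        rw [map_sum, map_zero, Finset.sum_congr rfl (fun i _ => hfix i), Finset.sum_const, card_range,
          ← Nat.cast_smul_eq_nsmul F, Nat.cast_add, FiniteField.cast_card_eq_zero, zero_add, Nat.cast_one,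
          one_smul] at h1
        exact h1
      · have h1 := mul_geom_sum (ρ c) (Fintype.card F + 1)
        rw [← map_pow, hc1, map_one, sub_self] at h1
        simp only [← map_pow] at h1
        have h3 := congrArg (fun A : Module.End F M => A x) h1
        simp only [Module.End.mul_apply, LinearMap.sub_apply, Module.End.one_apply, LinearMap.zero_apply,
          LinearMap.sum_apply] at h3
        exact sub_eq_zero.1 h3

end main

end Cfsg.Agent.H379.P4.LemK
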