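import Mathlib
import Cfsg.Agent.H379.P4.SLTwo

/-!
# `SL₂(q) × SL₂(q)` and a short root `SL₂(q)` in `Sp₄(q)`
-/

set_option autoImplicit false
set_option linter.unusedSimpArgs false

namespace Cfsg.Agent.H379.P4.SpEmb

open Matrix SLTwo

open scoped MatrixGroups

variable {F : Type*} [Field F]

/-- diagonal matrices -/
def dg (a b : F) : Matrix (Fin 2) (Fin 2) F := !![a, 0; 0, b]

/-- multiples of the permutation matrix -/
def pm (a : F) : Matrix (Fin 2) (Fin 2) F := !![0, a; a, 0]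

theorem dg_mul (a b c d : F) : dg a b * dg c d = dg (a * c) (b * d) := by
  simp [dg]

theorem dg_add (a b c d : F) : dg a b + dg c d = dg (a + c) (b + d) := by
  simp [dg]

theorem dg_pm (a b : F) : dg a a * pm b = pm (a * b) := by simp [dg, pm]

theorem pm_dg (a b : F) : pm a * dg b b = pm (a * b) := by simp [dg, pm]

theorem pm_pm (a b : F) : pm a * pm b = dg (a * b) (a * b) := by simp [dg, pm]

theorem pm_add (a b : F) : pm a + pm b = pm (a + b) := by simp [pm]

theorem dg_transpose (a b : F) : (dg a b)ᵀ = dg a b := by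
  ext i j
  fin_cases i <;> fin_cases j <;> rfl

theorem pm_transpose (a : F) : (pm a)ᵀ = pm a := by
  ext i j
  fin_cases i <;> fin_cases j <;> rfl

theorem dg_one : dg (1 : F) 1 = 1 := by rw [dg, Matrix.one_fin_two]

theorem dg_zero : dg (0 : F) 0 = 0 := by
  ext i j
  fin_cases i <;> fin_cases j <;> rfl

theorem pm_zero : pm (0 : F) = 0 := by
  ext i j
  fin_cases i <;> fin_cases j <;> rfl

theorem dg_sub (a b c d : F) : dg a b - dg c d = dg (a - c) (b - d) := by
  ext i j
  fin_cases i <;> fin_cases j <;> simp [dg]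

theorem det_eq (g : SL(2, F)) : g.1 0 0 * g.1 1 1 - g.1 0 1 * g.1 1 0 = 1 := by
  rw [← Matrix.det_fin_two]; exact g.2

/-- the product of the two long root subgroups -/
def em : SL(2, F) × SL(2, F) →* symplecticGroup (Fin 2) F where
  toFun g := ⟨fromBlocks (dg (g.1.1 0 0) (g.2.1 0 0)) (dg (g.1.1 0 1) (g.2.1 0 1)) (dg (g.1.1 1 0) (g.2.1 1 0))
    (dg (g.1.1 1 1) (g.2.1 1 1)), by
      rw [SymplecticGroup.fromBlocks_mem_iff]
      simp only [dg_transpose, dg_mul, dg_sub]
      refine ⟨?_, ?_, ?_⟩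
      · congr 1 <;> ring
      · congr 1 <;> ring
      · rw [← dg_one]
        have h1 := det_eq g.1
        have h2 := det_eq g.2
        congr 1
        · linear_combination h1
        · linear_combination h2⟩
  map_one' := by
    apply Subtype.ext
    change fromBlocks _ _ _ _ = (1 : Matrix _ _ F)
    rw [← fromBlocks_one]
    simp [dg_one, dg_zero]
  map_mul' g h := by
    apply Subtype.ext
    change _ = fromBlocks _ _ _ _ * fromBlocks _ _ _ _
    rw [fromBlocks_multiply]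
    simp only [dg_mul, dg_add, Prod.fst_mul, Prod.snd_mul, Matrix.SpecialLinearGroup.coe_mul, Matrix.mul_apply,
      Fin.sum_univ_two]

theorem em_val (g h : SL(2, F)) : (em (g, h)).1 = fromBlocks (dg (g.1 0 0) (h.1 0 0)) (dg (g.1 0 1) (h.1 0 1))
    (dg (g.1 1 0) (h.1 1 0)) (dg (g.1 1 1) (h.1 1 1)) := rfl

/-- the first factor -/
def e1 : SL(2, F) →* symplecticGroup (Fin 2) F := em.comp (MonoidHom.inl _ _)
/-- the second factor -/
def e2 : SL(2, F) →* symplecticGroup (Fin 2) F := em.comp (MonoidHom.inr _ _)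

theorem e1_apply (g : SL(2, F)) : e1 g = em (g, 1) := rfl
theorem e2_apply (g : SL(2, F)) : e2 g = em (1, g) := rfl

theorem e1_e2 (g h : SL(2, F)) : e1 g * e2 h = em (g, h) := by
  rw [e1_apply, e2_apply, ← map_mul, Prod.mk_mul_mk, mul_one, one_mul]

theorem e2_e1 (g h : SL(2, F)) : e2 h * e1 g = em (g, h) := by
  rw [e1_apply, e2_apply, ← map_mul, Prod.mk_mul_mk, mul_one, one_mul]

theorem commute_e1_e2 (g h : SL(2, F)) : Commute (e1 g) (e2 h) := (e1_e2 g h).trans (e2_e1 g h).symm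

/-- the short root subgroup -/
def e3 : SL(2, F) →* symplecticGroup (Fin 2) F where
  toFun g := ⟨fromBlocks (dg (g.1 0 0) (g.1 0 0)) (pm (g.1 0 1)) (pm (g.1 1 0)) (dg (g.1 1 1) (g.1 1 1)), by
      rw [SymplecticGroup.fromBlocks_mem_iff]
      simp only [dg_transpose, pm_transpose, dg_mul, dg_pm, pm_dg, pm_pm, dg_sub]
      refine ⟨?_, ?_, ?_⟩
      · congr 1; ring
      · congr 1; ring
      · rw [← dg_one]
        have h1 := det_eq g
        congr 1
        · linear_combination h1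
        · linear_combination h1⟩
  map_one' := by
    apply Subtype.ext
    change fromBlocks _ _ _ _ = (1 : Matrix _ _ F)
    rw [← fromBlocks_one]
    simp [dg_one, pm_zero]
  map_mul' g h := by
    apply Subtype.ext
    change _ = fromBlocks _ _ _ _ * fromBlocks _ _ _ _
    rw [fromBlocks_multiply]
    simp only [dg_mul, pm_dg, dg_pm, pm_pm, dg_add, pm_add, Matrix.SpecialLinearGroup.coe_mul, Matrix.mul_apply,
      Fin.sum_univ_two]

theorem e3_val (g : SL(2, F)) : (e3 g).1 =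
    fromBlocks (dg (g.1 0 0) (g.1 0 0)) (pm (g.1 0 1)) (pm (g.1 1 0)) (dg (g.1 1 1) (g.1 1 1)) := rfl

theorem xm_val (c : F) : ((xm c : SL(2, F)).1 0 0 = 1) ∧ ((xm c : SL(2, F)).1 0 1 = c) ∧
    ((xm c : SL(2, F)).1 1 0 = 0) ∧ ((xm c : SL(2, F)).1 1 1 = 1) := ⟨rfl, rfl, rfl, rfl⟩

theorem commute_e3 (a b c : F) : Commute (em (xm a, xm b)) (e3 (xm c)) := by
  apply Subtype.ext
  change (em (xm a, xm b)).1 * (e3 (xm c)).1 = (e3 (xm c)).1 * (em (xm a, xm b)).1
  rw [em_val, e3_val, fromBlocks_multiply, fromBlocks_multiply]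
  simp only [(xm_val _).1, (xm_val _).2.1, (xm_val _).2.2.1, (xm_val _).2.2.2, dg_one, dg_zero, pm_zero,
    Matrix.mul_one, Matrix.one_mul, Matrix.mul_zero, Matrix.zero_mul, add_zero, zero_add]
  rw [add_comm]

theorem hm_e3_xm (s t : Fˣ) (c : F) : em (hm s, hm t) * e3 (xm c) = e3 (xm ((s : F) * t * c)) * em (hm s, hm t) := by
  apply Subtype.ext
  change (em (hm s, hm t)).1 * (e3 (xm c)).1 = (e3 (xm ((s : F) * t * c))).1 * (em (hm s, hm t)).1
  rw [em_val, e3_val, e3_val, fromBlocks_multiply, fromBlocks_multiply]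
  congr 1 <;> ext i j <;> fin_cases i <;> fin_cases j <;> simp [dg, pm, xm, hm] <;> field_simp

theorem hm_e3_ym (s t : Fˣ) (c : F) : em (hm s, hm t) * e3 (ym c) =
    e3 (ym (((s⁻¹ : Fˣ) : F) * ((t⁻¹ : Fˣ) : F) * c)) * em (hm s, hm t) := by
  apply Subtype.ext
  change (em (hm s, hm t)).1 * (e3 (ym c)).1 =
    (e3 (ym (((s⁻¹ : Fˣ) : F) * ((t⁻¹ : Fˣ) : F) * c))).1 * (em (hm s, hm t)).1
  rw [em_val, e3_val, e3_val, fromBlocks_multiply, fromBlocks_multiply]
  congr 1 <;> ext i j <;> fin_cases i <;> fin_cases j <;> simp [dg, pm, ym, hm] <;> field_simp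

theorem e3_hm (t : Fˣ) : e3 (hm t) = em (hm t, hm t) := by
  apply Subtype.ext
  rw [em_val, e3_val]
  have h1 : (hm t : SL(2, F)).1 0 1 = 0 := rfl
  have h2 : (hm t : SL(2, F)).1 1 0 = 0 := rfl
  rw [h1, h2, pm_zero, dg_zero]

/-- scalars in the product -/
theorem em_scalar {g h : SL(2, F)} {s : F} (hs : (em (g, h)).1 = s • 1) :
    g.1 = s • (1 : Matrix (Fin 2) (Fin 2) F) ∧ h.1 = s • (1 : Matrix (Fin 2) (Fin 2) F) := by
  rw [em_val, ← fromBlocks_one, fromBlocks_smul, fromBlocks_inj] at hs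
  obtain ⟨h1, h2, h3, h4⟩ := hs
  have f1 := fun i j => congrFun (congrFun h1 i) j
  have f2 := fun i j => congrFun (congrFun h2 i) j
  have f3 := fun i j => congrFun (congrFun h3 i) j
  have f4 := fun i j => congrFun (congrFun h4 i) j
  have a1 := f1 0 0
  have a2 := f1 1 1
  have b1 := f2 0 0
  have b2 := f2 1 1
  have c1 := f3 0 0
  have c2 := f3 1 1
  have d1 := f4 0 0
  have d2 := f4 1 1
  simp [dg] at a1 a2 b1 b2 c1 c2 d1 d2
  constructor
  · ext i j
    fin_cases i <;> fin_cases j <;> simp [a1, b1, c1, d1]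
  · ext i j
    fin_cases i <;> fin_cases j <;> simp [a2, b2, c2, d2]

theorem em_neg_one : (em ((-1 : SL(2, F)), (-1 : SL(2, F)))).1 = -1 := by
  rw [em_val, ← fromBlocks_one, fromBlocks_neg]
  congr 1 <;> ext i j <;> fin_cases i <;> fin_cases j <;> simp [dg]

end Cfsg.Agent.H379.P4.SpEmb
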