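import Mathlib
import Cfsg.Agent.H379.P4.SpEmb
import Cfsg.Agent.H379.P4.LemK
import Cfsg.Agent.H379.P4.Digits

/-!
# Representations of `Sp₄(q)` in its own characteristic `p ≥ 5` without elements of order `p²`

In a representation in which the norms of the elements of order `p` vanish some element `y` of
`SL₂(q) ∘ SL₂(q)` of order dividing neither `q - 1` nor `q + 1` modulo the centre has a fixed vector.
-/

set_option autoImplicit false
set_option linter.unusedSimpArgs false
set_option linter.unusedSectionVars false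

namespace Cfsg.Agent.H379.P4.SpFive

open Finset Matrix Coef SLTwo Cfsg.Agent.H379.P4.Fix Conj Tr LemK SpEmb

open scoped MatrixGroups

universe u v

section norm
variable {F : Type u} [Field F] [Fintype F] {M : Type v} [AddCommGroup M] [Module F M]
  {p : ℕ} [hp : Fact p.Prime] [hc : CharP F p]

theorem sum_pow_range {e : ℕ} (he : 0 < e) (hd : p - 1 ∣ e) : ∑ j ∈ range p, ((j : F)) ^ e = -1 := by
  obtain ⟨k, rfl⟩ := hd
  have hp1 := hp.out.one_lt
  have h1 : ∀ j ∈ range p, ((j : F)) ^ ((p - 1) * k) = if j = 0 then 0 else 1 := by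
    intro j hj
    rw [mem_range] at hj
    split_ifs with h
    · rw [h, Nat.cast_zero, zero_pow he.ne']
    · have h2 : ((j : ZMod p)) ^ (p - 1) = 1 := by
        apply ZMod.pow_card_sub_one_eq_one
        rw [Ne, ZMod.natCast_eq_zero_iff]
        intro h3
        exact absurd (Nat.le_of_dvd (Nat.pos_of_ne_zero h) h3) (by omega)
      have h3 : ((j : F)) ^ (p - 1) = 1 := by
        have h4 := congrArg (ZMod.castHom (dvd_refl p) F) h2
        rwa [map_pow, map_one, map_natCast] at h4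
      rw [pow_mul, h3, one_pow]
  rw [Finset.sum_congr rfl h1]
  have h4 : p = p - 1 + 1 := by omega
  rw [h4, Finset.sum_range_succ', if_pos rfl, add_zero]
  simp only [Nat.succ_ne_zero, if_false]
  rw [Finset.sum_const, card_range, nsmul_eq_mul, mul_one, Nat.cast_sub hp1.le, CharP.cast_eq_zero F p,
    Nat.cast_one, zero_sub]

/-- the norms of the products of two commuting one-parameter groups -/
theorem norm_coef {x x' : F → Module.End F M} (h0 : x 0 = 1) (h0' : x' 0 = 1)
    (hN : ∀ c d : F, ∑ j ∈ range p, x ((j : F) * c) * x' ((j : F) * d) = 0) {m n : ℕ} (hm : m < Fintype.card F)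
    (hn : n < Fintype.card F) (hpos : 0 < m + n) (hd : p - 1 ∣ m + n) : coef x m * coef x' n = 0 := by
  set q := Fintype.card F with hq
  have key : ∀ c d : F, ∑ i ∈ range q, c ^ i • ∑ k ∈ range q, d ^ k •
      ((∑ j ∈ range p, (j : F) ^ (i + k)) • (coef x i * coef x' k)) = 0 := by
    intro c d
    rw [← hN c d]
    have h1 : ∀ j ∈ range p, x ((j : F) * c) * x' ((j : F) * d) =
        ∑ i ∈ range q, ∑ k ∈ range q, (c ^ i * d ^ k * (j : F) ^ (i + k)) • (coef x i * coef x' k) := by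
      intro j _
      rw [expand h0, expand h0', Finset.sum_mul_sum]
      apply Finset.sum_congr rfl
      intro i _
      apply Finset.sum_congr rfl
      intro k _
      rw [smul_mul_smul_comm]
      congr 1
      ring
    rw [Finset.sum_congr rfl h1, Finset.sum_comm]
    apply Finset.sum_congr rfl
    intro i _
    rw [Finset.sum_comm, Finset.smul_sum]
    apply Finset.sum_congr rfl
    intro k _
    rw [smul_smul, smul_smul, Finset.mul_sum, Finset.sum_smul]
  have h2 : ∀ d : F, ∑ k ∈ range q, d ^ k •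
      ((∑ j ∈ range p, (j : F) ^ (m + k)) • (coef x m * coef x' k)) = 0 := fun d =>
    unique_univ _ (fun c => key c d) m hm
  have h3 := unique_univ _ h2 n hn
  rw [sum_pow_range hpos hd, neg_smul, one_smul, neg_eq_zero] at h3
  exact h3

/-- the sum of a root group -/
theorem sum_eq_zero {x : F → Module.End F M} (h0 : x 0 = 1)
    (hN : ∀ c : F, ∑ j ∈ range p, x ((j : F) * c) = 0) : ∑ c : F, x c = 0 := by
  have hq : 1 < Fintype.card F := Fintype.one_lt_card
  have h1 := norm_coef (p := p) (x := x) (x' := fun _ => 1) h0 rfl (fun c d => by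
    simp only [mul_one]
    exact hN c) (m := Fintype.card F - 1) (n := 0) (by omega) (by omega) (by omega) (by
    rw [add_zero]
    obtain ⟨n, -, hn⟩ := FiniteField.card F p
    rw [hn]
    exact Nat.sub_one_dvd_pow_sub_one _ _)
  rw [coef_zero, mul_one, coef_of_pos _ (by omega), Nat.sub_self, neg_eq_zero] at h1
  simpa using h1

end norm

section sp
variable {F : Type u} [Field F] [Fintype F] [DecidableEq F] {M : Type v} [AddCommGroup M] [Module F M]
  {p : ℕ} [hp : Fact p.Prime] [hc : CharP F p] (ρ : symplecticGroup (Fin 2) F →* Module.End F M)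

theorem ym_pow (c : F) (n : ℕ) : (ym c : SL(2, F)) ^ n = ym ((n : F) * c) := by
  induction n with
  | zero => rw [pow_zero, Nat.cast_zero, zero_mul, ym_zero]
  | succ n ih => rw [pow_succ, ih, ← ym_add, Nat.cast_succ]; congr 1; ring

theorem xm_pow (c : F) (n : ℕ) : (xm c : SL(2, F)) ^ n = xm ((n : F) * c) := by
  induction n with
  | zero => rw [pow_zero, Nat.cast_zero, zero_mul, xm_zero]
  | succ n ih => rw [pow_succ, ih, ← xm_add, Nat.cast_succ]; congr 1; ring

/-- the norms of all elements of order `p` vanish -/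
def NZ (p : ℕ) : Prop := ∀ g : symplecticGroup (Fin 2) F, g ^ p = 1 → ∑ j ∈ range p, ρ g ^ j = 0

variable {ρ}

theorem NZ.em_ym (h : NZ ρ p) (c d : F) :
    ∑ j ∈ range p, Y (ρ.comp e1) ((j : F) * c) * Y (ρ.comp e2) ((j : F) * d) = 0 := by
  rw [← h (em (ym c, ym d)) (by
    rw [← map_pow, Prod.pow_mk, ym_pow, ym_pow, CharP.cast_eq_zero, zero_mul, zero_mul, ym_zero, Prod.mk_one_one,
      map_one])]
  apply Finset.sum_congr rfl
  intro j _
  rw [Y, Y, MonoidHom.comp_apply, MonoidHom.comp_apply, ← map_mul, e1_e2, ← map_pow, ← map_pow, Prod.pow_mk, ym_pow,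
    ym_pow]

theorem NZ.sumX (h : NZ ρ p) (e : SL(2, F) →* symplecticGroup (Fin 2) F) : ∑ c : F, X (ρ.comp e) c = 0 := by
  apply sum_eq_zero (p := p) (X_zero _)
  intro c
  rw [← h (e (xm c)) (by
    rw [← map_pow, xm_pow, CharP.cast_eq_zero, zero_mul, xm_zero, map_one])]
  apply Finset.sum_congr rfl
  intro j _
  rw [X, MonoidHom.comp_apply, ← map_pow, ← map_pow, xm_pow]

theorem NZ.sumY (h : NZ ρ p) (e : SL(2, F) →* symplecticGroup (Fin 2) F) : ∑ c : F, Y (ρ.comp e) c = 0 := by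
  apply sum_eq_zero (p := p) (Y_zero _)
  intro c
  rw [← h (e (ym c)) (by
    rw [← map_pow, ym_pow, CharP.cast_eq_zero, zero_mul, ym_zero, map_one])]
  apply Finset.sum_congr rfl
  intro j _
  rw [Y, MonoidHom.comp_apply, ← map_pow, ← map_pow, ym_pow]

variable (ρ)

theorem commute_fixed {x y : F → Module.End F M} (hxy : ∀ c d : F, Commute (x c) (y d)) {v : M}
    (hv : ∀ c : F, x c v = v) (m : ℕ) (c : F) : x c (coef y m v) = coef y m v := by
  have h1 := coef_commute (x := y) (g := x c) (fun d => hxy c d) m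
  have h2 := congrArg (fun A : Module.End F M => A v) h1.eq
  simp only [Module.End.mul_apply] at h2
  rw [h2, hv]

/-- a vector fixed by the unipotent radical of the Siegel parabolic subgroup, a weight vector of the torus -/
theorem exists_weight [Nontrivial M] : ∃ (v : M) (l1 l2 : ℕ), v ≠ 0 ∧ l1 < Fintype.card F - 1 ∧
    l2 < Fintype.card F - 1 ∧ (∀ c : F, ρ (e1 (xm c)) v = v) ∧ (∀ c : F, ρ (e2 (xm c)) v = v) ∧
    (∀ c : F, ρ (e3 (xm c)) v = v) ∧ (∀ t : Fˣ, ρ (e1 (hm t)) v = (t : F) ^ l1 • v) ∧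
    (∀ t : Fˣ, ρ (e2 (hm t)) v = (t : F) ^ l2 • v) := by
  obtain ⟨v0, hv0⟩ := exists_ne (0 : M)
  have c12 : ∀ c d : F, Commute (X (ρ.comp e1) c) (X (ρ.comp e2) d) := fun c d =>
    (commute_e1_e2 (xm c) (xm d)).map ρ
  have c13 : ∀ c d : F, Commute (X (ρ.comp e1) c) (X (ρ.comp e3) d) := fun c d => by
    have h1 := (commute_e3 c 0 d).map ρ
    rw [xm_zero] at h1
    exact h1
  have c23 : ∀ c d : F, Commute (X (ρ.comp e2) c) (X (ρ.comp e3) d) := fun c d => by
    have h1 := (commute_e3 0 c d).map ρ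
    rw [xm_zero] at h1
    exact h1
  obtain ⟨m1, -, h1, f1⟩ := exists_fixed (X_zero (ρ.comp e1)) (X_add (ρ.comp e1)) hv0
  set v1 := coef (X (ρ.comp e1)) m1 v0
  obtain ⟨m2, -, h2, f2⟩ := exists_fixed (X_zero (ρ.comp e2)) (X_add (ρ.comp e2)) h1
  have f12 := commute_fixed c12 f1 m2
  set v2 := coef (X (ρ.comp e2)) m2 v1
  obtain ⟨m3, -, h3, f3⟩ := exists_fixed (X_zero (ρ.comp e3)) (X_add (ρ.comp e3)) h2
  have f13 := commute_fixed c13 f12 m3
  have f23 := commute_fixed c23 f2 m3
  set v3 := coef (X (ρ.comp e3)) m3 v2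
  -- the torus normalizes the root groups
  have nrm : ∀ (g : symplecticGroup (Fin 2) F) (x : F → symplecticGroup (Fin 2) F) (s : F), s ≠ 0 →
      (∀ c, g * x c = x (s * c) * g) → ∀ v : M, (∀ c, ρ (x c) v = v) → ∀ c, ρ (x c) (ρ g v) = ρ g v := by
    intro g x s hs hg v hv c
    have h4 := hg (s⁻¹ * c)
    rw [mul_inv_cancel_left₀ hs] at h4
    have h5 := congrArg (fun g => ρ g v) h4
    simp only [map_mul, Module.End.mul_apply] at h5
    rw [← h5, hv]
  have n11 : ∀ (t : Fˣ) (c : F), e1 (hm t) * e1 (xm c) = e1 (xm ((t : F) ^ 2 * c)) * e1 (hm t) := fun t c => by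
    rw [← map_mul, hm_xm, map_mul]
  have n12 : ∀ (t : Fˣ) (c : F), e1 (hm t) * e2 (xm c) = e2 (xm (1 * c)) * e1 (hm t) := fun t c => by
    rw [one_mul]; exact (commute_e1_e2 _ _).eq
  have n13 : ∀ (t : Fˣ) (c : F), e1 (hm t) * e3 (xm c) = e3 (xm ((t : F) * c)) * e1 (hm t) := fun t c => by
    have h4 := hm_e3_xm t 1 c
    rw [hm_one, Units.val_one, mul_one] at h4
    exact h4
  have n21 : ∀ (t : Fˣ) (c : F), e2 (hm t) * e1 (xm c) = e1 (xm (1 * c)) * e2 (hm t) := fun t c => by
    rw [one_mul]; exact (commute_e1_e2 _ _).symm.eq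
  have n22 : ∀ (t : Fˣ) (c : F), e2 (hm t) * e2 (xm c) = e2 (xm ((t : F) ^ 2 * c)) * e2 (hm t) := fun t c => by
    rw [← map_mul, hm_xm, map_mul]
  have n23 : ∀ (t : Fˣ) (c : F), e2 (hm t) * e3 (xm c) = e3 (xm ((t : F) * c)) * e2 (hm t) := fun t c => by
    have h4 := hm_e3_xm 1 t c
    rw [hm_one, Units.val_one, one_mul] at h4
    exact h4
  obtain ⟨l1, hl1, h4⟩ := exists_wt (H (ρ.comp e1)) h3
  have g1 : ∀ c : F, ρ (e1 (xm c)) (wt (H (ρ.comp e1)) l1 v3) = wt (H (ρ.comp e1)) l1 v3 := fun c =>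
    wt_fixed _ _ (fun t => nrm (e1 (hm t)) (fun c => e1 (xm c)) _ (pow_ne_zero 2 t.ne_zero) (n11 t) v3 f13 c)
  have g2 : ∀ c : F, ρ (e2 (xm c)) (wt (H (ρ.comp e1)) l1 v3) = wt (H (ρ.comp e1)) l1 v3 := fun c =>
    wt_fixed _ _ (fun t => nrm (e1 (hm t)) (fun c => e2 (xm c)) _ one_ne_zero (n12 t) v3 f23 c)
  have g3 : ∀ c : F, ρ (e3 (xm c)) (wt (H (ρ.comp e1)) l1 v3) = wt (H (ρ.comp e1)) l1 v3 := fun c =>
    wt_fixed _ _ (fun t => nrm (e1 (hm t)) (fun c => e3 (xm c)) _ t.ne_zero (n13 t) v3 f3 c)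
  have w1 := fun t => wt_eigen (H (ρ.comp e1)) l1 v3 t
  set v4 := wt (H (ρ.comp e1)) l1 v3
  obtain ⟨l2, hl2, h5⟩ := exists_wt (H (ρ.comp e2)) h4
  refine ⟨wt (H (ρ.comp e2)) l2 v4, l1, l2, h5, hl1, hl2, ?_, ?_, ?_, ?_, ?_⟩
  · exact fun c =>
      wt_fixed _ _ (fun t => nrm (e2 (hm t)) (fun c => e1 (xm c)) _ one_ne_zero (n21 t) v4 g1 c)
  · exact fun c =>
      wt_fixed _ _ (fun t => nrm (e2 (hm t)) (fun c => e2 (xm c)) _ (pow_ne_zero 2 t.ne_zero) (n22 t) v4 g2 c)
  · exact fun c =>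
      wt_fixed _ _ (fun t => nrm (e2 (hm t)) (fun c => e3 (xm c)) _ t.ne_zero (n23 t) v4 g3 c)
  · intro t
    exact wt_eigen_comm (H (ρ.comp e2)) l2 (fun s => (commute_e1_e2 (hm t) (hm s)).map ρ) (w1 t)
  · exact fun t => wt_eigen (H (ρ.comp e2)) l2 v4 t

/-- **The second torus has a fixed vector.** -/
theorem exists_fixed_torus [Nontrivial M] (hN : NZ ρ p) : ∃ w : M, w ≠ 0 ∧ ∀ t : Fˣ, ρ (e2 (hm t)) w = w := by
  obtain ⟨v, l1, l2, hv0, hl1, hl2, hx1, hx2, hx3, hw1, hw2⟩ := exists_weight ρ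
  set q := Fintype.card F with hq
  have hq1 : 1 < q := Fintype.one_lt_card
  obtain ⟨f, -, hf⟩ := FiniteField.card F p
  rw [← hq] at hf
  set E1 := coef (X (ρ.comp e1)) with hE1
  set E2 := coef (X (ρ.comp e2)) with hE2
  set F1 := coef (Y (ρ.comp e1)) with hF1
  set F2 := coef (Y (ρ.comp e2)) with hF2
  have i1 : E1 l1 (F1 l1 v) = v := by
    have h1 := coef_coef (ρ.comp e1) hl1 (hN.sumX e1) (hN.sumY e1) hx1 hw1 hl1
    rw [Nat.choose_self, Nat.cast_one, one_smul] at h1
    exact h1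
  have i2 : E2 l2 (F2 l2 v) = v := by
    have h1 := coef_coef (ρ.comp e2) hl2 (hN.sumX e2) (hN.sumY e2) hx2 hw2 hl2
    rw [Nat.choose_self, Nat.cast_one, one_smul] at h1
    exact h1
  have hcomm : Commute (F1 l1) (E2 l2) := by
    apply coef_commute
    intro c
    apply Commute.symm
    apply coef_commute
    intro d
    exact ((commute_e1_e2 (ym d) (xm c)).map ρ).symm
  have hne : F1 l1 * F2 l2 ≠ 0 := by
    intro h
    apply hv0
    have h1 : E1 l1 (F1 l1 (E2 l2 (F2 l2 v))) = v := by rw [i2, i1]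
    have h2 : F1 l1 (E2 l2 (F2 l2 v)) = E2 l2 (F1 l1 (F2 l2 v)) := by
      have := congrArg (fun A : Module.End F M => A (F2 l2 v)) hcomm.eq
      simpa only [Module.End.mul_apply] using this
    have h3 : F1 l1 (F2 l2 v) = 0 := by
      have := congrArg (fun A : Module.End F M => A v) h
      simpa only [Module.End.mul_apply, LinearMap.zero_apply] using this
    rw [h2, h3, map_zero, map_zero] at h1
    exact h1.symm
  have hdig := Digits.no_carry hp.out f l1 l2 (by rw [← hf]; omega) (by rw [← hf]; omega) (by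
    intro m n hm hn hcm hcn hpos hd
    apply hne
    have h1 : F1 m * F2 n = 0 := norm_coef (p := p) (Y_zero _) (Y_zero _) hN.em_ym (by omega) (by omega) hpos hd
    have h2 : F1 (l1 - m) * F1 m = ((l1).choose (l1 - m) : F) • F1 l1 := by
      have := coef_mul (Y_zero (ρ.comp e1)) (Y_add (ρ.comp e1)) (m := l1 - m) (n := m) (by omega) (by omega)
      rw [Nat.sub_add_cancel hm, if_pos (by omega)] at this
      exact this
    have h3 : F2 n * F2 (l2 - n) = ((l2).choose n : F) • F2 l2 := by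
      have := coef_mul (Y_zero (ρ.comp e2)) (Y_add (ρ.comp e2)) (m := n) (n := l2 - n) (by omega) (by omega)
      rw [Nat.add_sub_cancel' hn, if_pos (by omega)] at this
      exact this
    have h4 : (F1 (l1 - m) * F1 m) * (F2 n * F2 (l2 - n)) = 0 := by
      rw [mul_assoc, ← mul_assoc (F1 m), h1, zero_mul, mul_zero]
    rw [h2, h3, smul_mul_smul_comm, Nat.choose_symm hm] at h4
    rcases smul_eq_zero.1 h4 with h5 | h5
    · exfalso
      rcases mul_eq_zero.1 h5 with h6 | h6
      · exact hcm ((CharP.cast_eq_zero_iff F p _).1 h6)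
      · exact hcn ((CharP.cast_eq_zero_iff F p _).1 h6)
    · exact h5)
  obtain ⟨hd1, -, hd3⟩ := hdig
  have hf0 : 0 < (f : ℕ) := f.pos
  have hsum : l1 + l2 < q - 1 := by
    have := hd3 hf0
    rw [← hf] at this
    omega
  have hw3 : ∀ t : Fˣ, (ρ.comp e3) (hm t) v = (t : F) ^ (l1 + l2) • v := by
    intro t
    rw [MonoidHom.comp_apply, e3_hm, ← e1_e2, map_mul, Module.End.mul_apply, hw2, map_smul, hw1, smul_smul, pow_add,
      mul_comm]
  have i3 := coef_coef (ρ.comp e3) (l := l1 + l2) hsum (hN.sumX e3) (hN.sumY e3) hx3 hw3 (m := l2) hl2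
  refine ⟨coef (Y (ρ.comp e3)) l2 v, ?_, ?_⟩
  · intro h
    rw [h, map_zero] at i3
    rcases smul_eq_zero.1 i3.symm with h5 | h5
    · exact hd1 ((CharP.cast_eq_zero_iff F p _).1 h5)
    · exact hv0 h5
  · intro t
    have h1 := coef_conj (Y_zero (ρ.comp e3)) (g := ρ (e2 (hm t))) (s := ((t⁻¹ : Fˣ) : F)) (fun c => by
      have h2 := hm_e3_ym 1 t c
      rw [hm_one, inv_one, Units.val_one, one_mul] at h2
      rw [Y, Y, MonoidHom.comp_apply, MonoidHom.comp_apply, ← map_mul, ← map_mul, e2_apply, h2]) (m := l2) (by omega)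
    have h2 := congrArg (fun A : Module.End F M => A v) h1
    simp only [Module.End.mul_apply, LinearMap.smul_apply] at h2
    rw [h2, hw2, map_smul, smul_smul, ← mul_pow, Units.inv_mul, one_pow, one_smul]

theorem sq_eq_one_or {K : Type*} [Field K] {x : K} (h : x ^ 2 = 1) : x = 1 ∨ x = -1 := by
  have h1 : (x - 1) * (x + 1) = 0 := by linear_combination h
  rcases mul_eq_zero.1 h1 with h2 | h2
  · exact Or.inl (sub_eq_zero.1 h2)
  · exact Or.inr (eq_neg_of_add_eq_zero_left h2)

omit [DecidableEq F] in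
/-- two anticommuting elements of order `4` -/
theorem exists_quaternion (hodd : Fintype.card F % 2 = 1) : ∃ a b : SL(2, F), a * a = -1 ∧ b * b = -1 ∧
    (a * b) * (a * b) = -1 := by
  obtain ⟨x, y, hxy⟩ := sq_form hodd (F := F) (A := -1) (B := -1) (by simp) (by simp)
  let a : SL(2, F) := ⟨!![0, 1; -1, 0], by rw [Matrix.det_fin_two_of]; ring⟩
  let b : SL(2, F) := ⟨!![x, y; y, -x], by rw [Matrix.det_fin_two_of]; linear_combination hxy⟩
  have ha : (a : Matrix (Fin 2) (Fin 2) F) = !![0, 1; -1, 0] := rfl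
  have hb : (b : Matrix (Fin 2) (Fin 2) F) = !![x, y; y, -x] := rfl
  refine ⟨a, b, ?_, ?_, ?_⟩
  · apply Subtype.ext
    rw [Matrix.SpecialLinearGroup.coe_mul, Matrix.SpecialLinearGroup.coe_neg, Matrix.SpecialLinearGroup.coe_one, ha]
    ext i j
    fin_cases i <;> fin_cases j <;> simp
  · apply Subtype.ext
    rw [Matrix.SpecialLinearGroup.coe_mul, Matrix.SpecialLinearGroup.coe_neg, Matrix.SpecialLinearGroup.coe_one, hb]
    ext i j
    fin_cases i <;> fin_cases j <;> simp
    · linear_combination -hxy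
    · ring
    · ring
    · linear_combination -hxy
  · apply Subtype.ext
    rw [Matrix.SpecialLinearGroup.coe_mul, Matrix.SpecialLinearGroup.coe_mul, Matrix.SpecialLinearGroup.coe_neg,
      Matrix.SpecialLinearGroup.coe_one, ha, hb]
    ext i j
    fin_cases i <;> fin_cases j <;> simp
    · linear_combination -hxy
    · ring
    · ring
    · linear_combination -hxy

omit [Fintype F] [DecidableEq F] in
/-- an element of order `4` of the first factor fixes a fixed vector of an element of the second one -/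
theorem exists_four (hneg : ρ (em (-1, -1)) = 1) {a b z : SL(2, F)} (ha : a * a = -1) (hb : b * b = -1)
    (hab : (a * b) * (a * b) = -1) {k : ℕ} (hz : z ^ k = -1) {w : M} (hw0 : w ≠ 0) (hw : ρ (e2 z) w = w) :
    ∃ c : SL(2, F), c * c = -1 ∧ ∃ w : M, w ≠ 0 ∧ ρ (em (c, z)) w = w := by
  have hfix : ρ (e2 (-1)) w = w := by
    rw [← hz, map_pow, map_pow]
    clear hz
    induction k with
    | zero => rw [pow_zero]; rfl
    | succ k ih => rw [pow_succ, Module.End.mul_apply, hw, ih]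
  have hfix1 : ρ (e1 (-1)) w = w := by
    have h1 : ρ (e1 (-1) * e2 (-1)) w = w := by
      rw [e1_e2, hneg]; rfl
    rw [map_mul, Module.End.mul_apply, hfix] at h1
    exact h1
  have key : ∀ c : SL(2, F), c * c = -1 → w + ρ (e1 c) w ≠ 0 → ∃ w : M, w ≠ 0 ∧ ρ (em (c, z)) w = w := by
    intro c hc hne
    refine ⟨_, hne, ?_⟩
    have h1 : ρ (e1 c) (ρ (e1 c) w) = w := by
      rw [← Module.End.mul_apply, ← map_mul, ← map_mul, hc, hfix1]
    have h2 : ρ (e2 z) (ρ (e1 c) w) = ρ (e1 c) w := by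
      rw [← Module.End.mul_apply, ← map_mul, (commute_e1_e2 c z).symm.eq, map_mul, Module.End.mul_apply, hw]
    rw [← e1_e2, map_mul, Module.End.mul_apply, map_add, hw, h2, map_add, h1, add_comm]
  by_cases h1 : w + ρ (e1 a) w = 0
  · by_cases h2 : w + ρ (e1 b) w = 0
    · refine ⟨a * b, hab, w, hw0, ?_⟩
      have h3 : ρ (e1 a) w = -w := (neg_eq_of_add_eq_zero_right h1).symm
      have h4 : ρ (e1 b) w = -w := (neg_eq_of_add_eq_zero_right h2).symm
      rw [← e1_e2, map_mul, Module.End.mul_apply, hw, map_mul, map_mul, Module.End.mul_apply, h4, map_neg, h3, neg_neg]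
    · exact ⟨b, hb, key b hb h2⟩
  · exact ⟨a, ha, key a ha h1⟩

omit [DecidableEq F] in
/-- **The own characteristic at least `5`.** -/
theorem main [FiniteDimensional F M] [Nontrivial M] (hp5 : 5 ≤ p) (hq5 : Fintype.card F ≠ 5) (hN : NZ ρ p)
    (hneg : ρ (em (-1, -1)) = 1) : ∃ (y : symplecticGroup (Fin 2) F) (w : M), w ≠ 0 ∧ ρ y w = w ∧
      y ^ (Fintype.card F ^ 2 - 1) = 1 ∧ (∀ s : F, s ^ 2 = 1 → (y ^ (Fintype.card F - 1)).1 ≠ s • 1) ∧
      ∀ s : F, s ^ 2 = 1 → (y ^ (Fintype.card F + 1)).1 ≠ s • 1 := by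
  classical
  have h2 : (2 : F) ≠ 0 := by
    intro h
    have h1 : ((2 : ℕ) : F) = 0 := by exact_mod_cast h
    rw [CharP.cast_eq_zero_iff F p] at h1
    have := Nat.le_of_dvd (by norm_num) h1
    omega
  have hp2 : ringChar F ≠ 2 := by
    intro h
    apply h2
    have := ringChar.Nat.cast_ringChar (R := F)
    rw [h] at this
    exact_mod_cast this
  have hodd := FiniteField.odd_card_of_char_ne_two hp2
  obtain ⟨f, hf0, hf⟩ := FiniteField.card F p
  set q := Fintype.card F with hq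
  have hq6 : 6 ≤ q := by
    have h1 : p ≤ q := by
      rw [hf]
      exact Nat.le_self_pow f.pos.ne' p
    omega
  have hne1 : (-1 : F) ≠ 1 := by
    intro h
    apply h2
    linear_combination (-1 : F) * h
  obtain ⟨a, b, ha, hb, hab⟩ := exists_quaternion (F := F) hodd
  obtain ⟨w0, hw0, hwT⟩ := exists_fixed_torus (p := p) ρ hN
  have hsq : q ^ 2 - 1 = (q - 1) * (q + 1) := by
    obtain ⟨k, hk⟩ : ∃ k, q = k + 1 := ⟨q - 1, by omega⟩
    rw [hk, Nat.add_sub_cancel, Nat.sub_eq_iff_eq_add (Nat.one_le_pow _ _ (by omega))]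
    ring
  have hone : ∀ {c : SL(2, F)} {n : ℕ}, c * c = -1 → 4 ∣ n → c ^ n = 1 := by
    rintro c n hc ⟨k, rfl⟩
    have : c ^ 4 = 1 := by
      rw [show 4 = 2 * 2 from rfl, pow_mul, pow_two c, hc, neg_one_sq]
    rw [pow_mul, this, one_pow]
  have hmone : ∀ {c : SL(2, F)} {n : ℕ}, c * c = -1 → n % 4 = 2 → c ^ n = -1 := by
    intro c n hc hn
    have h1 : n = 4 * (n / 4) + 2 := by omega
    rw [h1, pow_add, hone hc (Dvd.intro _ rfl), one_mul, pow_two, hc]
  have hval : ∀ {c z : SL(2, F)} {n : ℕ} {s : F}, ((em (c, z)) ^ n).1 = s • 1 →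
      (c ^ n).1 = s • (1 : Matrix (Fin 2) (Fin 2) F) ∧ (z ^ n).1 = s • (1 : Matrix (Fin 2) (Fin 2) F) := by
    intro c z n s h
    rw [← map_pow, Prod.pow_mk] at h
    exact em_scalar h
  have hs1 : ∀ {s : F}, (1 : SL(2, F)).1 = s • (1 : Matrix (Fin 2) (Fin 2) F) → s = 1 := by
    intro s h
    have := congrFun (congrFun h 0) 0
    simpa using this.symm
  have hs2 : ∀ {s : F}, (-1 : SL(2, F)).1 = s • (1 : Matrix (Fin 2) (Fin 2) F) → s = -1 := by
    intro s h
    have e1 : ((-1 : SL(2, F)).1 : Matrix (Fin 2) (Fin 2) F) = -1 := by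
      rw [Matrix.SpecialLinearGroup.coe_neg]; rfl
    rw [e1] at h
    have := congrFun (congrFun h 0) 0
    simp at this
    exact this.symm
  have hmod : q % 4 = 3 ∨ q % 4 = 1 := by omega
  rcases hmod with hmod | hmod
  · -- the split torus
    obtain ⟨g, hg⟩ := IsCyclic.exists_ofOrder_eq_natCard (α := Fˣ)
    have hgo : orderOf g = q - 1 := by rw [hg, Nat.card_eq_fintype_card, Fintype.card_units]
    have hhm : ∀ n : ℕ, (hm g : SL(2, F)) ^ n = hm (g ^ n) := by
      intro n
      induction n with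
      | zero => rw [pow_zero, pow_zero, hm_one]
      | succ n ih => rw [pow_succ, pow_succ, ih, hm_mul]
    have hg1 : g ^ (q - 1) = 1 := by rw [← hgo, pow_orderOf_eq_one]
    have hgh : g ^ ((q - 1) / 2) = -1 := by
      have h3 : (g ^ ((q - 1) / 2)) ^ 2 = 1 := by
        rw [← pow_mul, Nat.div_mul_cancel (by omega), hg1]
      have h4 : g ^ ((q - 1) / 2) ≠ 1 := by
        intro h5
        have h6 := orderOf_dvd_of_pow_eq_one h5
        rw [hgo] at h6
        have := Nat.le_of_dvd (by omega) h6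
        omega
      have h5 : ((g ^ ((q - 1) / 2) : Fˣ) : F) ^ 2 = 1 := by
        rw [← Units.val_pow_eq_pow_val, h3, Units.val_one]
      apply Units.ext
      rw [Units.val_neg, Units.val_one]
      rcases (sq_eq_one_or h5) with h6 | h6
      · exact absurd (Units.ext (by rw [h6, Units.val_one])) h4
      · exact h6
    obtain ⟨c, hc, w, hw, hyw⟩ := exists_four ρ hneg ha hb hab (z := hm g) (k := (q - 1) / 2) (by
      rw [hhm, hgh]
      apply Subtype.ext
      rw [Matrix.SpecialLinearGroup.coe_neg, coe_hm, Matrix.SpecialLinearGroup.coe_one]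
      ext i j
      fin_cases i <;> fin_cases j <;> simp) hw0 (hwT g)
    refine ⟨em (c, hm g), w, hw, hyw, ?_, ?_, ?_⟩
    · rw [← map_pow, Prod.pow_mk, hsq]
      have h3 : c ^ ((q - 1) * (q + 1)) = 1 := hone hc (by
        have : 4 ∣ q + 1 := by omega
        exact this.mul_left _)
      have h4 : (hm g : SL(2, F)) ^ ((q - 1) * (q + 1)) = 1 := by
        rw [hhm, pow_mul, hg1, one_pow, hm_one]
      rw [h3, h4, Prod.mk_one_one, map_one]
    · intro s _ hcon
      obtain ⟨h3, h4⟩ := hval hcon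
      rw [hmone hc (by omega)] at h3
      rw [hhm, hg1, hm_one] at h4
      exact hne1 ((hs2 h3).symm.trans (hs1 h4))
    · intro s _ hcon
      obtain ⟨h3, h4⟩ := hval hcon
      rw [hone hc (by omega)] at h3
      rw [hs1 h3, one_smul, hhm] at h4
      have h5 : ((g ^ (q + 1) : Fˣ) : F) = 1 := congrFun (congrFun h4 0) 0
      have h6 : g ^ (q + 1) = 1 := Units.ext h5
      have h7 := orderOf_dvd_of_pow_eq_one h6
      rw [hgo] at h7
      have h8 : q - 1 ∣ 2 := by
        have h9 : q + 1 = (q - 1) + 2 := by omega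
        rw [h9] at h7
        exact (Nat.dvd_add_right (dvd_refl _)).1 h7
      have := Nat.le_of_dvd (by norm_num) h8
      omega
  · -- the nonsplit torus
    obtain ⟨z, β, hβ, hz⟩ := exists_nonsplit (F := F)
    obtain ⟨w1, hw1, hzw1⟩ := LemK.main hp5 h2 hβ hz _ M (ρ.comp e2) rfl (hN.sumX e2) (hN.sumY e2)
      ⟨w0, hw0, hwT⟩
    have hz1 : z ^ (q + 1) = 1 := by
      have h3 := ((hz (q + 1)).2 1 (one_pow 2)).2 (by rw [hβ.pow_eq_one, map_one])
      rw [one_smul] at h3
      exact Subtype.ext h3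
    have hβh : β ^ ((q + 1) / 2) = -1 := by
      have h3 : (β ^ ((q + 1) / 2)) ^ 2 = 1 := by
        rw [← pow_mul, Nat.div_mul_cancel (by omega), hβ.pow_eq_one]
      rcases (sq_eq_one_or h3) with h6 | h6
      · exfalso
        have h7 := (hβ.pow_eq_one_iff_dvd _).1 h6
        have := Nat.le_of_dvd (by omega) h7
        omega
      · exact h6
    have hzh : z ^ ((q + 1) / 2) = -1 := by
      have h3 := ((hz ((q + 1) / 2)).2 (-1) (by ring)).2 (by rw [hβh, map_neg, map_one])
      rw [neg_smul, one_smul] at h3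
      apply Subtype.ext
      rw [Matrix.SpecialLinearGroup.coe_neg, Matrix.SpecialLinearGroup.coe_one]
      exact h3
    obtain ⟨c, hc, w, hw, hyw⟩ := exists_four ρ hneg ha hb hab hzh hw1 hzw1
    refine ⟨em (c, z), w, hw, hyw, ?_, ?_, ?_⟩
    · rw [← map_pow, Prod.pow_mk, hsq]
      have h3 : c ^ ((q - 1) * (q + 1)) = 1 := hone hc (by
        have : 4 ∣ q - 1 := by omega
        exact this.mul_right _)
      have h4 : z ^ ((q - 1) * (q + 1)) = 1 := by
        rw [mul_comm, pow_mul, hz1, one_pow]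
      rw [h3, h4, Prod.mk_one_one, map_one]
    · intro s _ hcon
      obtain ⟨h3, h4⟩ := hval hcon
      rw [hone hc (by omega)] at h3
      have hs := hs1 h3
      subst hs
      have h5 := ((hz (q - 1)).2 1 (one_pow 2)).1 h4
      rw [map_one] at h5
      have h7 := (hβ.pow_eq_one_iff_dvd _).1 h5
      have := Nat.le_of_dvd (by omega) h7
      omega
    · intro s _ hcon
      obtain ⟨h3, h4⟩ := hval hcon
      rw [hmone hc (by omega)] at h3
      rw [hz1] at h4
      exact hne1 ((hs2 h3).symm.trans (hs1 h4))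

end sp

end Cfsg.Agent.H379.P4.SpFive
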