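import Mathlib
import Cfsg.Agent.H379.P4.SpFive
import Cfsg.Agent.H379.P4.Ext
import Cfsg.Agent.H374.SpFour

/-!
# Groups isospectral to `PSp₄(q)`, characteristic at least `5`: the kernel is trivial
-/

set_option autoImplicit false

namespace Cfsg.Agent.H379.P4.OwnFive

open Finset Matrix Cfsg.Agent.H374.Quad Cfsg.Agent.H374.SpFour SpFive SpEmb

open scoped MatrixGroups

universe u v

theorem cl_one {F : Type v} [Field F] {y : symplecticGroup (Fin 2) F} {k : ℕ}
    (h : (QuotientGroup.mk' (Subgroup.center (symplecticGroup (Fin 2) F)) y) ^ k = 1) :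
    ∃ c : F, c ^ 2 = 1 ∧ (y ^ k).1 = c • 1 := by
  have h1 : (cl y.1 y.2) ^ k = 1 := h
  obtain ⟨c, hc⟩ := cl_pow_eq_one.1 h1
  exact ⟨c, sq_of_scalar y.2 hc, hc⟩

/-- the centre -/
theorem neg_one_mem {F : Type v} [Field F] :
    QuotientGroup.mk' (Subgroup.center (symplecticGroup (Fin 2) F)) (em (-1, -1)) = 1 := by
  rw [← MonoidHom.mem_ker, QuotientGroup.ker_mk', LieClassical.SympCenter.mem_center_iff]
  refine ⟨-1, ?_⟩
  rw [neg_smul, one_smul]
  exact em_neg_one

theorem not_om {p q m : ℕ} (hp : p.Prime) (hp5 : 5 ≤ p) {n : ℕ} (hn : n ≠ 0) (hq : q = p ^ n)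
    (h : Om p q (m * p)) : m ∣ q - 1 ∨ m ∣ q + 1 := by
  have hpq : p ∣ q := by rw [hq]; exact dvd_pow_self p hn
  have hq0 : 0 < q := by rw [hq]; exact Nat.pos_of_ne_zero (pow_ne_zero _ hp.ne_zero)
  have hq1 : 1 ≤ q ^ 2 := Nat.one_le_pow _ _ hq0
  have hpq2 : p ∣ q ^ 2 := hpq.trans (dvd_pow_self q two_ne_zero)
  have hp1 : ¬ p ∣ 1 := fun h => hp.one_lt.ne' (Nat.dvd_one.1 h)
  have hpd : p ∣ m * p := Dvd.intro_left m rfl
  rcases h with h | h | h | h | ⟨h, -⟩ | ⟨h, -⟩
  · left
    rw [mul_comm p] at h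
    exact Nat.dvd_of_mul_dvd_mul_right hp.pos h
  · right
    rw [mul_comm p] at h
    exact Nat.dvd_of_mul_dvd_mul_right hp.pos h
  · exfalso
    have h1 : p ∣ q ^ 2 - 1 := (hpd.trans h).trans (Nat.div_dvd_of_dvd (by
      refine (Nat.gcd_dvd_right 2 (q - 1)).trans ?_
      have := Nat.sub_dvd_pow_sub_pow q 1 2
      rwa [one_pow] at this))
    apply hp1
    have h2 := Nat.dvd_sub hpq2 h1
    rwa [Nat.sub_sub_self hq1] at h2
  · exfalso
    have h0 : Nat.gcd 2 (q - 1) ∣ q ^ 2 + 1 := by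
      rcases Nat.even_or_odd q with he | ho
      · have : Nat.gcd 2 (q - 1) = 1 := by
          rw [← Nat.coprime_iff_gcd_eq_one, Nat.coprime_two_left]
          exact Nat.Even.sub_odd hq0 he odd_one
        rw [this]; exact one_dvd _
      · refine (Nat.gcd_dvd_left 2 (q - 1)).trans ?_
        rw [← even_iff_two_dvd]
        exact (ho.pow).add_one
    have h1 : p ∣ q ^ 2 + 1 := (hpd.trans h).trans (Nat.div_dvd_of_dvd h0)
    exact hp1 ((Nat.dvd_add_right hpq2).1 h1)
  · omega
  · omega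

/-- **The kernel is trivial.** -/
theorem five {F : Type v} [Field F] [Fintype F] {p : ℕ} [hp : Fact p.Prime] [hc : CharP F p] (hp5 : 5 ≤ p)
    (hq5 : Fintype.card F ≠ 5) {G : Type u} [Group G] [Finite G]
    (hom : ∀ g : G, Om p (Fintype.card F) (orderOf g)) (K : Subgroup G) [K.Normal] (hKp : IsPGroup p K)
    (f : Cfsg.PSp 2 F →* G ⧸ K) (hf : Function.Injective f) : K = ⊥ := by
  classical
  by_contra hKne
  obtain ⟨n, -, hn⟩ := FiniteField.card F p
  have hn0 : (n : ℕ) ≠ 0 := n.pos.ne'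
  obtain ⟨W, _, _, ρ, hWn, hWf, hnorm⟩ := Ext.exists_rho F K hKne hKp f hf (P := Om p (Fintype.card F)) hom
    (fun {m k} h h' => h.of_dvd h')
  set q := Fintype.card F with hq
  have hq1 : 1 < q := Fintype.one_lt_card
  let π : symplecticGroup (Fin 2) F →* Cfsg.PSp 2 F := QuotientGroup.mk' (Subgroup.center (symplecticGroup (Fin 2) F))
  have hNZ : NZ (ρ.comp π) p := by
    intro g hg
    by_cases h1 : π g = 1
    · have h2 : ∀ j ∈ range p, (ρ.comp π) g ^ j = 1 := by
        intro j _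
        rw [MonoidHom.comp_apply, h1, map_one, one_pow]
      rw [Finset.sum_congr rfl h2, Finset.sum_const, card_range]
      have : CharP (Module.End F W) p := charP_of_injective_algebraMap (algebraMap F (Module.End F W)).injective p
      rw [nsmul_eq_mul, mul_one]
      exact CharP.cast_eq_zero _ p
    · have h2 : orderOf (π g) = p := orderOf_eq_prime (by rw [← map_pow, hg, map_one]) h1
      have h3 := hnorm (π g) (by
        rw [h2]
        intro h4
        rcases not_om hp.out hp5 hn0 hn h4 with h5 | h5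
        · have h6 : p ∣ q := by rw [hn]; exact dvd_pow_self p hn0
          have h7 := Nat.dvd_sub h6 h5
          rw [Nat.sub_sub_self hq1.le] at h7
          exact hp.out.one_lt.ne' (Nat.dvd_one.1 h7)
        · have h6 : p ∣ q := by rw [hn]; exact dvd_pow_self p hn0
          exact hp.out.one_lt.ne' (Nat.dvd_one.1 ((Nat.dvd_add_right h6).1 h5)))
      rw [h2] at h3
      exact h3
  obtain ⟨y, w, hw, hyw, hy1, hy2, hy3⟩ := SpFive.main (p := p) (ρ.comp π) hp5 hq5 hNZ (by
    rw [MonoidHom.comp_apply]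
    have : π (em (-1, -1)) = 1 := neg_one_mem
    rw [this, map_one])
  have hord : orderOf (π y) ∣ q ^ 2 - 1 := orderOf_dvd_of_pow_eq_one (by rw [← map_pow, hy1, map_one])
  have h3 := hnorm (π y) (by
    intro h4
    rcases not_om hp.out hp5 hn0 hn h4 with h5 | h5
    · obtain ⟨c, hc1, hc2⟩ := cl_one (orderOf_dvd_iff_pow_eq_one.1 h5)
      exact hy2 c hc1 hc2
    · obtain ⟨c, hc1, hc2⟩ := cl_one (orderOf_dvd_iff_pow_eq_one.1 h5)
      exact hy3 c hc1 hc2)
  have h4 : ∀ j : ℕ, (ρ (π y) ^ j) w = w := by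
    intro j
    induction j with
    | zero => rfl
    | succ j ih => rw [pow_succ, Module.End.mul_apply]; rw [show ρ (π y) w = w from hyw, ih]
  have h5 := congrArg (fun A : Module.End F W => A w) h3
  simp only [LinearMap.sum_apply, LinearMap.zero_apply] at h5
  rw [Finset.sum_congr rfl (fun j _ => h4 j), Finset.sum_const, card_range, ← Nat.cast_smul_eq_nsmul F] at h5
  rcases smul_eq_zero.1 h5 with h6 | h6
  · rw [CharP.cast_eq_zero_iff F p] at h6
    have h7 : p ∣ q ^ 2 - 1 := h6.trans hord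
    have h8 : p ∣ q ^ 2 := by rw [hn, ← pow_mul]; exact dvd_pow_self p (by omega)
    have h9 := Nat.dvd_sub h8 h7
    rw [Nat.sub_sub_self (Nat.one_le_pow _ _ (by omega))] at h9
    exact hp.out.one_lt.ne' (Nat.dvd_one.1 h9)
  · exact hw h6

end Cfsg.Agent.H379.P4.OwnFive
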