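import Mathlib
import Cfsg.Agent.H379.P4.SLTwo

/-!
# Quadratic representations of `PSL₂(3ⁿ)` in characteristic `3` are trivial
-/

set_option autoImplicit false
set_option linter.unusedSimpArgs false

namespace Cfsg.Agent.H379.P4.TrivThree

open Matrix SLTwo

open scoped MatrixGroups

/-- four operators -/
theorem four {R : Type*} [Ring R] (h3 : (3 : R) = 0) {I J K U : R} (hI : I * I = 1) (hJ : J * J = 1)
    (hIJ : I * J = K) (hJI : J * I = K) (h1 : U * I = J * U) (h2 : U * J = K * U) (hU : 1 + U + U ^ 2 = 0) : I = 1 := by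
  have hKI : K * I = J := by rw [← hJI, mul_assoc, hI, mul_one]
  have hIK : I * K = J := by rw [← hIJ, ← mul_assoc, hI, one_mul]
  have hKJ : K * J = I := by rw [← hIJ, mul_assoc, hJ, mul_one]
  have hJK : J * K = I := by rw [← hJI, ← mul_assoc, hJ, one_mul]
  have hKK : K * K = 1 := by
    calc K * K = (I * J) * (J * I) := by rw [hIJ, hJI]
      _ = I * (J * J) * I := by simp only [mul_assoc]
      _ = 1 := by rw [hJ, mul_one, hI]
  have h4 : U * K = I * U := by
    rw [← hIJ, ← mul_assoc, h1, mul_assoc, h2, ← mul_assoc, hJK]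
  -- the idempotent
  have hE : (1 + I) * (1 - J) * (1 + U + U ^ 2) * ((1 + I) * (1 - J)) = (1 + I) * (1 - J) * ((1 + I) * (1 - J)) := by
    have e1 : (1 + I) * (1 - J) * U * ((1 + I) * (1 - J)) = 0 := by
      have a1 : U * (1 + I) = (1 + J) * U := by rw [mul_add, add_mul, mul_one, one_mul, h1]
      have a2 : (1 - J) * (1 + J) = 0 := by
        have : (1 - J) * (1 + J) = 1 - J * J := by noncomm_ring
        rw [this, hJ, sub_self]
      calc (1 + I) * (1 - J) * U * ((1 + I) * (1 - J)) = (1 + I) * (1 - J) * (U * (1 + I)) * (1 - J) := by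
            simp only [mul_assoc]
        _ = (1 + I) * ((1 - J) * (1 + J)) * U * (1 - J) := by rw [a1]; simp only [mul_assoc]
        _ = 0 := by rw [a2, mul_zero, zero_mul, zero_mul]
    have e2 : (1 + I) * (1 - J) * U ^ 2 * ((1 + I) * (1 - J)) = 0 := by
      have a1 : (1 + I) * (1 - J) = (1 - J) * (1 + I) := by
        have b1 : (1 + I) * (1 - J) = 1 + I - J - I * J := by noncomm_ring
        have b2 : (1 - J) * (1 + I) = 1 + I - J - J * I := by noncomm_ring
        rw [b1, b2, hIJ, hJI]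
      have a2 : (1 + I) * U = U * (1 + K) := by rw [mul_add, add_mul, mul_one, one_mul, h4]
      have a3 : U * (1 - J) = (1 - K) * U := by rw [mul_sub, sub_mul, mul_one, one_mul, h2]
      have a4 : (1 + K) * (1 - K) = 0 := by
        rw [add_mul, one_mul, mul_sub, hKK, mul_one]; abel
      calc (1 + I) * (1 - J) * U ^ 2 * ((1 + I) * (1 - J)) =
            (1 - J) * ((1 + I) * U) * (U * (1 - J)) * (1 + I) := by
              rw [a1, pow_two]; nth_rewrite 2 [← a1]; simp only [mul_assoc, a1]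
        _ = (1 - J) * U * ((1 + K) * (1 - K)) * U * (1 + I) := by rw [a2, a3]; simp only [mul_assoc]
        _ = 0 := by rw [a4, mul_zero, zero_mul, zero_mul]
    rw [mul_add, mul_add, mul_one, add_mul, add_mul, e1, e2, add_zero, add_zero]
  have hEE : (1 + I) * (1 - J) * ((1 + I) * (1 - J)) = (1 + I) * (1 - J) := by
    have : (1 + I) * (1 - J) * ((1 + I) * (1 - J)) = 4 * ((1 + I) * (1 - J)) := by
      have a0 : (1 + I) * (1 - J) = 1 + I - J - K := by
        rw [add_mul, one_mul, mul_sub, mul_one, hIJ]; abel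
      rw [a0]
      have a1 : (1 + I - J - K) * (1 + I - J - K) = 1 + I - J - K + (I + I * I - I * J - I * K) -
          (J + J * I - J * J - J * K) - (K + K * I - K * J - K * K) := by noncomm_ring
      rw [a1, hI, hIJ, hIK, hJI, hJ, hJK, hKI, hKJ, hKK]
      have a2 : (4 : R) * (1 + I - J - K) = (1 + I - J - K) + (1 + I - J - K) + (1 + I - J - K) + (1 + I - J - K) := by
        noncomm_ring
      rw [a2]; abel
    rw [this]
    have h5 : (4 : R) = 3 + 1 := by norm_num
    rw [h5, h3, zero_add, one_mul]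
  have hE0 : (1 + I) * (1 - J) = 0 := by
    rw [← hEE, ← hE, hU, mul_zero, zero_mul]
  have hEx : 1 + I - J - K = 0 := by
    rw [← hE0, add_mul, one_mul, mul_sub, mul_one, hIJ]; abel
  -- conjugate by `U`
  have hUinv : ∃ V, U * V = 1 := by
    have h6 : (U - 1) * (U - 1) = 0 := by
      have h7 : (U - 1) * (U - 1) = (1 + U + U ^ 2) - 3 * U := by noncomm_ring
      rw [h7, hU, h3, zero_mul, sub_zero]
    refine ⟨1 - (U - 1), ?_⟩
    have : U * (1 - (U - 1)) = 1 - (U - 1) * (U - 1) := by noncomm_ring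
    rw [this, h6, sub_zero]
  obtain ⟨V, hV⟩ := hUinv
  have hEy : 1 + J - K - I = 0 := by
    have h7 : U * (1 + I - J - K) = (1 + J - K - I) * U := by
      rw [mul_sub, mul_sub, mul_add, sub_mul, sub_mul, add_mul, mul_one, one_mul, h1, h2, h4]
    rw [hEx, mul_zero] at h7
    have h8 : (1 + J - K - I) * U * V = 0 := by rw [← h7, zero_mul]
    rwa [mul_assoc, hV, mul_one] at h8
  have hEz : 1 + K - I - J = 0 := by
    have h7 : U * (1 + J - K - I) = (1 + K - I - J) * U := by
      rw [mul_sub, mul_sub, mul_add, sub_mul, sub_mul, add_mul, mul_one, one_mul, h1, h2, h4]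
    rw [hEy, mul_zero] at h7
    have h8 : (1 + K - I - J) * U * V = 0 := by rw [← h7, zero_mul]
    rwa [mul_assoc, hV, mul_one] at h8
  -- `2 - 2 I = 0`
  have h9 : (2 : R) * (1 - I) = 0 := by
    have : (2 : R) * (1 - I) = (1 + J - K - I) + (1 + K - I - J) := by noncomm_ring
    rw [this, hEy, hEz, add_zero]
  have h10 : (2 : R) * ((2 : R) * (1 - I)) = (3 : R) * (1 - I) + (1 - I) := by noncomm_ring
  rw [h9, mul_zero, h3, zero_mul, zero_add] at h10
  exact (sub_eq_zero.1 h10.symm).symm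

/-- **Quadratic representations are trivial.** -/
theorem triv {F : Type*} [Field F] (h3F : (3 : F) = 0) {R : Type*} [Ring R] (h3 : (3 : R) = 0)
    (σ : SL(2, F) →* R) (hneg : σ (-1) = 1) (hquad : ∀ u : SL(2, F), u ^ 3 = 1 → 1 + σ u + σ u ^ 2 = 0)
    (ht : ∃ t : Fˣ, (t : F) ^ 4 ≠ 1) (g : SL(2, F)) : σ g = 1 := by
  let i : SL(2, F) := ⟨!![0, 1; -1, 0], by rw [Matrix.det_fin_two_of]; ring⟩
  let j : SL(2, F) := ⟨!![-1, -1; -1, 1], by rw [Matrix.det_fin_two_of]; linear_combination -h3F⟩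
  have hi : (i : Matrix (Fin 2) (Fin 2) F) = !![0, 1; -1, 0] := rfl
  have hj : (j : Matrix (Fin 2) (Fin 2) F) = !![-1, -1; -1, 1] := rfl
  have hneg' : ∀ g : SL(2, F), σ (-g) = σ g := by
    intro g
    rw [← neg_one_mul, map_mul, hneg, one_mul]
  have r1 : i * i = -1 := by
    apply Subtype.ext
    rw [Matrix.SpecialLinearGroup.coe_mul, Matrix.SpecialLinearGroup.coe_neg, Matrix.SpecialLinearGroup.coe_one, hi]
    ext a b
    fin_cases a <;> fin_cases b <;> simp
  have r2 : j * j = -1 := by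
    apply Subtype.ext
    rw [Matrix.SpecialLinearGroup.coe_mul, Matrix.SpecialLinearGroup.coe_neg, Matrix.SpecialLinearGroup.coe_one, hj]
    ext a b
    fin_cases a <;> fin_cases b <;> simp <;> linear_combination h3F
  have r3 : i * j = -(j * i) := by
    apply Subtype.ext
    rw [Matrix.SpecialLinearGroup.coe_neg, Matrix.SpecialLinearGroup.coe_mul, Matrix.SpecialLinearGroup.coe_mul, hi, hj]
    ext a b
    fin_cases a <;> fin_cases b <;> simp
  have r4 : xm 1 * i = j * xm 1 := by
    apply Subtype.ext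
    rw [Matrix.SpecialLinearGroup.coe_mul, Matrix.SpecialLinearGroup.coe_mul, hi, hj, coe_xm]
    ext a b
    fin_cases a <;> fin_cases b <;> simp
    linear_combination h3F
  have r5 : xm 1 * j = (j * i) * xm 1 := by
    apply Subtype.ext
    rw [Matrix.SpecialLinearGroup.coe_mul, Matrix.SpecialLinearGroup.coe_mul, Matrix.SpecialLinearGroup.coe_mul, hi, hj,
      coe_xm]
    ext a b
    fin_cases a <;> fin_cases b <;> simp
    · linear_combination -h3F
    · linear_combination h3F
  have hu3 : (xm 1 : SL(2, F)) ^ 3 = 1 := by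
    have : (xm 1 : SL(2, F)) ^ 3 = xm (1 + 1 + 1) := by
      rw [xm_add, xm_add, pow_succ, pow_two]
    rw [this, show (1 + 1 + 1 : F) = 0 by linear_combination h3F, xm_zero]
  have hI : σ i = 1 := by
    refine four h3 (I := σ i) (J := σ j) (K := σ (j * i)) (U := σ (xm 1)) ?_ ?_ ?_ ?_ ?_ ?_ (hquad _ hu3)
    · rw [← map_mul, r1, hneg]
    · rw [← map_mul, r2, hneg]
    · rw [← map_mul, r3, hneg']
    · rw [← map_mul]
    · rw [← map_mul, r4, map_mul]
    · rw [← map_mul, r5, map_mul]
  have hnm : σ nm = 1 := by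
    have : (nm : SL(2, F)) = -i := by
      apply Subtype.ext
      rw [Matrix.SpecialLinearGroup.coe_neg, hi, coe_nm]
      ext a b
      fin_cases a <;> fin_cases b <;> simp
    rw [this, hneg', hI]
  have hinv : ∀ g : SL(2, F), σ g * σ g⁻¹ = 1 := fun g => by rw [← map_mul, mul_inv_cancel, map_one]
  have hinv' : ∀ g : SL(2, F), σ g⁻¹ * σ g = 1 := fun g => by rw [← map_mul, inv_mul_cancel, map_one]
  -- squares in the torus
  have hsq : ∀ t : Fˣ, σ (hm (t ^ 2)) = 1 := by
    intro t
    have h1 := congrArg σ (hm_nm t)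
    rw [map_mul, map_mul, hnm, mul_one, one_mul] at h1
    rw [pow_two, hm_mul, map_mul]
    nth_rewrite 2 [h1]
    rw [← map_mul, ← hm_mul, mul_inv_cancel, hm_one, map_one]
  obtain ⟨t, ht⟩ := ht
  have hx : ∀ c : F, σ (xm c) = 1 := by
    intro c
    have hne : ((t ^ 2 : Fˣ) : F) ^ 2 - 1 ≠ 0 := by
      rw [Units.val_pow_eq_pow_val, ← pow_mul]
      exact sub_ne_zero.2 ht
    have h1 : ∀ d : F, σ (xm ((((t ^ 2 : Fˣ) : F) ^ 2 - 1) * d)) = 1 := by
      intro d
      have h2 := congrArg σ (hm_xm (t ^ 2) d)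
      rw [map_mul, map_mul, hsq, one_mul, mul_one] at h2
      have h3 : ((t ^ 2 : Fˣ) : F) ^ 2 * d = (((t ^ 2 : Fˣ) : F) ^ 2 - 1) * d + d := by ring
      rw [h3, xm_add, map_mul] at h2
      have h4 := congrArg (fun r => r * σ (xm d)⁻¹) h2
      rw [mul_assoc, hinv, mul_one] at h4
      exact h4.symm
    have h5 := h1 ((((t ^ 2 : Fˣ) : F) ^ 2 - 1)⁻¹ * c)
    rwa [mul_inv_cancel_left₀ hne] at h5
  have hy : ∀ c : F, σ (ym c) = 1 := by
    intro c
    have h1 : nm * xm (-c) = ym c * nm := by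
      apply Subtype.ext
      rw [Matrix.SpecialLinearGroup.coe_mul, Matrix.SpecialLinearGroup.coe_mul, coe_nm, coe_xm, coe_ym]
      ext a b
      fin_cases a <;> fin_cases b <;> simp
    have h2 := congrArg σ h1
    rw [map_mul, map_mul, hnm, hx, mul_one, mul_one] at h2
    exact h2.symm
  have hh : ∀ s : Fˣ, σ (hm s) = 1 := by
    intro s
    have h1 := congrArg σ (xm_ym 1 ((s : F) - 1) s (by ring))
    rw [map_mul, map_mul, map_mul, hx, hy, hy, hx, one_mul, one_mul, mul_one] at h1
    exact h1.symm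
  by_cases hg : g.1 1 0 = 0
  · obtain ⟨s, c, rfl⟩ := borel g hg
    rw [map_mul, hh, hx, one_mul]
  · rw [big_cell g (Units.mk0 _ hg) rfl, map_mul, map_mul, map_mul, hx, hnm, hh, hx, one_mul, one_mul, one_mul]

end Cfsg.Agent.H379.P4.TrivThree
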