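import Mathlib
import Cfsg.Agent.H379.P4.Mixed
import Cfsg.Agent.H379.P4.TrivThree
import Cfsg.Agent.H379.P4.OwnFive
import Cfsg.Agent.S0270

/-!
# Groups isospectral to `PSp₄(q)`, characteristic `3`: the kernel is trivial
-/

set_option autoImplicit false
set_option linter.unusedSimpArgs false

namespace Cfsg.Agent.H379.P4.OwnThree

open Finset Matrix Cfsg.Agent.H374.Quad Cfsg.Agent.H374.SpFour SpEmb SLTwo Mixed OwnFive

open scoped MatrixGroups

universe u v

theorem om_three {q m : ℕ} {n : ℕ} (hn : n ≠ 0) (hq : q = 3 ^ n) (h : Om 3 q (m * 3)) :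
    m ∣ q - 1 ∨ m ∣ q + 1 ∨ m ∣ 3 := by
  have hpq : 3 ∣ q := by rw [hq]; exact dvd_pow_self 3 hn
  have hq0 : 0 < q := by rw [hq]; positivity
  have hq1 : 1 ≤ q ^ 2 := Nat.one_le_pow _ _ hq0
  have hpq2 : 3 ∣ q ^ 2 := hpq.trans (dvd_pow_self q two_ne_zero)
  have hodd : Odd q := by rw [hq]; exact Odd.pow (by decide)
  have hpd : 3 ∣ m * 3 := Dvd.intro_left m rfl
  rcases h with h | h | h | h | ⟨-, h⟩ | ⟨h, -⟩
  · left
    rw [mul_comm 3] at h
    exact Nat.dvd_of_mul_dvd_mul_right (by norm_num) h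
  · right; left
    rw [mul_comm 3] at h
    exact Nat.dvd_of_mul_dvd_mul_right (by norm_num) h
  · exfalso
    have h1 : 3 ∣ q ^ 2 - 1 := (hpd.trans h).trans (Nat.div_dvd_of_dvd (by
      refine (Nat.gcd_dvd_right 2 (q - 1)).trans ?_
      have := Nat.sub_dvd_pow_sub_pow q 1 2
      rwa [one_pow] at this))
    omega
  · exfalso
    have h0 : Nat.gcd 2 (q - 1) ∣ q ^ 2 + 1 := by
      refine (Nat.gcd_dvd_left 2 (q - 1)).trans ?_
      rw [← even_iff_two_dvd]
      exact (hodd.pow).add_one
    have h1 : 3 ∣ q ^ 2 + 1 := (hpd.trans h).trans (Nat.div_dvd_of_dvd h0)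
    omega
  · right; right
    have : (9 : ℕ) = 3 * 3 := by norm_num
    rw [this] at h
    exact Nat.dvd_of_mul_dvd_mul_right (by norm_num) h
  · omega

/-- **The kernel is trivial.** -/
theorem three {F : Type v} [Field F] [Fintype F] [hc : CharP F 3] (hq3 : 3 < Fintype.card F)
    {G : Type u} [Group G] [Finite G] (hom : ∀ g : G, Om 3 (Fintype.card F) (orderOf g)) (K : Subgroup G) [K.Normal]
    (hKp : IsPGroup 3 K) (f : Cfsg.PSp 2 F →* G ⧸ K) (hf : Function.Injective f) : K = ⊥ := by
  classical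
  by_contra hKne
  have hp3 : Fact (Nat.Prime 3) := ⟨Nat.prime_three⟩
  obtain ⟨n, -, hn⟩ := FiniteField.card F 3
  have hn0 : (n : ℕ) ≠ 0 := n.pos.ne'
  obtain ⟨W, _, _, ρ, hWn, hWf, hnorm⟩ := Ext.exists_rho F K hKne hKp f hf (P := Om 3 (Fintype.card F)) hom
    (fun {m k} h h' => h.of_dvd h')
  set q := Fintype.card F with hq
  have hq9 : 9 ≤ q := by
    have h2 : 2 ≤ (n : ℕ) := by
      by_contra h
      have h1 : (n : ℕ) = 1 := by omega
      rw [h1] at hn
      omega
    rw [hn]
    calc 9 = 3 ^ 2 := by norm_num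
      _ ≤ 3 ^ (n : ℕ) := Nat.pow_le_pow_right (by norm_num) h2
  have h3q : 3 ∣ q := by rw [hn]; exact dvd_pow_self 3 hn0
  have h3F : (3 : F) = 0 := by
    have := CharP.cast_eq_zero F 3
    exact_mod_cast this
  have h2F : (2 : F) ≠ 0 := by
    intro h
    have h1 : (1 : F) = 0 := by linear_combination h3F - h
    exact one_ne_zero h1
  have hcW : CharP (Module.End F W) 3 := charP_of_injective_algebraMap (algebraMap F (Module.End F W)).injective 3
  have h3W : (3 : Module.End F W) = 0 := by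
    have := CharP.cast_eq_zero (Module.End F W) 3
    exact_mod_cast this
  have hsm : ∀ v : W, (3 : F) • v = 0 := fun v => by rw [h3F, zero_smul]
  let π : symplecticGroup (Fin 2) F →* Cfsg.PSp 2 F := QuotientGroup.mk' (Subgroup.center (symplecticGroup (Fin 2) F))
  have hπ1 : ∀ g : symplecticGroup (Fin 2) F, π g = 1 → ∃ c : F, c ^ 2 = 1 ∧ g.1 = c • 1 := by
    intro g hg
    obtain ⟨c, hc1, hc2⟩ := cl_one (y := g) (k := 1) (by rw [pow_one]; exact hg)
    rw [pow_one] at hc2
    exact ⟨c, hc1, hc2⟩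
  have hcomm : ∀ g h : SL(2, F), Commute (em (-1, 1)) (em (g, h)) := by
    intro g h
    rw [Commute, SemiconjBy, ← map_mul, ← map_mul, Prod.mk_mul_mk, Prod.mk_mul_mk, neg_one_mul, mul_neg_one, one_mul,
      mul_one]
  have hzz : π (em (-1, 1)) ^ 2 = 1 := by
    rw [← map_pow, ← map_pow, Prod.pow_mk, neg_one_sq, one_pow, Prod.mk_one_one, map_one, map_one]
  have hz1 : π (em (-1, 1)) ≠ 1 := by
    intro h
    obtain ⟨c, -, hc⟩ := hπ1 _ h
    obtain ⟨h1, h2⟩ := em_scalar hc
    have e1 : ((-1 : SL(2, F)).1 : Matrix (Fin 2) (Fin 2) F) = -1 := by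
      rw [Matrix.SpecialLinearGroup.coe_neg]; rfl
    rw [e1] at h1
    have h3 := congrFun (congrFun h1 0) 0
    have h4 := congrFun (congrFun h2 0) 0
    have e2 : ((1 : SL(2, F)).1 : Matrix (Fin 2) (Fin 2) F) = 1 := rfl
    rw [e2] at h4
    simp at h3 h4
    apply h2F
    linear_combination h4 - h3
  have hzo : orderOf (π (em (-1, 1))) = 2 := orderOf_eq_prime hzz hz1
  set Z := ρ (π (em (-1, 1))) with hZ
  have hZ2 : Z * Z = 1 := by rw [hZ, ← map_mul, ← pow_two, hzz, map_one]
  -- the norms of the elements of order 6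
  have hquad : ∀ g h : SL(2, F), g ^ 3 = 1 → h ^ 3 = 1 → ∀ v : W, Z v = v →
      v + ρ (π (em (g, h))) v + (ρ (π (em (g, h))) ^ 2) v = 0 := by
    intro g h hg hh v hv
    set U := ρ (π (em (g, h))) with hU
    have hu3 : π (em (g, h)) ^ 3 = 1 := by
      rw [← map_pow, ← map_pow, Prod.pow_mk, hg, hh, Prod.mk_one_one, map_one, map_one]
    by_cases hu1 : π (em (g, h)) = 1
    · rw [hU, hu1, map_one, one_pow]
      have := hsm v
      rw [show (3 : F) = 1 + 1 + 1 by norm_num, add_smul, add_smul, one_smul] at this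
      exact this
    have huo : orderOf (π (em (g, h))) = 3 := orderOf_eq_prime hu3 hu1
    have hc0 : Commute (π (em (-1, 1))) (π (em (g, h))) := (hcomm g h).map π
    have ho : orderOf (π (em (-1, 1)) * π (em (g, h))) = 6 := by
      rw [hc0.orderOf_mul_eq_mul_orderOf_of_coprime (by rw [hzo, huo]; norm_num), hzo, huo]
    have h6 := hnorm _ (by
      rw [ho]
      intro h7
      rcases om_three hn0 hn h7 with h8 | h8 | h8 <;> omega)
    rw [ho, map_mul, ← hZ, ← hU] at h6
    have hZU : Commute Z U := hc0.map ρ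
    have hpow : ∀ i : ℕ, ((Z * U) ^ i) v = (U ^ i) v := by
      intro i
      rw [hZU.mul_pow, (hZU.pow_pow i i).eq, Module.End.mul_apply]
      congr 1
      induction i with
      | zero => rfl
      | succ i ih => rw [pow_succ, Module.End.mul_apply, hv, ih]
    have hU3 : U ^ 3 = 1 := by rw [hU, ← map_pow, hu3, map_one]
    have h7 := congrArg (fun A : Module.End F W => A v) h6
    simp only [LinearMap.sum_apply, LinearMap.zero_apply, hpow] at h7
    simp only [Finset.sum_range_succ, Finset.sum_range_zero, zero_add, pow_zero, pow_one, Module.End.one_apply] at h7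
    have h8 : (U ^ 4) v = U v := by rw [pow_succ, hU3, one_mul]
    have h9 : (U ^ 5) v = (U ^ 2) v := by rw [show 5 = 3 + 2 from rfl, pow_add, hU3, one_mul]
    rw [hU3, h8, h9, Module.End.one_apply] at h7
    have h10 : (2 : F) • (v + U v + (U ^ 2) v) = 0 := by
      rw [two_smul, ← h7]; abel
    exact (smul_eq_zero.1 h10).resolve_left h2F
  -- the fixed space
  let V : Submodule F W := LinearMap.eqLocus Z 1
  have hV : ∀ v : W, v ∈ V ↔ Z v = v := fun v => by
    rw [LinearMap.mem_eqLocus]; rfl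
  have hinv : ∀ g h : SL(2, F), ∀ v ∈ V, ρ (π (em (g, h))) v ∈ V := by
    intro g h v hv
    rw [hV] at hv ⊢
    have hc0 : Commute Z (ρ (π (em (g, h)))) := ((hcomm g h).map π).map ρ
    rw [← Module.End.mul_apply, hc0.eq, Module.End.mul_apply, hv]
  let σ : (SL(2, F) × SL(2, F)) →* Module.End F V :=
    { toFun := fun g => (ρ (π (em g))).restrict (hinv g.1 g.2)
      map_one' := by
        ext x
        rw [LinearMap.coe_restrict_apply, map_one, map_one, map_one]; rfl
      map_mul' := fun a b => by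
        ext x
        rw [LinearMap.coe_restrict_apply, map_mul, map_mul, map_mul]; rfl }
  have hσ : ∀ (g : SL(2, F) × SL(2, F)) (v : V), ((σ g v : V) : W) = ρ (π (em g)) v := fun g v => rfl
  have h3V : (3 : Module.End F V) = 0 := by
    ext v
    have : ((3 : Module.End F V) v : V) = (3 : F) • v := by
      rw [show (3 : Module.End F V) = 1 + 1 + 1 by norm_num, show (3 : F) = 1 + 1 + 1 by norm_num, add_smul, add_smul,
        one_smul]
      rfl
    rw [this, h3F, zero_smul]; rfl
  have hex4 : ∃ t : Fˣ, (t : F) ^ 4 ≠ 1 := by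
    obtain ⟨g, hg⟩ := IsCyclic.exists_ofOrder_eq_natCard (α := Fˣ)
    refine ⟨g, fun h => ?_⟩
    have h1 : g ^ 4 = 1 := Units.ext (by rw [Units.val_pow_eq_pow_val, h]; rfl)
    have h2 := orderOf_dvd_of_pow_eq_one h1
    rw [hg, Nat.card_eq_fintype_card, Fintype.card_units] at h2
    have := Nat.le_of_dvd (by norm_num) h2
    omega
  have hnegz : π (em (-1, -1)) = 1 := neg_one_mem
  have hz' : π (em (1, -1)) = π (em (-1, 1)) := by
    have h1 : SpEmb.em ((1 : SL(2, F)), (-1 : SL(2, F))) =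
        SpEmb.em ((-1 : SL(2, F)), (-1 : SL(2, F))) * SpEmb.em ((-1 : SL(2, F)), (1 : SL(2, F))) := by
      rw [← map_mul, Prod.mk_mul_mk, neg_mul_neg, one_mul, mul_one]
    rw [h1, map_mul, hnegz, one_mul]
  have t1 : ∀ g : SL(2, F), σ (g, 1) = 1 := by
    intro g
    refine TrivThree.triv h3F h3V (σ.comp (MonoidHom.inl _ _)) ?_ ?_ hex4 g
    · ext v
      change ((σ (-1, 1) v : V) : W) = v
      rw [hσ]
      exact (hV _).1 v.2
    · intro u hu
      ext v
      have := hquad u 1 hu (one_pow 3) v ((hV _).1 v.2)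
      exact this
  have t2 : ∀ g : SL(2, F), σ (1, g) = 1 := by
    intro g
    refine TrivThree.triv h3F h3V (σ.comp (MonoidHom.inr _ _)) ?_ ?_ hex4 g
    · ext v
      change ((σ (1, -1) v : V) : W) = v
      rw [hσ, hz']
      exact (hV _).1 v.2
    · intro u hu
      ext v
      have := hquad 1 u (one_pow 3) hu v ((hV _).1 v.2)
      exact this
  -- the fixed space is not trivial
  have hVne : ∃ v : W, v ≠ 0 ∧ Z v = v := by
    by_contra hcon
    push Not at hcon
    have hZm : Z = -1 := by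
      apply LinearMap.ext
      intro v
      have h1 : v + Z v = 0 := by
        by_contra hne
        apply hcon _ hne
        rw [map_add, ← Module.End.mul_apply, hZ2, Module.End.one_apply, add_comm]
      rw [LinearMap.neg_apply, Module.End.one_apply]
      exact (neg_eq_of_add_eq_zero_right h1).symm
    have hsimple : IsSimpleGroup (Cfsg.PSp 2 F) := S0270.result 2 le_rfl (fun _ => by omega)
    let ρ' : Cfsg.PSp 2 F →* (Module.End F W)ˣ := ρ.toHomUnits
    have hρ' : ∀ g, ((ρ' g : (Module.End F W)ˣ) : Module.End F W) = ρ g := fun g => rfl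
    have hker : ∀ g, g ∈ ρ'.ker ↔ ρ g = 1 := by
      intro g
      rw [MonoidHom.mem_ker, ← hρ', Units.val_eq_one]
    have hrel : SpEmb.em ((-1 : SL(2, F)), (1 : SL(2, F))) * e3 (xm (1 : F)) = e3 (xm (-1)) * SpEmb.em ((-1 : SL(2, F)), (1 : SL(2, F))) := by
      have h1 := hm_e3_xm (F := F) (-1) 1 1
      have h2 : hm (-1 : Fˣ) = (-1 : SL(2, F)) := by
        apply Subtype.ext
        rw [Matrix.SpecialLinearGroup.coe_neg, coe_hm, Matrix.SpecialLinearGroup.coe_one]
        ext i j
        fin_cases i <;> fin_cases j <;> simp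
      rw [hm_one, h2] at h1
      simpa using h1
    have hmem : π (e3 (xm 2)) ∈ ρ'.ker := by
      rw [hker]
      have h1 := congrArg (fun g => ρ (π g)) hrel
      simp only [map_mul] at h1
      rw [← hZ, hZm, neg_one_mul, mul_neg_one, neg_inj] at h1
      have h2 : xm (2 : F) = xm 1 * xm 1 := by rw [← xm_add]; norm_num
      have h3 : xm (-1 : F) * xm 1 = 1 := by rw [← xm_add, neg_add_cancel, xm_zero]
      have h4 : ρ (π (e3 (xm 1))) * ρ (π (e3 (xm 1))) = 1 := by
        nth_rewrite 1 [h1]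
        rw [← map_mul, ← map_mul, ← map_mul, h3, map_one, map_one, map_one]
      rw [h2, map_mul, map_mul, map_mul, h4]
    rcases hsimple.eq_bot_or_eq_top_of_normal ρ'.ker inferInstance with hb | ht
    · rw [hb, Subgroup.mem_bot] at hmem
      obtain ⟨c, -, hc2⟩ := hπ1 _ hmem
      rw [e3_val, ← fromBlocks_one, fromBlocks_smul, fromBlocks_inj] at hc2
      have h1 := congrFun (congrFun hc2.2.1 0) 1
      simp [pm, xm] at h1
      exact h2F h1
    · have h1 : π (em (-1, 1)) ∈ ρ'.ker := by rw [ht]; trivial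
      rw [hker, ← hZ, hZm] at h1
      obtain ⟨w, hw⟩ := exists_ne (0 : W)
      have h2 := congrArg (fun A : Module.End F W => A w) h1
      simp only [LinearMap.neg_apply, Module.End.one_apply] at h2
      have h3 : (2 : F) • w = 0 := by
        rw [two_smul]
        nth_rewrite 1 [← h2]
        exact neg_add_cancel w
      exact hw ((smul_eq_zero.1 h3).resolve_left h2F)
  obtain ⟨w, hw0, hw⟩ := hVne
  obtain ⟨z, hz⟩ := exists_mix (F := F) h2F (by omega)
  have hp2 : ringChar F ≠ 2 := by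
    intro h
    apply h2F
    have := ringChar.Nat.cast_ringChar (R := F)
    rw [h] at this
    exact_mod_cast this
  obtain ⟨a, b, ha, -, -⟩ := SpFive.exists_quaternion (F := F) (FiniteField.odd_card_of_char_ne_two hp2)
  obtain ⟨hy1, hy2, hy3⟩ := hz a ha
  set y := em (a, z) with hy
  have hyw : ρ (π y) w = w := by
    have h1 : (a, z) = (a, 1) * ((1 : SL(2, F)), z) := by rw [Prod.mk_mul_mk, mul_one, one_mul]
    have h2 := hσ (a, z) ⟨w, (hV w).2 hw⟩
    rw [h1, map_mul, t1, t2, ← h1] at h2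
    exact h2.symm
  have hord : orderOf (π y) ∣ q ^ 2 - 1 := orderOf_dvd_of_pow_eq_one (by rw [← map_pow, hy1, map_one])
  have h3 := hnorm (π y) (by
    intro h4
    rcases om_three hn0 hn h4 with h5 | h5 | h5
    · obtain ⟨c, hc1, hc2⟩ := cl_one (orderOf_dvd_iff_pow_eq_one.1 h5)
      exact hy2 c hc1 hc2
    · obtain ⟨c, hc1, hc2⟩ := cl_one (orderOf_dvd_iff_pow_eq_one.1 h5)
      exact hy3 c hc1 hc2
    · have h6 : orderOf (π y) ∣ q - 1 := by
        rcases (Nat.dvd_prime Nat.prime_three).1 h5 with h7 | h7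
        · rw [h7]; exact one_dvd _
        · exfalso
          rw [h7] at hord
          have h8 : 3 ∣ q ^ 2 := h3q.trans (dvd_pow_self q two_ne_zero)
          have h9 : 1 ≤ q ^ 2 := Nat.one_le_pow _ _ (by omega)
          omega
      obtain ⟨c, hc1, hc2⟩ := cl_one (orderOf_dvd_iff_pow_eq_one.1 h6)
      exact hy2 c hc1 hc2)
  have h4 : ∀ j : ℕ, (ρ (π y) ^ j) w = w := by
    intro j
    induction j with
    | zero => rfl
    | succ j ih => rw [pow_succ, Module.End.mul_apply, hyw, ih]
  have h5 := congrArg (fun A : Module.End F W => A w) h3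
  simp only [LinearMap.sum_apply, LinearMap.zero_apply] at h5
  rw [Finset.sum_congr rfl (fun j _ => h4 j), Finset.sum_const, card_range, ← Nat.cast_smul_eq_nsmul F] at h5
  rcases smul_eq_zero.1 h5 with h6 | h6
  · rw [CharP.cast_eq_zero_iff F 3] at h6
    have h7 : 3 ∣ q ^ 2 - 1 := h6.trans hord
    have h8 : 3 ∣ q ^ 2 := h3q.trans (dvd_pow_self q two_ne_zero)
    have h9 : 1 ≤ q ^ 2 := Nat.one_le_pow _ _ (by omega)
    omega
  · exact hw0 h6

end Cfsg.Agent.H379.P4.OwnThree
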