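import Mathlib
import Cfsg.Agent.H379.P4.TwoElt
import Cfsg.Agent.H379.P4.OwnFive

/-!
# Groups isospectral to `PSp₄(q)`, characteristic `2`: the kernel is trivial
-/

set_option autoImplicit false
set_option linter.unusedSimpArgs false

namespace Cfsg.Agent.H379.P4.OwnTwo

open Finset Matrix Cfsg.Agent.H374.Quad Cfsg.Agent.H374.SpFour OwnFive

universe u v

theorem frob_ne {L : Type*} [Field L] [CharP L 2] {η : L} {q : ℕ} (h1 : η ≠ 1) (h2 : η ^ (q ^ 2 + 1) = 1) {c : ℕ}
    (hc0 : 0 < c) (hc : c < 4) : η ^ q ^ c ≠ η := by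
  have hsq : η ^ 2 = 1 → False := by
    intro h
    apply h1
    have h3 : (η - 1) ^ 2 = 0 := by
      have h4 : (2 : L) = 0 := CharTwo.two_eq_zero
      linear_combination h + (1 - η) * h4
    exact sub_eq_zero.1 (pow_eq_zero_iff (by norm_num) |>.1 h3)
  have hq2 : η ^ q ^ 2 = η → False := by
    intro h
    apply hsq
    rw [pow_succ, h] at h2
    rw [pow_two]; exact h2
  intro h
  interval_cases c
  · apply hq2
    rw [pow_one] at h
    rw [pow_two, pow_mul, h, h]
  · exact hq2 h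
  · apply hq2
    have h0 : η ≠ 0 := by
      rintro rfl
      rw [zero_pow (by omega)] at h2
      exact zero_ne_one h2
    have h3 : η ^ (q + 1) = 1 := by
      have h4 : (η ^ (q ^ 2 + 1)) ^ q = 1 := by rw [h2, one_pow]
      rw [← pow_mul, add_mul, one_mul, ← pow_succ, pow_add, h] at h4
      rw [pow_succ, mul_comm]; exact h4
    have h4 : η ^ q * η = 1 := by rw [← pow_succ]; exact h3
    -- `η ^ q = η⁻¹`, hence `η ^ q ^ 2 = η`
    have h5 : η ^ q = η⁻¹ := eq_inv_of_mul_eq_one_left h4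
    rw [pow_two, pow_mul, h5, inv_pow, h5, inv_inv]

/-- **The kernel is trivial.** -/
theorem two {F : Type v} [Field F] [Fintype F] [hc : CharP F 2] (hq3 : 3 < Fintype.card F)
    {G : Type u} [Group G] [Finite G] (hom : ∀ g : G, Om 2 (Fintype.card F) (orderOf g)) (K : Subgroup G) [K.Normal]
    (hKp : IsPGroup 2 K) (f : Cfsg.PSp 2 F →* G ⧸ K) (hf : Function.Injective f) : K = ⊥ := by
  classical
  by_contra hKne
  have hp2 : Fact (Nat.Prime 2) := ⟨Nat.prime_two⟩
  obtain ⟨n, -, hn⟩ := FiniteField.card F 2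
  have hn0 : (n : ℕ) ≠ 0 := n.pos.ne'
  let L := AlgebraicClosure F
  have hL2 : CharP L 2 := charP_of_injective_algebraMap (algebraMap F L).injective 2
  obtain ⟨W, _, _, ρ, hWn, hWf, hnorm⟩ := Ext.exists_rho L K hKne hKp f hf (P := Om 2 (Fintype.card F)) hom
    (fun {m k} h h' => h.of_dvd h')
  obtain ⟨x, y, hx, hy4, hy2, hyx⟩ := TwoElt.exists_frob (F := F)
  rw [Nat.card_eq_fintype_card] at hx hyx
  set q := Fintype.card F with hq
  have hqe : Even q := by
    rw [hn]; exact (Nat.even_pow.2 ⟨even_two, hn0⟩)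
  have hqL : ((q : ℕ) : L) = 0 := by
    rw [CharP.cast_eq_zero_iff L 2]
    exact hqe.two_dvd
  have hodd1 : Odd (q ^ 2 - 1) := by
    have h1 : 1 ≤ q ^ 2 := Nat.one_le_pow _ _ (by omega)
    exact Nat.Even.sub_odd h1 (Nat.even_pow.2 ⟨hqe, two_ne_zero⟩) odd_one
  have hodd2 : Odd (q ^ 2 + 1) := (Nat.even_pow.2 ⟨hqe, two_ne_zero⟩).add_one
  let π : symplecticGroup (Fin 2) F →* Cfsg.PSp 2 F := QuotientGroup.mk' (Subgroup.center (symplecticGroup (Fin 2) F))
  have hπ1 : ∀ g : symplecticGroup (Fin 2) F, π g = 1 → g = 1 := by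
    intro g hg
    obtain ⟨c, hc1, hc2⟩ := cl_one (y := g) (k := 1) (by rw [pow_one]; exact hg)
    rw [pow_one] at hc2
    have h3 : (c - 1) ^ 2 = 0 := by
      have h4 : (2 : F) = 0 := CharTwo.two_eq_zero
      linear_combination hc1 + (1 - c) * h4
    have h4 : c = 1 := sub_eq_zero.1 (pow_eq_zero_iff (by norm_num) |>.1 h3)
    apply Subtype.ext
    rw [hc2, h4, one_smul]; rfl
  have hinj : Function.Injective π := (injective_iff_map_eq_one π).2 hπ1
  have hxo : orderOf (π x) = q ^ 2 + 1 := by rw [orderOf_injective π hinj, hx]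
  have hyo : orderOf (π y) = 4 := by
    rw [orderOf_injective π hinj]
    have h1 : orderOf y = 2 ^ (1 + 1) := orderOf_eq_prime_pow (by rw [pow_one]; exact hy2) hy4
    rw [h1]; norm_num
  -- divisors
  have hdv1 : ∀ {m : ℕ}, 2 ∣ m → Om 2 q m → m ∣ 2 * (q - 1) ∨ m ∣ 2 * (q + 1) ∨ m ∣ 4 := by
    rintro m hm (h | h | h | h | ⟨h, -⟩ | ⟨-, h⟩)
    · exact Or.inl h
    · exact Or.inr (Or.inl h)
    · exfalso
      have h1 : 2 ∣ q ^ 2 - 1 := (hm.trans h).trans (Nat.div_dvd_of_dvd (by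
        refine (Nat.gcd_dvd_right 2 (q - 1)).trans ?_
        have := Nat.sub_dvd_pow_sub_pow q 1 2
        rwa [one_pow] at this))
      exact (Nat.not_even_iff_odd.2 hodd1) (even_iff_two_dvd.2 h1)
    · exfalso
      have hg : Nat.gcd 2 (q - 1) = 1 := by
        rw [← Nat.coprime_iff_gcd_eq_one, Nat.coprime_two_left]
        exact Nat.Even.sub_odd (by omega) hqe odd_one
      rw [hg, Nat.div_one] at h
      exact (Nat.not_even_iff_odd.2 hodd2) (even_iff_two_dvd.2 (hm.trans h))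
    · omega
    · exact Or.inr (Or.inr h)
  have hodd3 : Odd (q - 1) := Nat.Even.sub_odd (by omega) hqe odd_one
  have hodd4 : Odd (q + 1) := hqe.add_one
  have hY := hnorm (π y) (by
    rw [hyo]
    intro h
    rcases hdv1 (by norm_num) h with h1 | h1 | h1
    · have h2 : 4 ∣ q - 1 := Nat.dvd_of_mul_dvd_mul_left (by norm_num : 0 < 2) h1
      rw [Nat.odd_iff] at hodd3
      omega
    · have h2 : 4 ∣ q + 1 := Nat.dvd_of_mul_dvd_mul_left (by norm_num : 0 < 2) h1
      rw [Nat.odd_iff] at hodd4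
      omega
    · omega)
  have hX := hnorm (π x) (by
    rw [hxo]
    intro h
    have hqq : q + 1 < q ^ 2 + 1 := by nlinarith
    rcases hdv1 (Dvd.intro_left _ rfl) h with h1 | h1 | h1
    · rw [mul_comm 2] at h1
      have h2 := Nat.le_of_dvd (by omega) (Nat.dvd_of_mul_dvd_mul_right (by norm_num) h1)
      omega
    · rw [mul_comm 2] at h1
      have h2 := Nat.le_of_dvd (by omega) (Nat.dvd_of_mul_dvd_mul_right (by norm_num) h1)
      omega
    · have h2 := Nat.le_of_dvd (by omega) h1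
      omega)
  rw [hyo] at hY
  rw [hxo] at hX
  set X := ρ (π x) with hXd
  set Y := ρ (π y) with hYd
  have hXp : X ^ (q ^ 2 + 1) = 1 := by rw [hXd, ← map_pow, ← hxo, pow_orderOf_eq_one, map_one]
  have hYp : Y ^ 4 = 1 := by rw [hYd, ← map_pow, ← map_pow, hy4, map_one, map_one]
  have hrel : Y * X = X ^ q * Y := by
    rw [hXd, hYd, ← map_pow, ← map_mul, ← map_pow, ← map_mul, ← map_mul, ← map_mul, hyx]
  -- an eigenvector
  obtain ⟨ξ, hξ⟩ := Module.End.exists_eigenvalue X
  obtain ⟨w, hw⟩ := hξ.exists_hasEigenvector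
  have hw0 : w ≠ 0 := hw.2
  have hXw : X w = ξ • w := hw.apply_eq_smul
  have hpw : ∀ (A : Module.End L W) (c : L) (v : W), A v = c • v → ∀ k : ℕ, (A ^ k) v = c ^ k • v := by
    intro A c v h k
    induction k with
    | zero => rw [pow_zero, pow_zero, one_smul]; rfl
    | succ k ih => rw [pow_succ, Module.End.mul_apply, h, map_smul, ih, smul_smul, pow_succ, mul_comm]
  have hξp : ξ ^ (q ^ 2 + 1) = 1 := by
    have h1 := hpw X ξ w hXw (q ^ 2 + 1)
    rw [hXp, Module.End.one_apply] at h1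
    have h2 : (1 - ξ ^ (q ^ 2 + 1)) • w = 0 := by rw [sub_smul, one_smul, ← h1, sub_self]
    exact (sub_eq_zero.1 ((smul_eq_zero.1 h2).resolve_right hw0)).symm
  have hξ1 : ξ ≠ 1 := by
    rintro rfl
    have h1 := congrArg (fun A : Module.End L W => A w) hX
    simp only [LinearMap.sum_apply, LinearMap.zero_apply] at h1
    rw [Finset.sum_congr rfl (fun j _ => by
      rw [hpw X 1 w hXw j, one_pow, one_smul]), Finset.sum_const, card_range, ← Nat.cast_smul_eq_nsmul L,
      Nat.cast_add, Nat.cast_pow, hqL, zero_pow two_ne_zero, zero_add, Nat.cast_one, one_smul] at h1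
    exact hw0 h1
  have hrelm : ∀ m : ℕ, Y * X ^ m = X ^ (q * m) * Y := by
    intro m
    induction m with
    | zero => rw [mul_zero, pow_zero, one_mul, mul_one]
    | succ m ih => rw [pow_succ, ← mul_assoc, ih, mul_assoc, hrel, ← mul_assoc, ← pow_add, Nat.mul_succ]
  have hrelk : ∀ k : ℕ, Y ^ k * X = X ^ (q ^ k) * Y ^ k := by
    intro k
    induction k with
    | zero => rw [pow_zero, pow_zero, pow_one, one_mul, mul_one]
    | succ k ih => rw [pow_succ', mul_assoc, ih, ← mul_assoc, hrelm, ← pow_succ', mul_assoc]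
  have hX4 : X ^ (q ^ 4) = X := by
    have h1 : q ^ 4 = (q ^ 2 + 1) * (q ^ 2 - 1) + 1 := by
      obtain ⟨k, hk⟩ : ∃ k, q ^ 2 = k + 1 := ⟨q ^ 2 - 1, by
        have := Nat.one_le_pow 2 q (by omega)
        omega⟩
      rw [show q ^ 4 = q ^ 2 * q ^ 2 by ring, hk, Nat.add_sub_cancel]
      ring
    rw [h1, pow_succ, pow_mul, hXp, one_pow, one_mul]
  have heig : ∀ k : ℕ, k ≤ 4 → X ((Y ^ k) w) = ξ ^ q ^ (4 - k) • (Y ^ k) w := by
    intro k hk
    have h1 : (X ^ q ^ k) ((Y ^ k) w) = ξ • (Y ^ k) w := by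
      rw [← Module.End.mul_apply, ← hrelk, Module.End.mul_apply, hXw, map_smul]
    have h2 := hpw (X ^ q ^ k) ξ _ h1 (q ^ (4 - k))
    rw [← pow_mul, ← pow_add, Nat.add_sub_cancel' hk, hX4] at h2
    exact h2
  have hne : ∀ k : ℕ, k ≤ 4 → (Y ^ k) w ≠ 0 := by
    intro k hk h
    apply hw0
    have h1 : (Y ^ (4 - k)) ((Y ^ k) w) = w := by
      rw [← Module.End.mul_apply, ← pow_add, Nat.sub_add_cancel hk, hYp]; rfl
    rw [← h1, h, map_zero]
  have hq4 : ∀ {η : L}, η ^ (q ^ 2 + 1) = 1 → η ^ q ^ 4 = η := by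
    intro η hη
    have h1 : q ^ 4 = (q ^ 2 + 1) * (q ^ 2 - 1) + 1 := by
      obtain ⟨k, hk⟩ : ∃ k, q ^ 2 = k + 1 := ⟨q ^ 2 - 1, by
        have := Nat.one_le_pow 2 q (by omega)
        omega⟩
      rw [show q ^ 4 = q ^ 2 * q ^ 2 by ring, hk, Nat.add_sub_cancel]
      ring
    rw [h1, pow_succ, pow_mul, hη, one_pow, one_mul]
  have hlt : ∀ i j : ℕ, 0 < i → i < j → j ≤ 4 → ξ ^ q ^ i ≠ ξ ^ q ^ j := by
    intro i j hi hij hj h
    have h1 : (ξ ^ q ^ i) ^ (q ^ 2 + 1) = 1 := by rw [← pow_mul, mul_comm, pow_mul, hξp, one_pow]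
    have h2 : ξ ^ q ^ i ≠ 1 := by
      intro h3
      apply hξ1
      rw [← hq4 hξp, show (4 : ℕ) = i + (4 - i) by omega, pow_add, pow_mul, h3, one_pow]
    refine frob_ne (c := j - i) h2 h1 (by omega) (by omega) ?_
    rw [← pow_mul, ← pow_add, Nat.add_sub_cancel' hij.le]
    exact h.symm
  have hLI := Module.End.eigenvectors_linearIndependent' X (fun k : Fin 4 => ξ ^ q ^ (4 - (k : ℕ))) (by
    intro i j hij
    simp only at hij
    by_contra hne
    have hne' : (i : ℕ) ≠ j := fun h => hne (Fin.ext h)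
    have hi := i.2
    have hj := j.2
    rcases lt_or_gt_of_ne hne' with h | h
    · exact hlt (4 - j) (4 - i) (by omega) (by omega) (by omega) hij.symm
    · exact hlt (4 - i) (4 - j) (by omega) (by omega) (by omega) hij)
    (fun k => (Y ^ (k : ℕ)) w) (fun k => by
      rw [Module.End.hasEigenvector_iff, Module.End.mem_eigenspace_iff]
      have hk := k.2
      exact ⟨heig k (by omega), hne k (by omega)⟩)
  rw [Fintype.linearIndependent_iff] at hLI
  have h1 := congrArg (fun A : Module.End L W => A w) hY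
  simp only [LinearMap.sum_apply, LinearMap.zero_apply] at h1
  have h2 := hLI (fun _ => 1) (by
    simp only [one_smul]
    rw [Fin.sum_univ_eq_sum_range (fun k => (Y ^ k) w) 4]
    exact h1) 0
  exact one_ne_zero h2

end Cfsg.Agent.H379.P4.OwnTwo
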