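import Mathlib
import Cfsg.Agent.H379.P4.OwnTwo
import Cfsg.Agent.H379.P4.OwnThree
import Cfsg.Agent.H379.P4.OwnFive

/-!
# Groups isospectral to `PSp₄(q)` with a section `PSp₄(q)`: the kernel is trivial
-/

set_option autoImplicit false

namespace Cfsg.Agent.H379.P4.Own

open Cfsg.Agent.H374.Quad

universe u v

/-- **Part D: a normal `p`-subgroup `K` with `PSp₄(q) ≤ G ⧸ K` is trivial** if all element orders of `G` are
in `ω(PSp₄(q))`, `q > 3`, `q ≠ 5`. -/
theorem main {F : Type v} [Field F] [Fintype F] {p : ℕ} [hc : CharP F p] (hq3 : 3 < Fintype.card F)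
    (hq5 : Fintype.card F ≠ 5) {G : Type u} [Group G] [Finite G]
    (hom : ∀ g : G, Om p (Fintype.card F) (orderOf g)) (K : Subgroup G) [K.Normal] (hKp : IsPGroup p K)
    (f : Cfsg.PSp 2 F →* G ⧸ K) (hf : Function.Injective f) : K = ⊥ := by
  have hp : p.Prime := CharP.char_is_prime F p
  have : Fact p.Prime := ⟨hp⟩
  by_cases h2 : p = 2
  · subst h2
    exact OwnTwo.two hq3 hom K hKp f hf
  by_cases h3 : p = 3
  · subst h3
    exact OwnThree.three hq3 hom K hKp f hf
  have h4 : p ≠ 4 := by rintro rfl; exact absurd hp (by norm_num)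
  have := hp.two_le
  exact OwnFive.five (by omega) hq5 hom K hKp f hf

end Cfsg.Agent.H379.P4.Own
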